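import Mathlib
import Cfsg.Agent.Lib.Helper25.ACStmt

set_option autoImplicit false

namespace Cfsg.Agent.Lib.Helper17.ACLIFT2

open Cfsg.Agent.Lib.Helper25.ACStmt

universe u

theorem main : Lift2.{u} := by
  intro G _ _ K _ hodd y k hy
  rcases Nat.eq_zero_or_pos k with hk0 | hkpos
  · subst hk0
    rw [pow_zero, orderOf_eq_one_iff] at hy
    exact ⟨1, by simp, by rw [map_one, hy]⟩
  obtain ⟨g₀, rfl⟩ := QuotientGroup.mk'_surjective K y
  have h1 : 2 ^ k ∣ orderOf g₀ := by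
    rw [← hy]
    exact orderOf_map_dvd (QuotientGroup.mk' K) g₀
  have h2 : g₀ ^ 2 ^ k ∈ K := by
    apply (QuotientGroup.eq_one_iff _).1
    have : (QuotientGroup.mk' K) (g₀ ^ 2 ^ k) = 1 := by
      rw [map_pow, ← hy, pow_orderOf_eq_one]
    exact this
  have h3 : orderOf (g₀ ^ 2 ^ k) ∣ Nat.card K := Subgroup.orderOf_dvd_natCard K h2
  have h4 : orderOf g₀ ∣ 2 ^ k * Nat.card K := by
    apply orderOf_dvd_of_pow_eq_one
    rw [pow_mul]
    exact orderOf_dvd_iff_pow_eq_one.1 h3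
  obtain ⟨m, hm⟩ := h1
  have hmdvd : m ∣ Nat.card K := by
    rw [hm] at h4
    exact Nat.dvd_of_mul_dvd_mul_left (by positivity) h4
  have hmodd : Odd m := Odd.of_dvd_nat hodd hmdvd
  have hcop : Nat.Coprime m (2 ^ k) :=
    Nat.Coprime.pow_right k (Nat.coprime_two_right.2 hmodd)
  have hlt : 1 < 2 ^ k := Nat.one_lt_two_pow (by omega)
  obtain ⟨t, -, ht⟩ := Nat.exists_mul_mod_eq_one_of_coprime hcop hlt
  refine ⟨g₀ ^ (m * t), ?_, ?_⟩
  · have hmk : (QuotientGroup.mk' K) (g₀ ^ (m * t)) = (QuotientGroup.mk' K) g₀ := by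
      rw [map_pow, ← pow_mod_orderOf, hy, ht, pow_one]
    apply Nat.dvd_antisymm
    · apply orderOf_dvd_of_pow_eq_one
      rw [← pow_mul]
      have e : m * t * 2 ^ k = orderOf g₀ * t := by
        rw [hm]
        ring
      rw [e, pow_mul, pow_orderOf_eq_one, one_pow]
    · rw [← hy, ← hmk]
      exact orderOf_map_dvd (QuotientGroup.mk' K) _
  · rw [map_pow, ← pow_mod_orderOf, hy, ht, pow_one]

end Cfsg.Agent.Lib.Helper17.ACLIFT2
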