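import Mathlib
import Cfsg.Agent.Lib.Helper25.ACStmt

set_option autoImplicit false

namespace Cfsg.Agent.Lib.Helper17.ACSZLIFT

open Cfsg.Agent.Lib.Helper25.ACStmt

universe u

theorem main : SZLift.{u} := by
  intro G _ _ N _ A hA hcop
  have hNle : N ≤ A.comap (QuotientGroup.mk' N) := by
    intro n hn
    rw [Subgroup.mem_comap]
    have h1 : (QuotientGroup.mk' N) n = 1 := (QuotientGroup.eq_one_iff n).2 hn
    rw [h1]
    exact A.one_mem
  have hker : ((QuotientGroup.mk' N).comp (A.comap (QuotientGroup.mk' N)).subtype).ker =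
      N.subgroupOf (A.comap (QuotientGroup.mk' N)) := by
    ext x
    rw [MonoidHom.mem_ker, Subgroup.mem_subgroupOf]
    exact QuotientGroup.eq_one_iff x.1
  have hrange : ((QuotientGroup.mk' N).comp (A.comap (QuotientGroup.mk' N)).subtype).range =
      A := by
    ext y
    constructor
    · rintro ⟨x, rfl⟩
      exact x.2
    · intro hy
      obtain ⟨g, rfl⟩ := QuotientGroup.mk'_surjective N y
      exact ⟨⟨g, hy⟩, rfl⟩
  have hidx : (N.subgroupOf (A.comap (QuotientGroup.mk' N))).index = Nat.card A := by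
    rw [← hker, Subgroup.index_ker, hrange]
  have hcard : Nat.card (N.subgroupOf (A.comap (QuotientGroup.mk' N))) = Nat.card N :=
    Nat.card_congr (Subgroup.subgroupOfEquivOfLe hNle).toEquiv
  have hcop' : (Nat.card (N.subgroupOf (A.comap (QuotientGroup.mk' N)))).Coprime
      (N.subgroupOf (A.comap (QuotientGroup.mk' N))).index := by
    rw [hcard, hidx]
    exact hcop
  obtain ⟨H', hH'⟩ := Subgroup.exists_right_complement'_of_coprime hcop'
  have hdisj : ∀ h ∈ H', (QuotientGroup.mk' N) h.1 = 1 → h = 1 := by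
    intro h hh h1
    have hk : h ∈ N.subgroupOf (A.comap (QuotientGroup.mk' N)) := by
      rw [Subgroup.mem_subgroupOf]
      exact (QuotientGroup.eq_one_iff h.1).1 h1
    have h2 : h ∈ (N.subgroupOf (A.comap (QuotientGroup.mk' N))) ⊓ H' := ⟨hk, hh⟩
    rw [hH'.disjoint.eq_bot] at h2
    exact Subgroup.mem_bot.1 h2
  have hsurj : ∀ y ∈ A, ∃ h ∈ H', (QuotientGroup.mk' N) h.1 = y := by
    intro y hy
    obtain ⟨g, rfl⟩ := QuotientGroup.mk'_surjective N y
    obtain ⟨⟨n, h⟩, hnh⟩ := hH'.2 (⟨g, hy⟩ : ↥(A.comap (QuotientGroup.mk' N)))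
    refine ⟨h.1, h.2, ?_⟩
    have e1 : (n.1 : ↥(A.comap (QuotientGroup.mk' N))).1 * (h.1 : ↥(A.comap (QuotientGroup.mk' N))).1 = g :=
      congrArg Subtype.val hnh
    have e2 : (QuotientGroup.mk' N) (n.1 : ↥(A.comap (QuotientGroup.mk' N))).1 = 1 :=
      (QuotientGroup.eq_one_iff _).2 (Subgroup.mem_subgroupOf.1 n.2)
    rw [← e1, map_mul, e2, one_mul]
  -- the lift
  have hkey : ∀ x ∈ H'.map (A.comap (QuotientGroup.mk' N)).subtype,
      (QuotientGroup.mk' N) x = 1 → x = 1 := by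
    rintro x ⟨h, hh, rfl⟩ h1
    have := hdisj h hh h1
    rw [this]
    rfl
  have hmap : (H'.map (A.comap (QuotientGroup.mk' N)).subtype).map (QuotientGroup.mk' N) = A := by
    ext y
    constructor
    · rintro ⟨x, ⟨h, hh, rfl⟩, rfl⟩
      exact h.2
    · intro hy
      obtain ⟨h, hh, e⟩ := hsurj y hy
      exact ⟨h.1, ⟨h, hh, rfl⟩, e⟩
  have hmem : ∀ x ∈ H'.map (A.comap (QuotientGroup.mk' N)).subtype,
      (QuotientGroup.mk' N) x ∈ A := by
    intro x hx
    rw [← hmap]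
    exact Subgroup.mem_map_of_mem _ hx
  refine ⟨H'.map (A.comap (QuotientGroup.mk' N)).subtype, ⟨⟨fun a b => ?_⟩⟩, hmap, ?_⟩
  · apply Subtype.ext
    have hc : (QuotientGroup.mk' N) a.1 * (QuotientGroup.mk' N) b.1 =
        (QuotientGroup.mk' N) b.1 * (QuotientGroup.mk' N) a.1 := by
      have := mul_comm' (⟨_, hmem a.1 a.2⟩ : ↥A) ⟨_, hmem b.1 b.2⟩
      exact congrArg Subtype.val this
    have h1 : a.1 * b.1 * (b.1 * a.1)⁻¹ = 1 := by
      apply hkey
      · exact Subgroup.mul_mem _ (Subgroup.mul_mem _ a.2 b.2)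
          (Subgroup.inv_mem _ (Subgroup.mul_mem _ b.2 a.2))
      · rw [map_mul, map_inv, map_mul, map_mul, hc, mul_inv_cancel]
    exact mul_inv_eq_one.1 h1
  · apply Nat.card_congr
    refine Equiv.ofBijective (fun x => (⟨(QuotientGroup.mk' N) x.1, hmem x.1 x.2⟩ : ↥A)) ⟨?_, ?_⟩
    · intro x y hxy
      have e : (QuotientGroup.mk' N) x.1 = (QuotientGroup.mk' N) y.1 := congrArg Subtype.val hxy
      have h1 : x.1 * y.1⁻¹ = 1 := by
        apply hkey
        · exact Subgroup.mul_mem _ x.2 (Subgroup.inv_mem _ y.2)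
        · rw [map_mul, map_inv, e, mul_inv_cancel]
      exact Subtype.ext (mul_inv_eq_one.1 h1)
    · intro y
      obtain ⟨h, hh, e⟩ := hsurj y.1 y.2
      exact ⟨⟨h.1, ⟨h, hh, rfl⟩⟩, Subtype.ext e⟩

end Cfsg.Agent.Lib.Helper17.ACSZLIFT
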