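import Mathlib
import Cfsg.Agent.Lib.Helper44.BCStmt
import Cfsg.Agent.Lib.Helper44.OTyp3

set_option autoImplicit false

/-! S2362 piece [COUNT1] (second seat, helper17). -/

namespace Cfsg.Agent.Lib.Helper17.BCCOUNT1

open Matrix Polynomial
open Cfsg.Agent.Lib.Helper44.QSpace Cfsg.Agent.Lib.Helper44.OGroup Cfsg.Agent.Lib.Helper44.OMat
open Cfsg.Agent.Lib.Helper44.OExt
open Cfsg.Agent.Lib.Helper44.BCStmt

universe u

theorem arith (q a A B : ℕ) (hq : 2 ≤ q) (ha : 1 ≤ a)
    (h1 : A * q = a * q + q ^ 2 * ((a - 1) * a)) (h2 : (a * q) ^ 2 = A + (q - 1) * B) :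
    B = a * (a * q + 1) := by
  have hpos : 0 < q * (q - 1) := by
    apply Nat.mul_pos <;> omega
  apply Nat.eq_of_mul_eq_mul_left hpos
  have hq1 : 1 ≤ q := by omega
  zify [ha, hq1] at h1 h2 ⊢
  linear_combination (-(q:ℤ)) * h2 - h1

theorem main (hLevel : Level.{u}) (hNF : Cfsg.Agent.Lib.Helper44.SPStmt.NoFixIff.{u}) :
    Count1.{u} := by
  classical
  intro F _ _ p _ _ r m h2 hr hr2 hrp hord hm κ _ _ N T hcard hdet hiso hTr hfix
  obtain ⟨k, rfl⟩ : ∃ k, m = k + 1 := ⟨m - 1, by omega⟩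
  have hS : Sep (qN N) := sep_qN hdet
  have hnf : ¬ (X - C (1 : F)) ∣ T.charpoly := (hNF F κ T).mp hfix
  have : Fact r.Prime := ⟨hr⟩
  have hq0 : ((Fintype.card F : ℕ) : ZMod r) ≠ 0 := by
    intro h0
    rw [h0] at hord
    have h1 : orderOf (0 : ZMod r) = 0 := by
      rw [orderOf_eq_zero_iff']
      intro n hn h
      rw [zero_pow hn.ne'] at h
      exact zero_ne_one h
    omega
  have hdvd : 2 * (k + 1) ∣ r - 1 := by
    rw [← hord]
    exact orderOf_dvd_of_pow_eq_one (ZMod.pow_card_sub_one_eq_one hq0)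
  obtain ⟨t, ht⟩ := hdvd
  have ht' : t * (2 * (k + 1)) = r - 1 := by rw [ht, mul_comm]
  have hcond : ¬ (Odd (2 * (k + 1)) ∨ Even (2 * (k + 1) / (2 * (k + 1)))) := by
    rw [Nat.div_self (by omega)]
    rintro (h | h)
    · exact (Nat.not_odd_iff_even.mpr (even_two_mul (k + 1))) h
    · exact absurd h (by decide)
  have hobs := (Cfsg.Agent.Lib.Helper44.OTyp3.obs_matrix (F := F) (p := p) (qN N) hS (k := k)
    hcard r (2 * (k + 1)) t hr hr2 hrp hord.symm ht' T hTr hiso hnf).2 hcond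
  -- fibre count
  have hfib : Fintype.card (κ → F) = ∑ c : F, Nat.card {x : κ → F // qN N x = c} := by
    rw [← Finset.card_univ, Finset.card_eq_sum_card_fiberwise (f := fun x : κ → F => qN N x)
      (t := Finset.univ) (fun x _ => Finset.mem_univ _)]
    refine Finset.sum_congr rfl (fun c _ => ?_)
    rw [Nat.card_eq_fintype_card, Fintype.card_subtype]
  have hsplit : ∑ c : F, Nat.card {x : κ → F // qN N x = c}
      = Nat.card {x : κ → F // qN N x = 0}
        + (Fintype.card F - 1) * Nat.card {x : κ → F // qN N x = 1} := by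
    rw [← Finset.add_sum_erase Finset.univ _ (Finset.mem_univ (0 : F))]
    congr 1
    rw [Finset.sum_congr rfl (fun c hc =>
      hLevel F κ (qN N) h2 hS k hcard c (Finset.ne_of_mem_erase hc)), Finset.sum_const,
      Finset.card_erase_of_mem (Finset.mem_univ _), Finset.card_univ, smul_eq_mul]
  rw [hsplit, Fintype.card_fun, hcard] at hfib
  have hq : 2 ≤ Fintype.card F := Fintype.one_lt_card
  have ha : 1 ≤ Fintype.card F ^ k := Nat.one_le_pow _ _ (by omega)
  have hfin := arith (Fintype.card F) (Fintype.card F ^ k) _ _ hq ha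
    (by rw [hobs]; ring) (by rw [← hfib]; ring)
  rw [hfin, Nat.add_sub_cancel, pow_succ]

end Cfsg.Agent.Lib.Helper17.BCCOUNT1
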