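import Mathlib
import Cfsg.Agent.Lib.Helper44.BCStmt
import Cfsg.Agent.Lib.Helper44.OTyp3

set_option autoImplicit false

/-! S2362 piece [DIMS] (second seat, helper17). -/

namespace Cfsg.Agent.Lib.Helper17.BCDIMS

open Matrix Polynomial UniqueFactorizationMonoid
open Cfsg.Agent.Lib.Helper44.QSpace Cfsg.Agent.Lib.Helper44.OGroup Cfsg.Agent.Lib.Helper44.OMat
open Cfsg.Agent.Lib.Helper44.OExt
open Cfsg.Agent.Lib.Helper44.BCStmt

universe u

theorem main (hNF : Cfsg.Agent.Lib.Helper44.SPStmt.NoFixIff.{u})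
    (hCF : Cfsg.Agent.Lib.Helper44.SPStmt.CharFacts.{u}) : Dims.{u} := by
  classical
  intro F _ _ p _ _ r m hr hr2 hrp hord hm k₁ k₂ N₂ T₂ hk hk2 hdet hiso hTr hfix
  have hmon : T₂.charpoly.Monic := Matrix.charpoly_monic T₂
  have hdeg : T₂.charpoly.natDegree = k₂ := by
    rw [Matrix.charpoly_natDegree_eq_dim, Fintype.card_fin]
  have hnf : ¬ (X - C (1 : F)) ∣ T₂.charpoly := (hNF F (Fin k₂) T₂).mp hfix
  have hcf := (hCF F (Fin k₂) (qN N₂) (sep_qN hdet) T₂ r hr.pos hTr hiso).2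
  -- `2m ∣ r - 1`
  have : Fact r.Prime := ⟨hr⟩
  have hq0 : ((Fintype.card F : ℕ) : ZMod r) ≠ 0 := by
    intro h0
    rw [h0] at hord
    have h1 : orderOf (0 : ZMod r) = 0 := by
      rw [orderOf_eq_zero_iff']
      intro n hn h
      rw [zero_pow hn.ne'] at h
      exact zero_ne_one h
    omega
  have hdvd : 2 * m ∣ r - 1 := by
    rw [← hord]
    exact orderOf_dvd_of_pow_eq_one (ZMod.pow_card_sub_one_eq_one hq0)
  obtain ⟨t, ht⟩ := hdvd
  have ht' : t * (2 * m) = r - 1 := by rw [ht, mul_comm]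
  have hfacts := (Cfsg.Agent.Lib.Helper44.OTyp3.facts (F := F) (p := p) r (2 * m) t hr hr2 hrp
    hord.symm ht').1 T₂.charpoly hmon
    (fun P hP => hcf P (irreducible_of_normalized_factor P hP) (dvd_of_mem_normalizedFactors hP))
    hnf
  rw [hdeg] at hfacts
  have hk2' : k₂ = 2 * m := by
    obtain ⟨d, hd⟩ := hfacts
    have hd1 : d = 1 := by
      rcases d with _ | _ | d
      · omega
      · rfl
      · exfalso
        have : 2 * m * (d + 1 + 1) ≥ 2 * m * 2 := Nat.mul_le_mul_left _ (by omega)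
        omega
    rw [hd, hd1, mul_one]
  refine ⟨hk2', by omega, ?_⟩
  -- irreducibility
  obtain ⟨S, -, hLS, hS, hSdvd⟩ :=
    Cfsg.Agent.S2568.cyclo_facts (F := F) (p := p) r (2 * m) t hr hrp hord.symm ht'
  have hdegpos : 0 < T₂.charpoly.natDegree := by rw [hdeg]; exact hk2
  have hnu : ¬ IsUnit T₂.charpoly := by
    intro hu
    have := natDegree_eq_zero_of_isUnit hu
    omega
  obtain ⟨P₀, hP₀irr, hP₀dvd⟩ := WfDvdMonoid.exists_irreducible_factor hnu hmon.ne_zero
  -- normalise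
  obtain ⟨P, hPirr, hPmon, hPdvd⟩ : ∃ P : F[X], Irreducible P ∧ P.Monic ∧ P ∣ T₂.charpoly := by
    refine ⟨normalize P₀, ?_, ?_, ?_⟩
    · exact (associated_normalize P₀).irreducible hP₀irr
    · exact Polynomial.monic_normalize hP₀irr.ne_zero
    · exact (normalize_dvd_iff).mpr hP₀dvd
  have hPX : P ∣ X ^ r - C (1 : F) := hcf P hPirr hPdvd
  have hPS : P ∈ S := by
    rcases (hSdvd P hPirr hPmon).mp hPX with h | h
    · exact absurd (h ▸ hPdvd) hnf
    · exact h
  have hPdeg : P.natDegree = 2 * m := (hS P hPS).2.2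
  obtain ⟨R, hR⟩ := hPdvd
  have hRmon : R.Monic := by
    have := hmon
    rw [hR] at this
    exact hPmon.of_mul_monic_left this
  have hRdeg : R.natDegree = 0 := by
    have h1 := congrArg natDegree hR
    rw [hPmon.natDegree_mul hRmon, hdeg, hPdeg] at h1
    omega
  have hR1 : R = 1 := by
    exact Polynomial.eq_one_of_monic_natDegree_zero hRmon hRdeg
  rw [hR, hR1, mul_one]
  exact hPirr

end Cfsg.Agent.Lib.Helper17.BCDIMS
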