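import Mathlib
import Cfsg.Agent.Lib.Helper80.DefOneRow
import Cfsg.Agent.Lib.Helper17.BqRow
import Cfsg.Agent.Lib.Helper80.AbSylowGT
import Cfsg.Agent.Lib.CT.SectionOrth

/-!
# Blocks of defect one: power maps (Galois conjugation) on sections and columns

`P` a Sylow `p`-subgroup of order `p`, `C = C_G(P)`, `a` an integer with
`a ≡ 1` modulo the `p'`-part of `|G|`.

* `exists_conj_decomp`: a `p`-singular element is conjugate to `u * k`, `1 ≠ u ∈ P`, `k ∈ C`
  `p`-regular.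
* `sec_pow`, `col_pow`: the section coefficients and the columns of `g ↦ χ (g ^ a)`.
* `pow_fixed_of_const`: a character of the block with constant column is fixed by `g ↦ g ^ a`.
-/

set_option autoImplicit false
set_option linter.unusedSectionVars false
set_option linter.style.haveILetI false
set_option maxHeartbeats 1000000

namespace Cfsg.Agent.Lib.Helper17.BqExc

open Cfsg Cfsg.Agent.Lib.CT Cfsg.Agent.Lib.CT.Wedderburn Cfsg.Agent.Lib.Helper17.BrGrp
  Cfsg.Agent.Lib.Helper80.DefOneLoc Cfsg.Agent.Lib.Helper80.DefOneCol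
  Cfsg.Agent.Lib.Helper80.DefOneGram Cfsg.Agent.Lib.Helper80.DefOneRow
  Cfsg.Agent.Lib.Helper80.AbSylowCh
open scoped ComplexConjugate

universe u
variable {G : Type u} [Group G] {p : ℕ} [Fact p.Prime]

section General

variable [Finite G]

theorem pow_eq_self_of_reg (a : ℕ)
    (ha : a ≡ 1 [MOD Nat.card G / p ^ (Nat.card G).factorization p]) (k : G)
    (hk : ¬ p ∣ orderOf k) : k ^ a = k := by
  have hp : p.Prime := Fact.out
  have h1 : orderOf k ∣ Nat.card G := orderOf_dvd_natCard k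
  have hmul : p ^ (Nat.card G).factorization p *
      (Nat.card G / p ^ (Nat.card G).factorization p) = Nat.card G :=
    Nat.ordProj_mul_ordCompl_eq_self _ _
  have hcop : Nat.Coprime (orderOf k) (p ^ (Nat.card G).factorization p) :=
    Nat.Coprime.pow_right _ ((Nat.Prime.coprime_iff_not_dvd hp).mpr hk).symm
  have h2 : orderOf k ∣ Nat.card G / p ^ (Nat.card G).factorization p := by
    rw [← hmul] at h1
    exact hcop.dvd_of_dvd_mul_left h1
  have h3 : a ≡ 1 [MOD orderOf k] := ha.of_dvd h2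
  have h4 : k ^ a = k ^ 1 := pow_eq_pow_iff_modEq.mpr h3
  rw [h4, pow_one]

/-- A `p`-singular element is conjugate to `u * k` with `1 ≠ u ∈ P` and `k ∈ C_G(P)`
`p`-regular. -/
theorem exists_conj_decomp (P : Sylow p G) (hP : Nat.card P = p) (g : G) (hg : p ∣ orderOf g) :
    ∃ (x u : G) (k : ↥(Subgroup.centralizer ((P : Subgroup G) : Set G))),
      u ∈ (P : Subgroup G) ∧ u ≠ 1 ∧ ¬ p ∣ orderOf k ∧ g = x * (u * (k : G)) * x⁻¹ := by
  have hp : p.Prime := Fact.out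
  haveI : Fintype G := Fintype.ofFinite G
  obtain ⟨z, y, hzy, hcomm, ⟨m, hm⟩, hy⟩ := Cfsg.Agent.Lib.CT.SectionOrth.exists_isPPart p hp g
  have hz1 : z ≠ 1 := by
    rintro rfl
    rw [one_mul] at hzy
    rw [← hzy] at hg
    exact hy hg
  obtain ⟨x, hx⟩ := Cfsg.Agent.Lib.Helper80.AbSylowGT.exists_conj_mem_sylow p P z m hm
  have hu1 : x⁻¹ * z * x ≠ 1 := by
    intro h
    apply hz1
    have e : z = x * (x⁻¹ * z * x) * x⁻¹ := by group
    rw [e, h]
    group
  have hk : x⁻¹ * y * x ∈ Subgroup.centralizer ((P : Subgroup G) : Set G) := by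
    rw [mem_centralizer_iff P hP hx hu1]
    have h := hcomm.eq
    calc x⁻¹ * y * x * (x⁻¹ * z * x) = x⁻¹ * (y * z) * x := by group
      _ = x⁻¹ * (z * y) * x := by rw [h]
      _ = x⁻¹ * z * x * (x⁻¹ * y * x) := by group
  refine ⟨x, x⁻¹ * z * x, ⟨x⁻¹ * y * x, hk⟩, hx, hu1, ?_, ?_⟩
  · rw [← Subgroup.orderOf_coe]
    show ¬ p ∣ orderOf (x⁻¹ * y * x)
    rw [orderOf_conj_inv]
    exact hy
  · show g = x * (x⁻¹ * z * x * (x⁻¹ * y * x)) * x⁻¹
    rw [← hzy]
    group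

end General

section Sec

variable [Fintype G] (P : Sylow p G) (hP : Nat.card P = p)

local notation "𝐂" => Subgroup.centralizer ((P : Subgroup G) : Set G)
local notation "𝐍" => Subgroup.normalizer ((P : Subgroup G) : Set G)

variable [Fintype ↥(Subgroup.centralizer ((P : Subgroup G) : Set G))] [Fintype ↥(P : Subgroup G)]
  (π : ↥(Subgroup.centralizer ((P : Subgroup G) : Set G)) →* ↥(P : Subgroup G))
  (hπP : ∀ c : ↥(Subgroup.centralizer ((P : Subgroup G) : Set G)),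
    (c : G) ∈ (P : Subgroup G) → ((π c : ↥(P : Subgroup G)) : G) = (c : G))
  (hπreg : ∀ c : ↥(Subgroup.centralizer ((P : Subgroup G) : Set G)), π c = 1 ↔ ¬ p ∣ orderOf c)

/-- Section coefficients of `g ↦ χ (g ^ a)`. -/
theorem sec_pow (ξ : ↥𝐂 → ℂ) (χ : G → ℂ) (a : ℕ)
    (ha : a ≡ 1 [MOD Nat.card G / p ^ (Nat.card G).factorization p]) (w : G)
    (hw : w ∈ (P : Subgroup G)) :
    sec P ξ (fun g => χ (g ^ a)) w = sec P ξ χ (w ^ a) := by
  unfold sec
  congr 1
  refine Finset.sum_congr rfl fun r _ => ?_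
  by_cases hr : p ∣ orderOf r
  · rw [if_pos hr, if_pos hr]
  · rw [if_neg hr, if_neg hr]
    have hcomm : Commute w (r : G) := Subgroup.mem_centralizer_iff.1 r.2 w hw
    have hr' : ¬ p ∣ orderOf (r : G) := by rwa [Subgroup.orderOf_coe]
    show χ ((w * (r : G)) ^ a) * _ = _
    rw [hcomm.mul_pow, pow_eq_self_of_reg a ha (r : G) hr']

include hP hπP hπreg in
/-- Columns of `g ↦ χ (g ^ a)`. -/
theorem col_pow {θ : ↥𝐂 → ℂ} (hθ : IsCharacter ↥𝐂 θ)
    (hθP : ∀ x : ↥𝐂, (x : G) ∈ (P : Subgroup G) → θ x = θ 1)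
    (ψ : ↥(P : Subgroup G) →* ℂˣ) (χ : G → ℂ) (a : ℕ)
    (ha : a ≡ 1 [MOD Nat.card G / p ^ (Nat.card G).factorization p]) (hap : ¬ p ∣ a) :
    col P π θ (ψ ^ a) (fun g => χ (g ^ a)) = col P π θ ψ χ := by
  have hp : p.Prime := Fact.out
  rw [col_eq P hP π hπP hπreg hθ hθP, col_eq P hP π hπP hπreg hθ hθP]
  have hcop : (Nat.card ↥(P : Subgroup G)).Coprime a := by
    rw [show Nat.card ↥(P : Subgroup G) = p from hP]
    exact (Nat.Prime.coprime_iff_not_dvd hp).mpr hap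
  refine Fintype.sum_equiv (powCoprime hcop) _ _ fun z => ?_
  show (conj (((ψ ^ a) z : ℂˣ) : ℂ) - 1) * sec P θ (fun g => χ (g ^ a)) (z : G) =
    (conj ((ψ (z ^ a) : ℂˣ) : ℂ) - 1) * sec P θ χ ((z ^ a : ↥(P : Subgroup G)) : G)
  rw [sec_pow P θ χ a ha (z : G) z.2, MonoidHom.pow_apply, map_pow]
  rfl

open Classical in
include hP hπP hπreg in
/-- A character of the block with constant column is fixed by the power map `g ↦ g ^ a`. -/
theorem pow_fixed_of_const [Fintype (IrrCharacter ↥𝐂)] [Fintype (↥(P : Subgroup G) →* ℂˣ)]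
    (M : Ideal AlgInt) (hM : IsPModular p M)
    (B : Set (IrrCharacter G)) (hB : IsPBlock M B) (hBP : IsDefectGroup p M B P)
    (b : Set (IrrCharacter ↥𝐂)) (hind : IsInducedBlock M 𝐂 b B)
    (θ : IrrCharacter ↥𝐂) (hθ : θ ∈ b)
    (hθP : ∀ x : ↥𝐂, (x : G) ∈ (P : Subgroup G) → (θ : ↥𝐂 → ℂ) x = (θ : ↥𝐂 → ℂ) 1)
    (χ : IrrCharacter G) (hχ : χ ∈ B) (c : ℂ)
    (hc : ∀ ψ : ↥(P : Subgroup G) →* ℂˣ, ψ ≠ 1 →
      col P π (θ : ↥𝐂 → ℂ) ψ (χ : G → ℂ) = c)
    (a : ℕ) (hac : a.Coprime (Nat.card G))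
    (ha : a ≡ 1 [MOD Nat.card G / p ^ (Nat.card G).factorization p]) (g : G) :
    (χ : G → ℂ) (g ^ a) = (χ : G → ℂ) g := by
  have hp : p.Prime := Fact.out
  have hcl : IsClassFunction G (χ : G → ℂ) := Orth.irr_isClassFunction χ
  by_cases hg : p ∣ orderOf g
  · obtain ⟨x, u, k, hu, hu1, hk, rfl⟩ := exists_conj_decomp P hP g hg
    have hpa : ¬ p ∣ a := by
      intro h
      have hpG : p ∣ Nat.card G := by
        have h1 : Nat.card ↥(P : Subgroup G) ∣ Nat.card G := Subgroup.card_subgroup_dvd_card _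
        rwa [show Nat.card ↥(P : Subgroup G) = p from hP] at h1
      have h2 : p ∣ Nat.gcd a (Nat.card G) := Nat.dvd_gcd h hpG
      rw [hac] at h2
      exact hp.one_lt.ne' (Nat.dvd_one.mp h2)
    have hk' : ¬ p ∣ orderOf (k : G) := by rwa [Subgroup.orderOf_coe]
    have hcomm : Commute u (k : G) := Subgroup.mem_centralizer_iff.1 k.2 u hu
    have e1 : (x * (u * (k : G)) * x⁻¹) ^ a = x * (u ^ a * (k : G)) * x⁻¹ := by
      rw [conj_pow, hcomm.mul_pow, pow_eq_self_of_reg a ha (k : G) hk']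
    rw [e1, hcl, hcl]
    have hua : u ^ a ∈ (P : Subgroup G) := Subgroup.pow_mem _ hu a
    have hua1 : u ^ a ≠ 1 := by
      intro h
      have h1 := orderOf_dvd_of_pow_eq_one h
      rw [orderOf_eq P hP hu hu1] at h1
      exact hpa h1
    rw [Cfsg.Agent.Lib.Helper17.BqRow.value_eq_sum_mul P hP π hπP hπreg (χ : G → ℂ) hcl (u ^ a)
        hua k hk,
      Cfsg.Agent.Lib.Helper17.BqRow.value_eq_sum_mul P hP π hπP hπreg (χ : G → ℂ) hcl u hu k hk]
    refine Finset.sum_congr rfl fun ξ _ => ?_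
    by_cases hξP : ∀ x : ↥𝐂, (x : G) ∈ (P : Subgroup G) → (ξ : ↥𝐂 → ℂ) x = (ξ : ↥𝐂 → ℂ) 1
    · rw [if_pos hξP, if_pos hξP]
      congr 1
      by_cases hO : ∃ n : ↥𝐍, conjTh P (θ : ↥𝐂 → ℂ) n = (ξ : ↥𝐂 → ℂ)
      · obtain ⟨n, hn⟩ := hO
        rw [← hn, sec_conjTh P _ hcl n, sec_conjTh P _ hcl n]
        have hw : ∀ v : G, v ∈ (P : Subgroup G) → v ≠ 1 →
            (p : ℂ) * sec P (θ : ↥𝐂 → ℂ) (χ : G → ℂ) ((n : G) * v * (n : G)⁻¹) = - c := by
          intro v hv hv1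
          have hw1 : (cj (P : Subgroup G) (n : G) n.2 ⟨v, hv⟩) ≠ 1 := by
            intro h
            apply hv1
            have h' := congrArg Subtype.val h
            rw [cj_coe, Subgroup.coe_one] at h'
            simpa using h'
          exact sec_of_const P hP π hπP hπreg (isCharacter_of_irr θ.2) hθP (χ : G → ℂ) c hc
            (cj (P : Subgroup G) (n : G) n.2 ⟨v, hv⟩) hw1
        rw [hw _ hua hua1, hw _ hu hu1]
      · rw [sec_eq_zero_of_not_orb P hP M hM B hB hBP b hind θ hθ hθP χ hχ ξ hξP hO hua hua1,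
          sec_eq_zero_of_not_orb P hP M hM B hB hBP b hind θ hθ hθP χ hχ ξ hξP hO hu hu1]
    · rw [if_neg hξP, if_neg hξP]
  · rw [pow_eq_self_of_reg a ha g hg]

end Sec

end Cfsg.Agent.Lib.Helper17.BqExc
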