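import Mathlib
import Cfsg.Agent.Lib.Helper17.BqExc
import Cfsg.Agent.Lib.Helper80.DefOneFull
import Cfsg.Agent.Lib.Helper76.GaloisConj

/-!
# Blocks of defect one: the exceptional family is a full Galois class

Arithmetic of exponents (`exists_exponent_crt`, `exists_inv_exponent`), powers of linear
characters of a group of prime order (`hom_eq_pow`), and the main theorem `galois_structure`:
for a block `B` whose defect group is a Sylow subgroup of order `p`, the exceptional family `Y`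
is a single orbit of the power maps `χ ↦ χ (· ^ a)` (`a` prime to `|G|`, `a ≡ 1` modulo the
`p'`-part of `|G|`), and the other characters of `B` are fixed by these maps.
-/

set_option autoImplicit false
set_option linter.unusedSectionVars false
set_option linter.style.haveILetI false
set_option maxHeartbeats 1000000

namespace Cfsg.Agent.Lib.Helper17.BqExc2

open Cfsg Cfsg.Agent.Lib.CT Cfsg.Agent.Lib.CT.Wedderburn Cfsg.Agent.Lib.Helper17.BrGrp
  Cfsg.Agent.Lib.Helper80.DefOneLoc Cfsg.Agent.Lib.Helper80.DefOneCol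
  Cfsg.Agent.Lib.Helper80.DefOneGram Cfsg.Agent.Lib.Helper80.DefOneRow
  Cfsg.Agent.Lib.Helper17.BqExc
open scoped ComplexConjugate

/-- Chinese remainder: an exponent prime to `n`, `≡ 1` modulo the `p'`-part of `n` and `≡ j`
modulo `p`. -/
theorem exists_exponent_crt (n : ℕ) (hn : n ≠ 0) (p : ℕ) [Fact p.Prime] (j : ℕ) (hj : ¬ p ∣ j) :
    ∃ a : ℕ, a.Coprime n ∧ a ≡ 1 [MOD n / p ^ n.factorization p] ∧ a ≡ j [MOD p] := by
  have hp : p.Prime := Fact.out
  have hcop : p.Coprime (n / p ^ n.factorization p) := Nat.coprime_ordCompl hp hn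
  obtain ⟨a, ha1, ha2⟩ := Nat.chineseRemainder hcop j 1
  refine ⟨a, ?_, ha2, ha1⟩
  have hpa : ¬ p ∣ a := fun h => hj ((Nat.ModEq.dvd_iff ha1 (dvd_refl p)).mp h)
  have h1 : a.Coprime (p ^ n.factorization p) :=
    Nat.Coprime.pow_right _ ((Nat.Prime.coprime_iff_not_dvd hp).mpr hpa).symm
  have h2 : a.Coprime (n / p ^ n.factorization p) := by
    have h := ha2.gcd_eq
    rw [Nat.gcd_one_left] at h
    exact h
  have hmul : p ^ n.factorization p * (n / p ^ n.factorization p) = n :=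
    Nat.ordProj_mul_ordCompl_eq_self n p
  rw [← hmul]
  exact Nat.Coprime.mul_right h1 h2

/-- An inverse exponent. -/
theorem exists_inv_exponent (n m : ℕ) (hn : n ≠ 0) (a : ℕ) (hac : a.Coprime n)
    (ha : a ≡ 1 [MOD m]) :
    ∃ a' : ℕ, a'.Coprime n ∧ a' ≡ 1 [MOD m] ∧ a * a' ≡ 1 [MOD n] := by
  have hφ : 0 < Nat.totient n := Nat.totient_pos.mpr (Nat.pos_of_ne_zero hn)
  refine ⟨a ^ (Nat.totient n - 1), Nat.Coprime.pow_left _ hac, ?_, ?_⟩
  · have h := ha.pow (Nat.totient n - 1)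
    rwa [one_pow] at h
  · have e : a * a ^ (Nat.totient n - 1) = a ^ Nat.totient n := by
      rw [← pow_succ']
      congr 1
      omega
    rw [e]
    exact Nat.ModEq.pow_totient hac

theorem pow_mul_eq_self {G : Type*} [Group G] [Finite G] (a a' : ℕ)
    (h : a * a' ≡ 1 [MOD Nat.card G]) (g : G) : (g ^ a') ^ a = g := by
  have h1 : a * a' ≡ 1 [MOD orderOf g] := h.of_dvd (orderOf_dvd_natCard g)
  have h2 : g ^ (a * a') = g ^ 1 := pow_eq_pow_iff_modEq.mpr h1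
  rw [← pow_mul, Nat.mul_comm, h2, pow_one]

/-- Nontrivial linear characters of a group of prime order are powers of each other. -/
theorem hom_eq_pow {W : Type*} [Group W] (p : ℕ) [Fact p.Prime] (hW : Nat.card W = p)
    (ψ₀ ψ₁ : W →* ℂˣ) (h₀ : ψ₀ ≠ 1) (h₁ : ψ₁ ≠ 1) :
    ∃ j : ℕ, ψ₁ = ψ₀ ^ j ∧ ¬ p ∣ j := by
  have hp : p.Prime := Fact.out
  haveI : NeZero p := ⟨hp.ne_zero⟩
  haveI : Finite W := Nat.finite_of_card_ne_zero (by rw [hW]; exact hp.ne_zero)
  have hpow : ∀ (ψ : W →* ℂˣ), ψ ^ p = 1 := by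
    intro ψ
    ext z
    rw [MonoidHom.pow_apply, ← map_pow, ← hW, pow_card_eq_one', map_one, MonoidHom.one_apply]
  obtain ⟨x, hx⟩ : ∃ x, ψ₀ x ≠ 1 := by
    by_contra hcon
    push Not at hcon
    exact h₀ (MonoidHom.ext fun z => by rw [hcon z, MonoidHom.one_apply])
  have hx1 : x ≠ 1 := fun h => hx (by rw [h, map_one])
  have hord : orderOf x = p := by
    have h1 : orderOf x ∣ p := by rw [← hW]; exact orderOf_dvd_natCard x
    rcases (Nat.dvd_prime hp).mp h1 with h | h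
    · exact absurd (orderOf_eq_one_iff.mp h) hx1
    · exact h
  have htop : Subgroup.zpowers x = ⊤ := by
    apply Subgroup.eq_top_of_card_eq
    rw [Nat.card_zpowers, hord, hW]
  have hω₀ : (ψ₀ x) ^ p = 1 := by
    rw [← MonoidHom.pow_apply, hpow, MonoidHom.one_apply]
  have hω₁ : (ψ₁ x) ^ p = 1 := by
    rw [← MonoidHom.pow_apply, hpow, MonoidHom.one_apply]
  have hordω : orderOf (ψ₀ x) = p := by
    have h1 : orderOf (ψ₀ x) ∣ p := orderOf_dvd_of_pow_eq_one hω₀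
    rcases (Nat.dvd_prime hp).mp h1 with h | h
    · exact absurd (orderOf_eq_one_iff.mp h) hx
    · exact h
  have hprim : IsPrimitiveRoot (ψ₀ x) p := by
    rw [← hordω]
    exact IsPrimitiveRoot.orderOf (ψ₀ x)
  have hprim' : IsPrimitiveRoot ((ψ₀ x : ℂˣ) : ℂ) p := IsPrimitiveRoot.coe_units_iff.mpr hprim
  have hω₁' : ((ψ₁ x : ℂˣ) : ℂ) ^ p = 1 := by
    rw [← Units.val_pow_eq_pow_val, hω₁, Units.val_one]
  obtain ⟨i, -, hi⟩ := hprim'.eq_pow_of_pow_eq_one hω₁'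
  have hi' : (ψ₀ x) ^ i = ψ₁ x := Units.ext (by rw [Units.val_pow_eq_pow_val]; exact hi)
  have hψ : ψ₁ = ψ₀ ^ i := by
    ext z
    have hz : z ∈ Subgroup.zpowers x := by rw [htop]; exact Subgroup.mem_top z
    obtain ⟨n, rfl⟩ := Subgroup.mem_zpowers_iff.mp hz
    rw [MonoidHom.pow_apply, map_zpow, map_zpow, ← hi', ← zpow_natCast, ← zpow_natCast,
      ← zpow_mul, ← zpow_mul, mul_comm]
  refine ⟨i, hψ, fun hdvd => h₁ ?_⟩
  obtain ⟨c, rfl⟩ := hdvd
  rw [hψ]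
  ext z
  rw [MonoidHom.pow_apply, pow_mul, ← MonoidHom.pow_apply ψ₀, hpow, MonoidHom.one_apply, one_pow]

theorem pow_eq_pow_of_modEq' {W : Type*} [Monoid W] {x : W} {n a b : ℕ} (h : x ^ n = 1)
    (hab : a ≡ b [MOD n]) : x ^ a = x ^ b := by
  have e : ∀ c : ℕ, x ^ c = x ^ (c % n) := by
    intro c
    conv_lhs => rw [← Nat.mod_add_div c n]
    rw [pow_add, pow_mul, h, one_pow, mul_one]
  rw [e a, e b, hab]

theorem hom_apply_pow_card {W : Type*} [Group W] [Finite W] (ψ : W →* ℂˣ) (z : W) :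
    ψ z ^ Nat.card W = 1 := by
  rw [← map_pow, pow_card_eq_one', map_one]

section Main

universe u
variable {G : Type u} [Group G] {p : ℕ} [Fact p.Prime] [Fintype G] (P : Sylow p G)
  (hP : Nat.card P = p)

local notation "𝐂" => Subgroup.centralizer ((P : Subgroup G) : Set G)
local notation "𝐍" => Subgroup.normalizer ((P : Subgroup G) : Set G)

open Classical in
include hP in
/-- **Blocks of defect one**: the exceptional family is one orbit of the power maps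
`χ ↦ χ (· ^ a)`, `a` prime to `|G|` and `≡ 1` modulo the `p'`-part of `|G|`; the other
characters of the block are fixed by these maps; signs and the relation on `p`-regular
elements. -/
theorem galois_structure (M : Ideal AlgInt) (hM : IsPModular p M)
    [Fintype ↥𝐂] [Fintype ↥(P : Subgroup G)] [Fintype ↥𝐍] [Fintype (IrrCharacter G)]
    [Fintype (IrrCharacter ↥𝐂)] [Fintype (↥(P : Subgroup G) →* ℂˣ)]
    (π : ↥𝐂 →* ↥(P : Subgroup G))
    (hπP : ∀ c : ↥𝐂, (c : G) ∈ (P : Subgroup G) → ((π c : ↥(P : Subgroup G)) : G) = (c : G))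
    (hπreg : ∀ c : ↥𝐂, π c = 1 ↔ ¬ p ∣ orderOf c)
    (B : Set (IrrCharacter G)) (hB : IsPBlock M B) (hBP : IsDefectGroup p M B P)
    (b : Set (IrrCharacter ↥𝐂)) (hind : IsInducedBlock M 𝐂 b B)
    (θ : IrrCharacter ↥𝐂) (hθ : θ ∈ b)
    (hθP : ∀ x : ↥𝐂, (x : G) ∈ (P : Subgroup G) → (θ : ↥𝐂 → ℂ) x = (θ : ↥𝐂 → ℂ) 1)
    (T : Subgroup G)
    (hT : ∀ g : G, g ∈ T ↔ (g ∈ 𝐍 ∧ ∀ c c' : ↥𝐂, (c' : G) = g * c * g⁻¹ →
      (θ : ↥𝐂 → ℂ) c' = (θ : ↥𝐂 → ℂ) c))
    (e : ℕ) (he : (Subgroup.centralizer ((P : Subgroup G) : Set G)).relIndex T = e)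
    (hlow : e + (p - 1) / e ≤ Nat.card B) :
    ∃ Y : Set (IrrCharacter G), Y ⊆ B ∧ Y.Nonempty ∧
      (∀ η ∈ Y, ∀ ψ : IrrCharacter G,
        (∃ a : ℕ, a.Coprime (Nat.card G) ∧
          a ≡ 1 [MOD Nat.card G / p ^ (Nat.card G).factorization p] ∧
          ∀ g, (ψ : G → ℂ) g = (η : G → ℂ) (g ^ a)) ↔ ψ ∈ Y) ∧
      (∀ χ ∈ B, χ ∉ Y → ∀ ψ : IrrCharacter G,
        (∃ a : ℕ, a.Coprime (Nat.card G) ∧
          a ≡ 1 [MOD Nat.card G / p ^ (Nat.card G).factorization p] ∧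
          ∀ g, (ψ : G → ℂ) g = (χ : G → ℂ) (g ^ a)) → ψ = χ) ∧
      Nat.card Y ∣ p - 1 ∧ Nat.card B = Nat.card Y + (p - 1) / Nat.card Y ∧
      ∃ δ : IrrCharacter G → ℤ, (∀ χ ∈ B, δ χ = 1 ∨ δ χ = -1) ∧
        ∀ x : G, ¬ p ∣ orderOf x → ∀ η ∈ Y,
          (∑ᶠ χ ∈ B \ Y, (δ χ : ℂ) * (χ : G → ℂ) x) + (δ η : ℂ) * (η : G → ℂ) x = 0 := by
  have hp : p.Prime := Fact.out
  have hexp := fun (χ : IrrCharacter G) (u : G) (hu : u ∈ (P : Subgroup G)) =>
    Cfsg.Agent.Lib.Helper74.DefOneRow1.value_eq_sum P hP π hπP hπreg (χ : G → ℂ)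
      (Orth.irr_isClassFunction χ) u hu
  obtain ⟨D, X, Y, Γ, δs, hD, hv0, hnv, hediv, hcardB, hBXY, hdisj, hcardX, hcardY, hX, hcases,
    hδs, hrel, hagree⟩ :=
    Cfsg.Agent.Lib.Helper80.DefOneFull.structure_full P hP M hM π hπP hπreg B hB hBP b hind θ hθ
      hθP T hT e he hlow hexp
  have hG0 : Nat.card G ≠ 0 := Nat.card_pos.ne'
  have hpG : p ∣ Nat.card G := by
    have h1 : Nat.card ↥(P : Subgroup G) ∣ Nat.card G := Subgroup.card_subgroup_dvd_card _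
    rwa [show Nat.card ↥(P : Subgroup G) = p from hP] at h1
  have hYB : Y ⊆ B := by rw [hBXY]; exact Set.subset_union_right
  have hXB : X ⊆ B := by rw [hBXY]; exact Set.subset_union_left
  have hpa : ∀ a : ℕ, a.Coprime (Nat.card G) → ¬ p ∣ a := by
    intro a hac h
    have h2 : p ∣ Nat.gcd a (Nat.card G) := Nat.dvd_gcd h hpG
    rw [hac] at h2
    exact hp.one_lt.ne' (Nat.dvd_one.mp h2)
  -- characters with constant column are fixed
  have hconst : ∀ χ ∈ B, ∀ c : ℤ, (∀ ψ : ↥(P : Subgroup G) →* ℂˣ, ψ ≠ 1 → D ψ χ = c) →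
      ∀ a : ℕ, a.Coprime (Nat.card G) →
        a ≡ 1 [MOD Nat.card G / p ^ (Nat.card G).factorization p] →
        ∀ g, (χ : G → ℂ) (g ^ a) = (χ : G → ℂ) g := by
    intro χ hχ c hc a hac ha g
    exact pow_fixed_of_const P hP π hπP hπreg M hM B hB hBP b hind θ hθ hθP χ hχ (c : ℂ)
      (fun ψ hψ => by rw [hD, hc ψ hψ]) a hac ha g
  -- the column identity
  have hcol : ∀ (η ψ' : IrrCharacter G) (a : ℕ), a.Coprime (Nat.card G) →
      a ≡ 1 [MOD Nat.card G / p ^ (Nat.card G).factorization p] →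
      (∀ g, (ψ' : G → ℂ) g = (η : G → ℂ) (g ^ a)) →
      ∀ ψ : ↥(P : Subgroup G) →* ℂˣ, D (ψ ^ a) ψ' = D ψ η := by
    intro η ψ' a hac ha hψ' ψ
    have h := col_pow P hP π hπP hπreg (isCharacter_of_irr θ.2) hθP ψ (η : G → ℂ) a ha
      (hpa a hac)
    have e1 : (fun g => (η : G → ℂ) (g ^ a)) = (ψ' : G → ℂ) := funext fun g => (hψ' g).symm
    rw [e1, hD, hD] at h
    exact_mod_cast h
  -- conjugates stay in the block
  have hmemB : ∀ η ∈ B, ∀ (ψ' : IrrCharacter G) (a : ℕ), a.Coprime (Nat.card G) →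
      a ≡ 1 [MOD Nat.card G / p ^ (Nat.card G).factorization p] →
      (∀ g, (ψ' : G → ℂ) g = (η : G → ℂ) (g ^ a)) → ψ' ∈ B := by
    intro η hη ψ' a hac ha hψ'
    by_contra hcon
    obtain ⟨ψ, -, hψ⟩ := hnv η hη
    apply hψ
    rw [← hcol η ψ' a hac ha hψ' ψ]
    exact hv0 _ ψ' hcon
  -- conjugates of exceptional characters are exceptional
  have hmemY : ∀ η ∈ Y, ∀ (ψ' : IrrCharacter G) (a : ℕ), a.Coprime (Nat.card G) →
      a ≡ 1 [MOD Nat.card G / p ^ (Nat.card G).factorization p] →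
      (∀ g, (ψ' : G → ℂ) g = (η : G → ℂ) (g ^ a)) → ψ' ∈ Y := by
    intro η hη ψ' a hac ha hψ'
    have h1 := hmemB η (hYB hη) ψ' a hac ha hψ'
    rw [hBXY] at h1
    rcases h1 with h1 | h1
    · exfalso
      obtain ⟨a', hac', ha', haa'⟩ := exists_inv_exponent (Nat.card G) _ hG0 a hac ha
      have h2 := hconst ψ' (hXB h1) (Γ ψ') (hX ψ' h1).2 a' hac' ha'
      have h3 : ψ' = η := by
        apply Subtype.ext
        funext g
        rw [← h2 g, hψ' (g ^ a'), pow_mul_eq_self a a' haa' g]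
      rw [h3] at h1
      exact Set.disjoint_left.mp hdisj h1 hη
    · exact h1
  -- transitivity
  have htrans : ∀ η ∈ Y, ∀ η' ∈ Y, ∃ a : ℕ, a.Coprime (Nat.card G) ∧
      a ≡ 1 [MOD Nat.card G / p ^ (Nat.card G).factorization p] ∧
      ∀ g, (η' : G → ℂ) g = (η : G → ℂ) (g ^ a) := by
    intro η hη η' hη'
    rcases hcases with ⟨δ, γ, ζ, hδ, -, hζY, hζsurj, hform⟩ | ⟨-, η₀, hY0, -, -⟩
    · obtain ⟨ψ₀, hψ₀1, hψ₀⟩ := hζsurj η hη
      obtain ⟨ψ₁, hψ₁1, hψ₁⟩ := hζsurj η' hη'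
      obtain ⟨j, hj, hpj⟩ := hom_eq_pow p hP ψ₀ ψ₁ hψ₀1 hψ₁1
      obtain ⟨a, hac, ha, haj⟩ := exists_exponent_crt (Nat.card G) hG0 p j hpj
      have hψa : ψ₀ ^ a = ψ₁ := by
        rw [hj]
        ext z
        rw [MonoidHom.pow_apply, MonoidHom.pow_apply]
        have h1 : ψ₀ z ^ p = 1 := by
          have h := hom_apply_pow_card ψ₀ z
          rwa [show Nat.card ↥(P : Subgroup G) = p from hP] at h
        rw [pow_eq_pow_of_modEq' h1 haj]
      obtain ⟨ηa, hηa⟩ : ∃ ηa : IrrCharacter G, ∀ g, (ηa : G → ℂ) g = (η : G → ℂ) (g ^ a) :=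
        ⟨⟨fun g => (η : G → ℂ) (g ^ a),
          Cfsg.Agent.Lib.Helper76.GaloisConj.isIrrCharacter_pow η.2 a hac⟩, fun g => rfl⟩
      have hηaY : ηa ∈ Y := hmemY η hη ηa a hac ha hηa
      have h1 := hcol η ηa a hac ha hηa ψ₀
      rw [hψa, hform ψ₁ hψ₁1 ηa, hform ψ₀ hψ₀1 η] at h1
      have hηX : η ∉ X := fun h => Set.disjoint_left.mp hdisj h hη
      have hηaX : ηa ∉ X := fun h => Set.disjoint_left.mp hdisj h hηaY
      rw [Set.indicator_of_notMem hηaX, Set.indicator_of_mem hηaY, Set.indicator_of_notMem hηX,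
        Set.indicator_of_mem hη, if_pos hψ₀.symm] at h1
      have h2 : ηa = ζ ψ₁ := by
        by_contra hne
        rw [if_neg hne] at h1
        rcases hδ with rfl | rfl <;> omega
      refine ⟨a, hac, ha, fun g => ?_⟩
      rw [← hψ₁, ← h2]
      exact hηa g
    · rw [hY0, Set.mem_singleton_iff] at hη hη'
      rw [hη, hη']
      exact ⟨1, Nat.coprime_one_left _, Nat.ModEq.refl 1, fun g => by rw [pow_one]⟩
  have hp1 : 0 < p - 1 := Nat.sub_pos_of_lt hp.one_lt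
  have he0 : 0 < e := by
    apply Nat.pos_of_ne_zero
    intro h
    rw [h] at hediv
    have := Nat.eq_zero_of_zero_dvd hediv
    omega
  refine ⟨Y, hYB, ?_, ?_, ?_, ?_, ?_, δs, hδs, ?_⟩
  · have hpos : 0 < Nat.card Y := by
      rw [hcardY]
      exact Nat.div_pos (Nat.le_of_dvd hp1 hediv) he0
    obtain ⟨⟨y, hy⟩⟩ := (Nat.card_pos_iff.mp hpos).1
    exact ⟨y, hy⟩
  · intro η hη ψ
    constructor
    · rintro ⟨a, hac, ha, hψ⟩
      exact hmemY η hη ψ a hac ha hψ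
    · intro hψ
      exact htrans η hη ψ hψ
  · rintro χ hχ hχY ψ ⟨a, hac, ha, hψ⟩
    have hχX : χ ∈ X := by
      rw [hBXY] at hχ
      exact hχ.resolve_right hχY
    apply Subtype.ext
    funext g
    rw [hψ g]
    exact hconst χ hχ (Γ χ) (hX χ hχX).2 a hac ha g
  · rw [hcardY]
    exact Nat.div_dvd_of_dvd hediv
  · rw [hcardB, hcardY, Nat.div_div_self hediv hp1.ne', add_comm]
  · intro x hx η hη
    have hBY : B \ Y = X := by
      rw [hBXY, Set.union_sdiff_right]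
      exact hdisj.sdiff_eq_left
    rw [hBY]
    exact hrel x hx η hη

end Main

end Cfsg.Agent.Lib.Helper17.BqExc2
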