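import Mathlib
import Cfsg.Agent.Lib.Helper16.RootConj
import Cfsg.Agent.Lib.Helper74.McKayAB
import Cfsg.Agent.Lib.Helper74.McKayDefs
import Cfsg.Agent.Lib.Helper80.DefOneLoc

/-!
# Blocks of positive defect when `p` divides `|G|` exactly once: the local setup

If `p ∣ |G|`, `p ^ 2 ∤ |G|` and `B` is a block of positive defect, then there are a Sylow
`p`-subgroup `P` of order `p` which is a defect group of `B` and an irreducible character `θ` of
`C_G(P)`, trivial on `P`, whose block induces `B`.
-/

set_option autoImplicit false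
set_option linter.unusedSectionVars false
set_option linter.style.haveILetI false
set_option maxHeartbeats 1000000

namespace Cfsg.Agent.Lib.Helper17.BqSetup

open Cfsg Cfsg.Agent.Lib.Helper77.LocalRing Cfsg.Agent.Lib.Helper16.RootConj
  Cfsg.Agent.Lib.Helper16.ExtFirst

universe u
variable {G : Type u} [Group G] {M : Ideal AlgInt}

/-- A root of a block with defect group a Sylow subgroup of order `p`. -/
theorem exists_root [Finite G] (p : ℕ) [Fact p.Prime] (hM : IsPModular p M) (P : Sylow p G)
    (hP : Nat.card P = p) (B : Set (IrrCharacter G)) (hB : IsPBlock M B)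
    (hBP : IsDefectGroup p M B (P : Subgroup G)) :
    ∃ θ : IrrCharacter ↥(Subgroup.centralizer ((P : Subgroup G) : Set G)),
      (∀ x : ↥(Subgroup.centralizer ((P : Subgroup G) : Set G)), (x : G) ∈ (P : Subgroup G) →
        (θ : ↥(Subgroup.centralizer ((P : Subgroup G) : Set G)) → ℂ) x =
          (θ : ↥(Subgroup.centralizer ((P : Subgroup G) : Set G)) → ℂ) 1) ∧
      IsInducedBlock M (Subgroup.centralizer ((P : Subgroup G) : Set G))
        (blockOf M (θ : ↥(Subgroup.centralizer ((P : Subgroup G) : Set G)) → ℂ)) B := by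
  classical
  have hMp := isPrime_of_isPModular hM
  have hCN : Subgroup.centralizer ((P : Subgroup G) : Set G) ≤
      Subgroup.normalizer ((P : Subgroup G) : Set G) := Subgroup.centralizer_le_normalizer _
  have hPC : (P : Subgroup G) ≤ Subgroup.centralizer ((P : Subgroup G) : Set G) :=
    Cfsg.Agent.Lib.Helper80.DefOneLoc.le_centralizer P hP
  haveI hn : ((Subgroup.centralizer ((P : Subgroup G) : Set G)).subgroupOf
      (Subgroup.normalizer ((P : Subgroup G) : Set G))).Normal :=
    centralizer_normal_in_normalizer (P : Subgroup G)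
  obtain ⟨b, hbD, hbind⟩ := exists_block_centralizer p hM (P : Subgroup G)
    (Subgroup.centralizer ((P : Subgroup G) : Set G)) hPC le_rfl hCN B hB hBP
  have hPp : IsPGroup p ((P : Subgroup G).subgroupOf
      (Subgroup.centralizer ((P : Subgroup G) : Set G))) :=
    isPGroup_subgroupOf (P : Subgroup G) _ P.isPGroup'
  have htop : (P : Subgroup G).subgroupOf (Subgroup.centralizer ((P : Subgroup G) : Set G)) ⊔
      Subgroup.centralizer (((P : Subgroup G).subgroupOf
        (Subgroup.centralizer ((P : Subgroup G) : Set G)) :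
          Subgroup ↥(Subgroup.centralizer ((P : Subgroup G) : Set G))) :
            Set ↥(Subgroup.centralizer ((P : Subgroup G) : Set G))) = ⊤ := by
    rw [eq_top_iff]
    intro c _
    apply Subgroup.mem_sup_right
    rw [Subgroup.mem_centralizer_iff]
    intro x hx
    rw [SetLike.mem_coe, Subgroup.mem_subgroupOf] at hx
    have hc : (c : G) ∈ Subgroup.centralizer ((P : Subgroup G) : Set G) := c.2
    rw [Subgroup.mem_centralizer_iff] at hc
    apply Subtype.ext
    simp only [Subgroup.coe_mul]
    exact hc _ hx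
  obtain ⟨θ, ⟨hθb, hθP⟩, -⟩ := (Cfsg.Agent.S0968.result p M hM _ hPp htop b hbind.1 hbD).1
  refine ⟨θ, fun x hx => hθP x (Subgroup.mem_subgroupOf.2 hx), ?_⟩
  have hb : b = blockOf M (θ : ↥(Subgroup.centralizer ((P : Subgroup G) : Set G)) → ℂ) :=
    Cfsg.Agent.Lib.CT.DefectZeroBlock.eq_blockOf_of_mem hMp hbind.1 hθb
  rw [← hb]
  exact hbind

/-- The local setup for a block of positive defect when `p` divides `|G|` exactly once. -/
theorem exists_setup [Finite G] (p : ℕ) [Fact p.Prime] (hM : IsPModular p M)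
    (hdiv : p ∣ Nat.card G) (hsq : ¬ p ^ 2 ∣ Nat.card G) (B : Set (IrrCharacter G))
    (hB : IsPBlock M B) (hd : 0 < blockDefect p B) :
    ∃ P : Sylow p G, Nat.card P = p ∧ IsDefectGroup p M B (P : Subgroup G) ∧
      (Nat.card G).factorization p = 1 ∧
      ∃ θ : IrrCharacter ↥(Subgroup.centralizer ((P : Subgroup G) : Set G)),
        (∀ x : ↥(Subgroup.centralizer ((P : Subgroup G) : Set G)), (x : G) ∈ (P : Subgroup G) →
          (θ : ↥(Subgroup.centralizer ((P : Subgroup G) : Set G)) → ℂ) x =
            (θ : ↥(Subgroup.centralizer ((P : Subgroup G) : Set G)) → ℂ) 1) ∧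
        IsInducedBlock M (Subgroup.centralizer ((P : Subgroup G) : Set G))
          (blockOf M (θ : ↥(Subgroup.centralizer ((P : Subgroup G) : Set G)) → ℂ)) B := by
  classical
  have hp : p.Prime := Fact.out
  have hMp := isPrime_of_isPModular hM
  have hG0 : Nat.card G ≠ 0 := Nat.card_pos.ne'
  have hν : (Nat.card G).factorization p = 1 := by
    have h1 : 1 ≤ (Nat.card G).factorization p :=
      (hp.pow_dvd_iff_le_factorization hG0).mp (by rw [pow_one]; exact hdiv)
    have h2 : ¬ 2 ≤ (Nat.card G).factorization p := fun h =>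
      hsq ((hp.pow_dvd_iff_le_factorization hG0).mpr h)
    omega
  obtain ⟨P⟩ : Nonempty (Sylow p G) := inferInstance
  have hP : Nat.card P = p := by
    have h := P.card_eq_multiplicity
    rw [hν, pow_one] at h
    exact h
  -- a character of degree prime to `p` in `B`
  obtain ⟨χ₀, hχ₀⟩ := Cfsg.Agent.Lib.CT.DefectZeroBlock.isPBlock_nonempty hMp hB
  have hne : ((fun χ : IrrCharacter G => (charDegree (χ : G → ℂ)).factorization p) '' B).Nonempty :=
    ⟨_, χ₀, hχ₀, rfl⟩
  have hmem := Nat.sInf_mem hne
  have hinf : sInf ((fun χ : IrrCharacter G => (charDegree (χ : G → ℂ)).factorization p) '' B)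
      = 0 := by
    unfold blockDefect at hd
    rw [hν] at hd
    omega
  rw [hinf] at hmem
  obtain ⟨χ, hχB, hχ0⟩ := hmem
  have hχ0' : (charDegree (χ : G → ℂ)).factorization p = 0 := hχ0
  have hpos : 0 < charDegree (χ : G → ℂ) := Cfsg.Agent.Lib.CT.Wedderburn.irr_charDegree_pos χ.2
  have hndvd : ¬ p ∣ charDegree (χ : G → ℂ) := by
    rcases (Nat.factorization_eq_zero_iff _ _).mp hχ0' with h | h | h
    · exact absurd hp h
    · exact h
    · omega
  have hBχ : B = blockOf M (χ : G → ℂ) :=
    Cfsg.Agent.Lib.CT.DefectZeroBlock.eq_blockOf_of_mem hMp hB hχB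
  have hBP : IsDefectGroup p M B (P : Subgroup G) := by
    rw [hBχ]
    exact Cfsg.Agent.Lib.Helper74.McKayAB.isDefectGroup_of_not_dvd p M hM P hP χ hndvd
  exact ⟨P, hP, hBP, hν, exists_root p hM P hP B hB hBP⟩

end Cfsg.Agent.Lib.Helper17.BqSetup
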