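import Mathlib
import Cfsg.Prelude.Def_Transfer
import Cfsg.Prelude.Def_Solvable

/-!
# S3905 (centralizers of non-central elements of a normal subgroup are maximal): piece statements

Notation in the comments: `M_x = C_G(x) = centralizer {x}`, `C_N(x) = N ⊓ M_x`,
`Z = Z(N) = N ⊓ centralizer N`.

Layer 1 (general `N ⊴ G` with `HypH`): `Case1`, `Case1Q`, `Cent`, `Quot`, `Transport`.
Layer 2 (reduced setting `HypR`: `Z(N) = 1`, `N ≠ 1`, all `M_x` (`x ∈ N`, `x ≠ 1`) coatoms):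
`MinNormal`, `A1`..`A5` (abelian minimal normal subgroup: Frobenius structure),
`P4`, `P5`, `B0`, `B2`, `Syl`, `ZJ`, `NPC` (non-abelian minimal normal subgroup: contradiction).
-/

namespace Cfsg.Agent.Lib.Helper17.CMStmt

open Subgroup

universe u

/-- Hypothesis of S3905. -/
def HypH {G : Type u} [Group G] (N : Subgroup G) : Prop :=
  ∀ x : G, x ∈ N → x ∉ centralizer (N : Set G) → IsCoatom (centralizer ({x} : Set G))

/-- Reduced hypothesis: `Z(N) = 1`, `N ≠ 1`, every `C_G(x)` (`x ∈ N`, `x ≠ 1`) is a maximal subgroup. -/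
def HypR {G : Type u} [Group G] (N : Subgroup G) : Prop :=
  N ⊓ centralizer (N : Set G) = ⊥ ∧ N ≠ ⊥ ∧
    ∀ x ∈ N, x ≠ 1 → IsCoatom (centralizer ({x} : Set G))

/-- `V` is a minimal normal subgroup of `G` contained in `N`. -/
def MinNormalIn {G : Type u} [Group G] (N V : Subgroup G) : Prop :=
  V.Normal ∧ V ≤ N ∧ V ≠ ⊥ ∧ ∀ W : Subgroup G, W.Normal → W ≤ V → W ≠ ⊥ → W = V

/-- `V` is abelian (elementwise). -/
def IsAb {G : Type u} [Group G] (V : Subgroup G) : Prop :=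
  ∀ a ∈ V, ∀ b ∈ V, a * b = b * a

/-- `C_N(y)`. -/
def Cn {G : Type u} [Group G] (N : Subgroup G) (y : G) : Subgroup G :=
  N ⊓ centralizer ({y} : Set G)

/-- every `y ∈ N` outside `C_G(V)` acts fixed-point-freely on `V`. -/
def FixFree {G : Type u} [Group G] (N V : Subgroup G) : Prop :=
  ∀ y ∈ N, y ∉ centralizer (V : Set G) → V ⊓ centralizer ({y} : Set G) = ⊥

/-- `N = V · C_N(y)` and `C_N(y)` is a Frobenius complement in `N`. -/
def FrobAt {G : Type u} [Group G] (N V : Subgroup G) (y : G) : Prop :=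
  (∀ n ∈ N, ∃ v ∈ V, ∃ a ∈ Cn N y, n = v * a) ∧
  (∀ g ∈ N, g ∉ Cn N y → ∀ a ∈ Cn N y, g * a * g⁻¹ ∈ Cn N y → a = 1)

/-- two commuting non-identity elements of `N` with different centralizers have the same prime order. -/
def P4Concl {G : Type u} [Group G] (N : Subgroup G) : Prop :=
  ∀ x ∈ N, ∀ y ∈ N, x ≠ 1 → y ≠ 1 → x * y = y * x →
    centralizer ({x} : Set G) ≠ centralizer ({y} : Set G) →
    orderOf x = orderOf y ∧ (orderOf x).Prime

/-- if some `y ∈ C_N(x)` has a different centralizer, then `o(x)` is prime and `C_N(x)` has exponent `o(x)`. -/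
def P5Concl {G : Type u} [Group G] (N : Subgroup G) : Prop :=
  ∀ x ∈ N, ∀ y ∈ N, x ≠ 1 → y ≠ 1 → x * y = y * x →
    centralizer ({x} : Set G) ≠ centralizer ({y} : Set G) →
    (orderOf x).Prime ∧ ∀ w ∈ N, w * x = x * w → w ^ orderOf x = 1

/-- every non-identity `v ∈ V` commutes with some non-identity `y ∈ V` having a different centralizer. -/
def B2Concl {G : Type u} [Group G] (V : Subgroup G) : Prop :=
  ∀ v ∈ V, v ≠ 1 → ∃ y ∈ V, y ≠ 1 ∧ y * v = v * y ∧
    centralizer ({y} : Set G) ≠ centralizer ({v} : Set G)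

/-- `C_V(z) = P` for some non-identity `z`. -/
def SylConcl {G : Type u} [Group G] (V : Subgroup G) (p : ℕ) (P : Sylow p ↥V) : Prop :=
  ∃ z ∈ V, z ≠ 1 ∧ V ⊓ centralizer ({z} : Set G) = (P : Subgroup ↥V).map V.subtype

/-- `Z(J(P)) ≠ 1`, `Z(J(P)) ≤ P`, and `Z(J(P))` is normalized by everything normalizing `V` and `P`. -/
def ZJConcl {G : Type u} [Group G] (V : Subgroup G) (p : ℕ) (P : Sylow p ↥V) : Prop :=
  Cfsg.centerThompsonOf p (P : Subgroup ↥V) ≠ ⊥ ∧
  Cfsg.centerThompsonOf p (P : Subgroup ↥V) ≤ (P : Subgroup ↥V) ∧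
  ∀ g : G, g ∈ normalizer (V : Set G) →
    g ∈ normalizer ((((P : Subgroup ↥V).map V.subtype : Subgroup G)) : Set G) →
    g ∈ normalizer ((((Cfsg.centerThompsonOf p (P : Subgroup ↥V)).map V.subtype : Subgroup G)) : Set G)

/-- Conclusion in the reduced setting: `N` is a Frobenius group with complement `Q` of prime order and
elementary abelian kernel `K`. -/
def RConcl {G : Type u} [Group G] (N : Subgroup G) : Prop :=
  ∃ (Q K : Subgroup G) (p : ℕ), Q ≤ N ∧ K ≤ N ∧ p.Prime ∧ (Nat.card ↥Q).Prime ∧ Q ≠ N ∧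
    (∀ g ∈ N, g ∉ Q → ∀ a ∈ Q, g * a * g⁻¹ ∈ Q → a = 1) ∧
    K.Normal ∧
    (∀ x ∈ N, (x ∈ K ↔ (x = 1 ∨ ∀ g ∈ N, g⁻¹ * x * g ∉ Q))) ∧
    (∀ a ∈ K, ∀ b ∈ K, a * b = b * a) ∧ (∀ a ∈ K, a ^ p = 1)

/-! ## Layer 1 -/

/-- CASE1: `N/Z(N)` abelian ⟹ some prime `p` has `x^p ∈ Z(N)` for all `x ∈ N`. -/
def Case1 : Prop := ∀ {G : Type u} [Group G] [Finite G] (N : Subgroup G), N.Normal → HypH N →
  (∀ a ∈ N, ∀ b ∈ N, a * b * a⁻¹ * b⁻¹ ∈ centralizer (N : Set G)) →
  ∃ p : ℕ, p.Prime ∧ ∀ x ∈ N, x ^ p ∈ centralizer (N : Set G)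

/-- CASE1Q: transport of CASE1 to the quotient type. -/
def Case1Q : Prop := ∀ {G : Type u} [Group G] (N : Subgroup G) (p : ℕ),
  (∀ a ∈ N, ∀ b ∈ N, a * b * a⁻¹ * b⁻¹ ∈ centralizer (N : Set G)) →
  (∀ x ∈ N, x ^ p ∈ centralizer (N : Set G)) →
  Cfsg.IsElementaryAbelian p (⊤ : Subgroup (↥N ⧸ Subgroup.center ↥N))

/-- CENT: `N/Z(N)` non-abelian ⟹ `Z(N) ≤ Z(G)` and commuting modulo `Z(N)` with a non-central
`x ∈ N` means commuting. -/
def Cent : Prop := ∀ {G : Type u} [Group G] [Finite G] (N : Subgroup G), N.Normal → HypH N →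
  (∃ a ∈ N, ∃ b ∈ N, a * b * a⁻¹ * b⁻¹ ∉ centralizer (N : Set G)) →
  (N ⊓ centralizer (N : Set G) ≤ center G) ∧
  ∀ x ∈ N, x ∉ centralizer (N : Set G) → ∀ g : G,
    g * x * g⁻¹ * x⁻¹ ∈ centralizer (N : Set G) → g * x = x * g

/-- QUOT: in the non-abelian case the pair `(G/Z(N), N/Z(N))` satisfies `HypR`. -/
def Quot : Prop := ∀ {G : Type u} [Group G] [Finite G] (N : Subgroup G) [N.Normal]
  (Z : Subgroup G) [Z.Normal], Z = N ⊓ centralizer (N : Set G) → HypH N →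
  (∃ a ∈ N, ∃ b ∈ N, a * b * a⁻¹ * b⁻¹ ∉ centralizer (N : Set G)) →
  (∀ x ∈ N, x ∉ centralizer (N : Set G) → ∀ g : G,
    g * x * g⁻¹ * x⁻¹ ∈ centralizer (N : Set G) → g * x = x * g) →
  HypR (N.map (QuotientGroup.mk' Z))

/-- TRANSPORT: from the Frobenius structure of `N.map (mk' Z)` inside `G ⧸ Z` to `↥N ⧸ center ↥N`. -/
def Transport : Prop := ∀ {G : Type u} [Group G] [Finite G] (N : Subgroup G) [N.Normal]
  (Z : Subgroup G) [Z.Normal], Z = N ⊓ centralizer (N : Set G) →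
  RConcl (N.map (QuotientGroup.mk' Z)) →
  ∃ (Q K : Subgroup (↥N ⧸ Subgroup.center ↥N)) (p : ℕ), p.Prime ∧ Cfsg.IsFrobeniusComplement Q ∧
    (Nat.card ↥Q).Prime ∧ K.Normal ∧
    (K : Set (↥N ⧸ Subgroup.center ↥N)) = Cfsg.frobeniusKernel Q ∧ Cfsg.IsElementaryAbelian p K

/-! ## Layer 2 -/

/-- MINNORMAL: a non-trivial normal subgroup of a finite group contains a minimal normal subgroup. -/
def MinNormal : Prop := ∀ {G : Type u} [Group G] [Finite G] (N : Subgroup G), N.Normal → N ≠ ⊥ →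
  ∃ V : Subgroup G, MinNormalIn N V

/-- A1: `y ∈ N` not centralizing the abelian minimal normal `V` has `C_V(y) = 1`. -/
def A1 : Prop := ∀ {G : Type u} [Group G] [Finite G] (N V : Subgroup G), N.Normal → HypR N →
  MinNormalIn N V → IsAb V → FixFree N V

/-- A2: `C_N(V) = V`. -/
def A2 : Prop := ∀ {G : Type u} [Group G] [Finite G] (N V : Subgroup G), N.Normal → HypR N →
  MinNormalIn N V → IsAb V → FixFree N V → N ⊓ centralizer (V : Set G) = V

/-- A3: for `y ∈ N ∖ V`: `N = V · C_N(y)` and `C_N(y)` is a Frobenius complement in `N`. -/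
def A3 : Prop := ∀ {G : Type u} [Group G] [Finite G] (N V : Subgroup G), N.Normal → HypR N →
  MinNormalIn N V → IsAb V → FixFree N V → N ⊓ centralizer (V : Set G) = V →
  ∀ y ∈ N, y ∉ V → FrobAt N V y

/-- A4: `C_N(y)` has prime order. -/
def A4 : Prop := ∀ {G : Type u} [Group G] [Finite G] (N V : Subgroup G), N.Normal → HypR N →
  MinNormalIn N V → IsAb V → FixFree N V → N ⊓ centralizer (V : Set G) = V →
  (∀ y ∈ N, y ∉ V → FrobAt N V y) →
  ∀ y ∈ N, y ∉ V → (Nat.card ↥(Cn N y)).Prime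

/-- A5: `V` is elementary abelian and is exactly the Frobenius kernel. -/
def A5 : Prop := ∀ {G : Type u} [Group G] [Finite G] (N V : Subgroup G), N.Normal → HypR N →
  MinNormalIn N V → IsAb V → FixFree N V → N ⊓ centralizer (V : Set G) = V →
  (∃ p : ℕ, p.Prime ∧ ∀ v ∈ V, v ^ p = 1) ∧
  ∀ y ∈ N, y ∉ V → FrobAt N V y →
    ∀ x ∈ N, (x ∈ V ↔ (x = 1 ∨ ∀ g ∈ N, g⁻¹ * x * g ∉ Cn N y))

/-- P4. -/
def P4 : Prop := ∀ {G : Type u} [Group G] [Finite G] (N : Subgroup G), N.Normal → HypR N → P4Concl N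

/-- P5. -/
def P5 : Prop := ∀ {G : Type u} [Group G] [Finite G] (N : Subgroup G), N.Normal → HypR N →
  P4Concl N → P5Concl N

/-- B0: a non-abelian minimal normal subgroup is not a `p`-group, has no normal `p`-complement for
`p ∣ |V|`, and contains no non-trivial abelian normal subgroup of `G`. -/
def B0 : Prop := ∀ {G : Type u} [Group G] [Finite G] (N V : Subgroup G), MinNormalIn N V → ¬ IsAb V →
  (∀ p : ℕ, p.Prime → ¬ IsPGroup p ↥V) ∧
  (∀ p : ℕ, p.Prime → p ∣ Nat.card ↥V → ¬ Cfsg.HasNormalPComplement p ↥V) ∧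
  (∀ W : Subgroup G, W.Normal → W ≤ V → IsAb W → W = ⊥)

/-- B2 (Burnside transfer): in a non-abelian minimal normal `V`, no `C_V(v)` consists of elements
with the same centralizer as `v`. -/
def B2 : Prop := ∀ {G : Type u} [Group G] [Finite G] (N V : Subgroup G), N.Normal → HypR N →
  MinNormalIn N V → ¬ IsAb V →
  (∀ p : ℕ, p.Prime → p ∣ Nat.card ↥V → ¬ Cfsg.HasNormalPComplement p ↥V) →
  (∀ W : Subgroup G, W.Normal → W ≤ V → IsAb W → W = ⊥) →
  B2Concl V

/-- SYL: `C_V(z) = P` for a suitable `z ∈ Z(P)`. -/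
def Syl : Prop := ∀ {G : Type u} [Group G] [Finite G] (N V : Subgroup G), N.Normal → HypR N →
  MinNormalIn N V → ¬ IsAb V → B2Concl V → P5Concl N →
  ∀ (p : ℕ) [Fact p.Prime] (P : Sylow p ↥V), p ∣ Nat.card ↥V → SylConcl V p P

/-- ZJ: `Z(J(P))` is non-trivial, inside `P`, and characteristic. -/
def ZJ : Prop := ∀ {G : Type u} [Group G] [Finite G] (V : Subgroup G) (p : ℕ) [Fact p.Prime]
  (P : Sylow p ↥V), (P : Subgroup ↥V) ≠ ⊥ → ZJConcl V p P

/-- NPC: Glauberman–Thompson gives a normal `p`-complement of `V`. -/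
def NPC : Prop := ∀ {G : Type u} [Group G] [Finite G] (N V : Subgroup G), N.Normal → HypR N →
  MinNormalIn N V → ¬ IsAb V → (∀ p : ℕ, p.Prime → ¬ IsPGroup p ↥V) →
  ∀ (p : ℕ) [Fact p.Prime] (P : Sylow p ↥V), p ≠ 2 → p ∣ Nat.card ↥V →
  SylConcl V p P → ZJConcl V p P → Cfsg.HasNormalPComplement p ↥V

/-! ## A basic lemma, proved here -/

/-- If `M` is a maximal subgroup, `L ≤ N` is normalized by `M` and contains `N ⊓ M`,
then `L = N ⊓ M` or `L = N`. -/
theorem b3 {G : Type u} [Group G] (N M L : Subgroup G) (hM : IsCoatom M)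
    (hLN : L ≤ N) (hNM : N ⊓ M ≤ L) (hnorm : M ≤ normalizer (L : Set G)) :
    L = N ⊓ M ∨ L = N := by
  rcases eq_or_ne (L ⊔ M) M with h | h
  · left
    have hLM : L ≤ M := by rw [← h]; exact le_sup_left
    exact le_antisymm (le_inf hLN hLM) hNM
  · right
    have htop : L ⊔ M = ⊤ := hM.2 _ (lt_of_le_of_ne le_sup_right (Ne.symm h))
    refine le_antisymm hLN ?_
    intro n hn
    have hmem : n ∈ ((L ⊔ M : Subgroup G) : Set G) := by rw [htop]; trivial
    rw [Subgroup.coe_mul_of_right_le_normalizer_left L M hnorm] at hmem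
    obtain ⟨l, hl, m, hm, rfl⟩ := hmem
    have hl' : l ∈ L := hl
    have hm' : m ∈ M := hm
    have hmN : m ∈ N := by
      have : m = l⁻¹ * (l * m) := by group
      rw [this]
      exact N.mul_mem (N.inv_mem (hLN hl')) hn
    exact L.mul_mem hl' (hNM ⟨hmN, hm'⟩)

end Cfsg.Agent.Lib.Helper17.CMStmt
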