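import Mathlib
import Cfsg.Agent.Lib.Helper17.CMStmt

/-!
# S3905: assembly of the pieces of `CMStmt`
-/

namespace Cfsg.Agent.Lib.Helper17.CMGlue

open Subgroup Cfsg.Agent.Lib.Helper17.CMStmt

universe u

/-- abelian minimal normal subgroup: Frobenius structure. -/
theorem alpha (hA1 : A1.{u}) (hA2 : A2.{u}) (hA3 : A3.{u}) (hA4 : A4.{u}) (hA5 : A5.{u})
    {G : Type u} [Group G] [Finite G] (N V : Subgroup G) (hN : N.Normal) (hR : HypR N)
    (hV : MinNormalIn N V) (hab : IsAb V) : RConcl N := by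
  have hff : FixFree N V := hA1 N V hN hR hV hab
  have hcv : N ⊓ centralizer (V : Set G) = V := hA2 N V hN hR hV hab hff
  have hfrob : ∀ y ∈ N, y ∉ V → FrobAt N V y := hA3 N V hN hR hV hab hff hcv
  have hprime := hA4 N V hN hR hV hab hff hcv hfrob
  obtain ⟨⟨p, hp, hexp⟩, hker⟩ := hA5 N V hN hR hV hab hff hcv
  obtain ⟨hVn, hVN, hVne, hVmin⟩ := hV
  -- an element of `N` outside `V`
  have hex : ∃ y ∈ N, y ∉ V := by
    by_contra hcon
    push Not at hcon
    have hNV : N = V := le_antisymm (fun y hy => hcon y hy) hVN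
    have hNab : N ≤ N ⊓ centralizer (N : Set G) := by
      intro a ha
      refine ⟨ha, Subgroup.mem_centralizer_iff.mpr ?_⟩
      intro b hb
      have hb' : b ∈ N := hb
      rw [hNV] at ha hb'
      exact hab b hb' a ha
    rw [hR.1] at hNab
    exact hR.2.1 (le_bot_iff.mp hNab)
  obtain ⟨y, hyN, hyV⟩ := hex
  have hyc : y ∉ centralizer (V : Set G) := by
    intro hy
    apply hyV
    have : y ∈ N ⊓ centralizer (V : Set G) := ⟨hyN, hy⟩
    rwa [hcv] at this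
  have hVQ : V ⊓ Cn N y = ⊥ := by
    have h1 := hff y hyN hyc
    refine le_bot_iff.mp ?_
    rw [← h1]
    exact inf_le_inf_left V inf_le_right
  refine ⟨Cn N y, V, p, inf_le_left, hVN, hp, hprime y hyN hyV, ?_, (hfrob y hyN hyV).2, hVn,
    hker y hyN hyV (hfrob y hyN hyV), hab, hexp⟩
  intro hQN
  apply hVne
  refine le_bot_iff.mp ?_
  rw [← hVQ, hQN]
  exact le_inf le_rfl hVN

/-- non-abelian minimal normal subgroup: contradiction. -/
theorem beta (hP4 : P4.{u}) (hP5 : P5.{u}) (hB0 : B0.{u}) (hB2 : B2.{u}) (hSyl : Syl.{u})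
    (hZJ : ZJ.{u}) (hNPC : NPC.{u})
    {G : Type u} [Group G] [Finite G] (N V : Subgroup G) (hN : N.Normal) (hR : HypR N)
    (hV : MinNormalIn N V) (hab : ¬ IsAb V) : False := by
  obtain ⟨hnp, hnc, hnoab⟩ := hB0 N V hV hab
  have hp4 := hP4 N hN hR
  have hp5 := hP5 N hN hR hp4
  have hb2 := hB2 N V hN hR hV hab hnc hnoab
  -- an odd prime dividing `|V|`
  have hex : ∃ p : ℕ, p.Prime ∧ p ≠ 2 ∧ p ∣ Nat.card ↥V := by
    by_contra hcon
    push Not at hcon
    apply hnp 2 Nat.prime_two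
    have hcard : Nat.card ↥V ≠ 0 := Nat.card_pos.ne'
    have h2 : ∀ q : ℕ, q.Prime → q ∣ Nat.card ↥V → q = 2 := by
      intro q hq hdvd
      by_contra hq2
      exact hcon q hq hq2 hdvd
    have hpow : Nat.card ↥V = 2 ^ (Nat.card ↥V).primeFactorsList.length :=
      Nat.eq_prime_pow_of_unique_prime_dvd hcard (fun {q} hq hdvd => h2 q hq hdvd)
    exact IsPGroup.of_card hpow
  obtain ⟨p, hp, hp2, hpdvd⟩ := hex
  have : Fact p.Prime := ⟨hp⟩
  obtain ⟨P⟩ : Nonempty (Sylow p ↥V) := inferInstance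
  have hsyl := hSyl N V hN hR hV hab hb2 hp5 p P hpdvd
  have hPne : (P : Subgroup ↥V) ≠ ⊥ := by
    intro hbot
    have hc : Nat.card (P : Subgroup ↥V) = 1 := by rw [hbot]; exact Subgroup.card_bot
    have hdvd : p ∣ Nat.card (P : Subgroup ↥V) := by
      rw [Sylow.card_eq_multiplicity]
      exact dvd_pow_self p (by
        have : 0 < (Nat.card ↥V).factorization p :=
          hp.factorization_pos_of_dvd Nat.card_pos.ne' hpdvd
        omega)
    rw [hc] at hdvd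
    exact hp.one_lt.ne' (Nat.dvd_one.mp hdvd)
  have hzj := hZJ V p P hPne
  have hnpc := hNPC N V hN hR hV hab hnp p P hp2 hpdvd hsyl hzj
  exact hnc p hp hpdvd hnpc

/-- the reduced theorem. -/
theorem rmain (hMin : MinNormal.{u}) (hA1 : A1.{u}) (hA2 : A2.{u}) (hA3 : A3.{u}) (hA4 : A4.{u})
    (hA5 : A5.{u}) (hP4 : P4.{u}) (hP5 : P5.{u}) (hB0 : B0.{u}) (hB2 : B2.{u}) (hSyl : Syl.{u})
    (hZJ : ZJ.{u}) (hNPC : NPC.{u})
    {G : Type u} [Group G] [Finite G] (N : Subgroup G) (hN : N.Normal) (hR : HypR N) :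
    RConcl N := by
  obtain ⟨V, hV⟩ := hMin N hN hR.2.1
  by_cases hab : IsAb V
  · exact alpha hA1 hA2 hA3 hA4 hA5 N V hN hR hV hab
  · exact (beta hP4 hP5 hB0 hB2 hSyl hZJ hNPC N V hN hR hV hab).elim

/-- S3905 from the pieces. -/
theorem final (hCase1 : Case1.{u}) (hCase1Q : Case1Q.{u}) (hCent : Cent.{u}) (hQuot : Quot.{u})
    (hTransport : Transport.{u})
    (hMin : MinNormal.{u}) (hA1 : A1.{u}) (hA2 : A2.{u}) (hA3 : A3.{u}) (hA4 : A4.{u})
    (hA5 : A5.{u}) (hP4 : P4.{u}) (hP5 : P5.{u}) (hB0 : B0.{u}) (hB2 : B2.{u}) (hSyl : Syl.{u})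
    (hZJ : ZJ.{u}) (hNPC : NPC.{u})
    {G : Type u} [Group G] [Finite G] (N : Subgroup G) [hN : N.Normal]
    (h : ∀ x : G, x ∈ N → x ∉ Subgroup.centralizer (N : Set G) →
      IsCoatom (Subgroup.centralizer ({x} : Set G))) :
    (∃ p : ℕ, p.Prime ∧ Cfsg.IsElementaryAbelian p (⊤ : Subgroup (↥N ⧸ Subgroup.center ↥N))) ∨
    (∃ (Q K : Subgroup (↥N ⧸ Subgroup.center ↥N)) (p : ℕ), p.Prime ∧ Cfsg.IsFrobeniusComplement Q ∧
      (Nat.card ↥Q).Prime ∧ K.Normal ∧
      (K : Set (↥N ⧸ Subgroup.center ↥N)) = Cfsg.frobeniusKernel Q ∧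
      Cfsg.IsElementaryAbelian p K) := by
  have hH : HypH N := h
  by_cases hcomm : ∀ a ∈ N, ∀ b ∈ N, a * b * a⁻¹ * b⁻¹ ∈ centralizer (N : Set G)
  · left
    obtain ⟨p, hp, hexp⟩ := hCase1 N hN hH hcomm
    exact ⟨p, hp, hCase1Q N p hcomm hexp⟩
  · right
    push Not at hcomm
    have hcomm' : ∃ a ∈ N, ∃ b ∈ N, a * b * a⁻¹ * b⁻¹ ∉ centralizer (N : Set G) := by
      obtain ⟨a, ha, b, hb, hab⟩ := hcomm
      exact ⟨a, ha, b, hb, hab⟩
    obtain ⟨_, hT⟩ := hCent N hN hH hcomm'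
    have hZn : (N ⊓ centralizer (N : Set G)).Normal := by
      have : (centralizer (N : Set G)).Normal := inferInstance
      infer_instance
    have hR : HypR ((N.map (QuotientGroup.mk' (N ⊓ centralizer (N : Set G))))) :=
      hQuot N (N ⊓ centralizer (N : Set G)) rfl hH hcomm' hT
    have hNn : (N.map (QuotientGroup.mk' (N ⊓ centralizer (N : Set G)))).Normal :=
      Subgroup.Normal.map hN _ (QuotientGroup.mk'_surjective _)
    have hconcl := rmain hMin hA1 hA2 hA3 hA4 hA5 hP4 hP5 hB0 hB2 hSyl hZJ hNPC _ hNn hR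
    exact hTransport N (N ⊓ centralizer (N : Set G)) rfl hconcl

end Cfsg.Agent.Lib.Helper17.CMGlue
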