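import Mathlib
import Cfsg.Agent.Lib.Helper17.CMStmt

/-!
# S3905 piece TRANSPORT: from `N.map (mk' Z)` inside `G ⧸ Z` to `↥N ⧸ center ↥N`
-/

namespace Cfsg.Agent.Lib.Helper17.CMTRANSPORT

open Subgroup Cfsg Cfsg.Agent.Lib.Helper17.CMStmt

open scoped Pointwise

universe u

/-- membership in a conjugate, elementwise. -/
theorem mem_conj_smul_iff {H : Type u} [Group H] (S : Subgroup H) (g x : H) :
    x ∈ MulAut.conj g • S ↔ g⁻¹ * x * g ∈ S := by
  rw [Subgroup.mem_pointwise_smul_iff_inv_smul_mem]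
  simp [MulAut.smul_def]

theorem main : Transport.{u} := by
  intro G _ _ N _ Z _ hZ hconcl
  obtain ⟨Q, K, p, hQN, hKN, hp, hQprime, hQne, hfrob, hKn, hker, hKab, hKexp⟩ := hconcl
  -- the comparison map
  have hle : Subgroup.center ↥N ≤ Z.comap N.subtype := by
    intro x hx
    rw [Subgroup.mem_comap, hZ]
    refine ⟨x.2, Subgroup.mem_centralizer_iff.mpr ?_⟩
    intro y hy
    have := (Subgroup.mem_center_iff.mp hx) ⟨y, hy⟩
    exact congrArg Subtype.val this
  obtain ⟨ψ, hψ⟩ : ∃ ψ : ↥N ⧸ Subgroup.center ↥N →* G ⧸ Z,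
      ∀ x : ↥N, ψ (x : ↥N ⧸ Subgroup.center ↥N) = ((x : G) : G ⧸ Z) :=
    ⟨QuotientGroup.map (Subgroup.center ↥N) Z N.subtype hle, fun x => rfl⟩
  have hinj : Function.Injective ψ := by
    rw [injective_iff_map_eq_one]
    intro a ha
    induction a using QuotientGroup.induction_on with
    | H x =>
      rw [hψ, QuotientGroup.eq_one_iff, hZ] at ha
      rw [QuotientGroup.eq_one_iff, Subgroup.mem_center_iff]
      intro g
      apply Subtype.ext
      exact Subgroup.mem_centralizer_iff.mp ha.2 g g.2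
  have hrange : ∀ y ∈ N.map (QuotientGroup.mk' Z), ∃ x, ψ x = y := by
    rintro _ ⟨n, hn, rfl⟩
    exact ⟨((⟨n, hn⟩ : ↥N) : ↥N ⧸ Subgroup.center ↥N), hψ ⟨n, hn⟩⟩
  have hmem : ∀ x, ψ x ∈ N.map (QuotientGroup.mk' Z) := by
    intro a
    induction a using QuotientGroup.induction_on with
    | H x =>
      rw [hψ]
      exact ⟨(x : G), x.2, rfl⟩
  have hone : ∀ x, ψ x = 1 → x = 1 := fun x hx => hinj (by rw [hx, map_one])
  refine ⟨Q.comap ψ, K.comap ψ, p, hp, ⟨?_, ?_, ?_⟩, ?_, hKn.comap ψ, ?_, ⟨⟨⟨?_⟩⟩, ?_⟩⟩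
  · -- `Q' ≠ ⊥`
    intro hbot
    have hQbot : Q = ⊥ := by
      rw [eq_bot_iff]
      intro a ha
      obtain ⟨x, rfl⟩ := hrange a (hQN ha)
      have hx : x ∈ Q.comap ψ := ha
      rw [hbot, Subgroup.mem_bot] at hx
      rw [hx, map_one]
      exact Subgroup.mem_bot.mpr rfl
    rw [hQbot, Subgroup.card_bot] at hQprime
    exact Nat.not_prime_one hQprime
  · -- `Q' ≠ ⊤`
    intro htop
    apply hQne
    refine le_antisymm hQN ?_
    intro y hy
    obtain ⟨x, rfl⟩ := hrange y hy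
    have hx : x ∈ Q.comap ψ := by rw [htop]; trivial
    exact hx
  · -- Frobenius condition
    intro g hg
    rw [eq_bot_iff]
    intro x hx
    obtain ⟨hx1, hx2⟩ := hx
    have hx2a : x ∈ MulAut.conj g • Q.comap ψ := hx2
    rw [mem_conj_smul_iff] at hx2a
    have hx2' : ψ (g⁻¹ * x * g) ∈ Q := hx2a
    have hx1' : ψ x ∈ Q := hx1
    have hg' : ψ g ∉ Q := hg
    have h1 : ψ (g⁻¹ * x * g) = 1 := by
      apply hfrob (ψ g) (hmem g) hg' (ψ (g⁻¹ * x * g)) hx2'
      have : ψ g * ψ (g⁻¹ * x * g) * (ψ g)⁻¹ = ψ x := by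
        rw [← map_inv, ← map_mul, ← map_mul]
        congr 1
        group
      rw [this]
      exact hx1'
    have h2 : g⁻¹ * x * g = 1 := hone _ h1
    have h3 : x = 1 := by
      have : x = g * (g⁻¹ * x * g) * g⁻¹ := by group
      rw [this, h2]
      group
    rw [h3]
    exact Subgroup.mem_bot.mpr rfl
  · -- cardinality
    have h1 : (Q.comap ψ).map ψ = Q := by
      apply Subgroup.map_comap_eq_self
      intro y hy
      obtain ⟨x, rfl⟩ := hrange y (hQN hy)
      exact ⟨x, rfl⟩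
    have h2 : Nat.card ↥((Q.comap ψ).map ψ) = Nat.card ↥(Q.comap ψ) :=
      Subgroup.card_map_of_injective hinj
    rw [← h2, h1]
    exact hQprime
  · -- kernel
    ext x
    have hk := hker (ψ x) (hmem x)
    show ψ x ∈ K ↔ x ∈ Cfsg.frobeniusKernel (Q.comap ψ)
    rw [hk]
    unfold Cfsg.frobeniusKernel
    constructor
    · rintro (h1 | h1)
      · left; exact hone x h1
      · right
        intro g hgx
        rw [mem_conj_smul_iff] at hgx
        have hgx' : ψ (g⁻¹ * x * g) ∈ Q := hgx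
        apply h1 (ψ g) (hmem g)
        have : (ψ g)⁻¹ * ψ x * ψ g = ψ (g⁻¹ * x * g) := by
          rw [← map_inv, ← map_mul, ← map_mul]
        rw [this]
        exact hgx'
    · rintro (h1 | h1)
      · left; rw [h1, map_one]
      · right
        intro g hg hgQ
        obtain ⟨g', rfl⟩ := hrange g hg
        apply h1 g'
        rw [mem_conj_smul_iff]
        show ψ (g'⁻¹ * x * g') ∈ Q
        have : (ψ g')⁻¹ * ψ x * ψ g' = ψ (g'⁻¹ * x * g') := by
          rw [← map_inv, ← map_mul, ← map_mul]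
        rw [← this]
        exact hgQ
  · -- commutative
    rintro ⟨a, ha⟩ ⟨b, hb⟩
    apply Subtype.ext
    show a * b = b * a
    apply hinj
    rw [map_mul, map_mul]
    exact hKab (ψ a) ha (ψ b) hb
  · -- exponent
    intro a ha
    apply hinj
    rw [map_pow, map_one]
    exact hKexp (ψ a) ha

end Cfsg.Agent.Lib.Helper17.CMTRANSPORT
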