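import Mathlib

set_option autoImplicit false

namespace Cfsg.Agent.Lib.Helper17.Strict

variable {n : Type*} [Fintype n] [DecidableEq n] {R : Type*} [CommRing R]

/-- `M` has nonzero entries `(i, j)` only when `f j + d ≤ f i`:
`M` is "lower triangular by at least `d` levels" for the level function `f`. -/
def StrictBy (f : n → ℕ) (d : ℕ) (M : Matrix n n R) : Prop :=
  ∀ i j, f i < f j + d → M i j = 0

theorem strictBy_one (f : n → ℕ) : StrictBy f 0 (1 : Matrix n n R) := by
  intro i j h
  rw [Matrix.one_apply, if_neg]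
  rintro rfl
  omega

theorem strictBy_zero (f : n → ℕ) (d : ℕ) : StrictBy f d (0 : Matrix n n R) := by
  intro i j _
  rfl

theorem StrictBy.mono {f : n → ℕ} {d e : ℕ} {M : Matrix n n R} (hM : StrictBy f d M)
    (h : e ≤ d) : StrictBy f e M := by
  intro i j hij
  exact hM i j (by omega)

theorem StrictBy.mul {f : n → ℕ} {d e : ℕ} {M N : Matrix n n R} (hM : StrictBy f d M)
    (hN : StrictBy f e N) : StrictBy f (d + e) (M * N) := by
  intro i k h
  rw [Matrix.mul_apply]
  apply Finset.sum_eq_zero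
  intro j _
  by_cases h1 : f i < f j + d
  · rw [hM i j h1, zero_mul]
  · rw [hN j k (by omega), mul_zero]

theorem StrictBy.add {f : n → ℕ} {d : ℕ} {M N : Matrix n n R} (hM : StrictBy f d M)
    (hN : StrictBy f d N) : StrictBy f d (M + N) := by
  intro i j h
  rw [Matrix.add_apply, hM i j h, hN i j h, add_zero]

theorem StrictBy.neg {f : n → ℕ} {d : ℕ} {M : Matrix n n R} (hM : StrictBy f d M) :
    StrictBy f d (-M) := by
  intro i j h
  rw [Matrix.neg_apply, hM i j h, neg_zero]

theorem StrictBy.sub {f : n → ℕ} {d : ℕ} {M N : Matrix n n R} (hM : StrictBy f d M)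
    (hN : StrictBy f d N) : StrictBy f d (M - N) := by
  intro i j h
  rw [Matrix.sub_apply, hM i j h, hN i j h, sub_zero]

theorem strictBy_sum {ι : Type*} {f : n → ℕ} {d : ℕ} (s : Finset ι) (M : ι → Matrix n n R)
    (hM : ∀ i ∈ s, StrictBy f d (M i)) : StrictBy f d (∑ i ∈ s, M i) := by
  intro i j h
  rw [Matrix.sum_apply]
  apply Finset.sum_eq_zero
  intro k hk
  exact hM k hk i j h

theorem StrictBy.pow {f : n → ℕ} {d : ℕ} {M : Matrix n n R} (hM : StrictBy f d M) (k : ℕ) :
    StrictBy f (k * d) (M ^ k) := by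
  induction k with
  | zero => simpa using strictBy_one (R := R) f
  | succ k ih =>
    rw [pow_succ, Nat.succ_mul]
    exact ih.mul hM

theorem StrictBy.eq_zero {f : n → ℕ} {L : ℕ} {M : Matrix n n R} (hf : ∀ i, f i < L)
    (hM : StrictBy f L M) : M = 0 := by
  ext i j
  exact hM i j (by have := hf i; omega)

/-- A matrix strictly triangular for a level function with fewer than `L` levels is nilpotent. -/
theorem StrictBy.pow_eq_zero {f : n → ℕ} {L d : ℕ} {M : Matrix n n R} (hf : ∀ i, f i < L)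
    (hd : 1 ≤ d) (hM : StrictBy f d M) : M ^ L = 0 := by
  apply StrictBy.eq_zero hf
  apply (hM.pow L).mono
  calc L = L * 1 := (Nat.mul_one L).symm
    _ ≤ L * d := Nat.mul_le_mul_left L hd

/-- The inverse of a unitriangular matrix. -/
theorem inv_sub_one {f : n → ℕ} {L d : ℕ} (hf : ∀ i, f i < L) (hd : 1 ≤ d) (g : GL n R)
    (hg : StrictBy f d ((g : Matrix n n R) - 1)) :
    StrictBy f d (((g⁻¹ : GL n R) : Matrix n n R) - 1) := by
  set N : Matrix n n R := (g : Matrix n n R) - 1 with hN
  have hNL : (-N) ^ L = 0 := StrictBy.pow_eq_zero hf hd hg.neg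
  rcases Nat.eq_zero_or_pos L with h0 | h0
  · subst h0
    intro i
    have := hf i
    omega
  obtain ⟨L', rfl⟩ : ∃ L', L = L' + 1 := ⟨L - 1, by omega⟩
  have hgs : (g : Matrix n n R) * ∑ i ∈ Finset.range (L' + 1), (-N) ^ i = 1 := by
    have h1 := mul_neg_geom_sum (-N) (L' + 1)
    rw [hNL, sub_zero, sub_neg_eq_add] at h1
    have h2 : (g : Matrix n n R) = 1 + N := by rw [hN]; abel
    rw [h2]; exact h1
  have hinv : ((g⁻¹ : GL n R) : Matrix n n R) = ∑ i ∈ Finset.range (L' + 1), (-N) ^ i := by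
    have h3 : ((g⁻¹ : GL n R) : Matrix n n R) * (g : Matrix n n R) = 1 := by
      rw [← Matrix.GeneralLinearGroup.coe_mul, inv_mul_cancel]; rfl
    calc ((g⁻¹ : GL n R) : Matrix n n R)
        = ((g⁻¹ : GL n R) : Matrix n n R) * ((g : Matrix n n R) *
            ∑ i ∈ Finset.range (L' + 1), (-N) ^ i) := by rw [hgs, mul_one]
      _ = ∑ i ∈ Finset.range (L' + 1), (-N) ^ i := by rw [← mul_assoc, h3, one_mul]
  rw [hinv, Finset.sum_range_succ', pow_zero, add_sub_cancel_right]
  apply strictBy_sum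
  intro i _
  apply (hg.neg.pow (i + 1)).mono
  calc d = 1 * d := (Nat.one_mul d).symm
    _ ≤ (i + 1) * d := Nat.mul_le_mul_right d (by omega)

/-- The subgroup of matrices that are unitriangular by at least `d + 1` levels. -/
def level (R : Type*) [CommRing R] (f : n → ℕ) (L : ℕ) (hf : ∀ i, f i < L) (d : ℕ) :
    Subgroup (GL n R) where
  carrier := {g | StrictBy f (d + 1) ((g : Matrix n n R) - 1)}
  one_mem' := by
    show StrictBy f (d + 1) (((1 : GL n R) : Matrix n n R) - 1)
    have : ((1 : GL n R) : Matrix n n R) - 1 = 0 := by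
      rw [sub_eq_zero]; rfl
    rw [this]
    exact strictBy_zero f _
  mul_mem' := by
    intro a b ha hb
    show StrictBy f (d + 1) (((a * b : GL n R) : Matrix n n R) - 1)
    have h1 : ((a * b : GL n R) : Matrix n n R) - 1 = ((a : Matrix n n R) - 1) +
        ((b : Matrix n n R) - 1) + ((a : Matrix n n R) - 1) * ((b : Matrix n n R) - 1) := by
      rw [Matrix.GeneralLinearGroup.coe_mul]
      noncomm_ring
    rw [h1]
    have ha' : StrictBy f (d + 1) ((a : Matrix n n R) - 1) := ha
    have hb' : StrictBy f (d + 1) ((b : Matrix n n R) - 1) := hb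
    exact (ha'.add hb').add ((ha'.mul hb').mono (by omega))
  inv_mem' := by
    intro a ha
    exact inv_sub_one hf (by omega) a ha

theorem mem_level {f : n → ℕ} {L : ℕ} {hf : ∀ i, f i < L} {d : ℕ} {g : GL n R} :
    g ∈ level R f L hf d ↔ StrictBy f (d + 1) ((g : Matrix n n R) - 1) := Iff.rfl

/-- Unitriangular matrices are unipotent. -/
theorem sub_one_pow_eq_zero {f : n → ℕ} {L : ℕ} {hf : ∀ i, f i < L} {d : ℕ} {g : GL n R}
    (hg : g ∈ level R f L hf d) : ((g : Matrix n n R) - 1) ^ L = 0 :=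
  StrictBy.pow_eq_zero hf (by omega) (mem_level.mp hg)

theorem level_eq_bot {f : n → ℕ} {L : ℕ} {hf : ∀ i, f i < L} {d : ℕ} (hd : L ≤ d + 1) :
    level R f L hf d = ⊥ := by
  rw [eq_bot_iff]
  intro g hg
  rw [Subgroup.mem_bot]
  have h1 : (g : Matrix n n R) - 1 = 0 := StrictBy.eq_zero hf ((mem_level.mp hg).mono hd)
  apply Units.ext
  rw [sub_eq_zero] at h1
  exact h1

/-- The commutator of a matrix at level `d` with one at level `0` lies at level `d + 1`. -/
theorem commutator_mem_level {f : n → ℕ} {L : ℕ} {hf : ∀ i, f i < L} {d : ℕ} {x g : GL n R}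
    (hx : x ∈ level R f L hf d) (hg : g ∈ level R f L hf 0) :
    x * g * x⁻¹ * g⁻¹ ∈ level R f L hf (d + 1) := by
  rw [mem_level]
  have hx' : StrictBy f (d + 1) ((x : Matrix n n R) - 1) := mem_level.mp hx
  have hg' : StrictBy f (0 + 1) ((g : Matrix n n R) - 1) := mem_level.mp hg
  have hxi : StrictBy f (d + 1) (((x⁻¹ : GL n R) : Matrix n n R) - 1) :=
    mem_level.mp ((level R f L hf d).inv_mem hx)
  have hgi : StrictBy f (0 + 1) (((g⁻¹ : GL n R) : Matrix n n R) - 1) :=
    mem_level.mp ((level R f L hf 0).inv_mem hg)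
  have hxi0 : StrictBy f 0 (((x⁻¹ : GL n R) : Matrix n n R)) := by
    have : ((x⁻¹ : GL n R) : Matrix n n R) = (((x⁻¹ : GL n R) : Matrix n n R) - 1) + 1 := by abel
    rw [this]
    exact (hxi.mono (by omega)).add (strictBy_one f)
  have hgi0 : StrictBy f 0 (((g⁻¹ : GL n R) : Matrix n n R)) := by
    have : ((g⁻¹ : GL n R) : Matrix n n R) = (((g⁻¹ : GL n R) : Matrix n n R) - 1) + 1 := by abel
    rw [this]
    exact (hgi.mono (by omega)).add (strictBy_one f)
  have hxx : (x : Matrix n n R) * ((x⁻¹ : GL n R) : Matrix n n R) = 1 := by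
    rw [← Matrix.GeneralLinearGroup.coe_mul, mul_inv_cancel]; rfl
  have hgg : (g : Matrix n n R) * ((g⁻¹ : GL n R) : Matrix n n R) = 1 := by
    rw [← Matrix.GeneralLinearGroup.coe_mul, mul_inv_cancel]; rfl
  have key : ((x * g * x⁻¹ * g⁻¹ : GL n R) : Matrix n n R) - 1 =
      (((x : Matrix n n R) - 1) * ((g : Matrix n n R) - 1) -
        ((g : Matrix n n R) - 1) * ((x : Matrix n n R) - 1)) *
        (((x⁻¹ : GL n R) : Matrix n n R) * ((g⁻¹ : GL n R) : Matrix n n R)) := by
    simp only [Matrix.GeneralLinearGroup.coe_mul]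
    have e1 : ((x : Matrix n n R) - 1) * ((g : Matrix n n R) - 1) -
        ((g : Matrix n n R) - 1) * ((x : Matrix n n R) - 1) =
        (x : Matrix n n R) * (g : Matrix n n R) - (g : Matrix n n R) * (x : Matrix n n R) := by
      noncomm_ring
    rw [e1, sub_mul]
    have e2 : (g : Matrix n n R) * (x : Matrix n n R) *
        (((x⁻¹ : GL n R) : Matrix n n R) * ((g⁻¹ : GL n R) : Matrix n n R)) = 1 := by
      rw [mul_assoc, ← mul_assoc (x : Matrix n n R), hxx, one_mul, hgg]
    rw [e2]
    simp only [mul_assoc]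
  rw [key]
  have h1 : StrictBy f (d + 1 + 1) (((x : Matrix n n R) - 1) * ((g : Matrix n n R) - 1) -
        ((g : Matrix n n R) - 1) * ((x : Matrix n n R) - 1)) := by
    apply StrictBy.sub
    · exact (hx'.mul hg').mono (by omega)
    · exact (hg'.mul hx').mono (by omega)
  have h2 := h1.mul (hxi0.mul hgi0)
  exact h2.mono (by omega)

/-- Any subgroup of the unitriangular group is nilpotent. -/
theorem isNilpotent_of_le_level {f : n → ℕ} {L : ℕ} {hf : ∀ i, f i < L} (U : Subgroup (GL n R))
    (hU : U ≤ level R f L hf 0) : Group.IsNilpotent U := by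
  rw [Subgroup.nilpotent_iff_finite_descending_central_series]
  refine ⟨L, fun k => (level R f L hf k).subgroupOf U, ⟨?_, ?_⟩, ?_⟩
  · rw [Subgroup.subgroupOf_eq_top]
    exact hU
  · intro x k hx g
    rw [Subgroup.mem_subgroupOf] at hx ⊢
    exact commutator_mem_level hx (hU g.2)
  · show (level R f L hf L).subgroupOf U = ⊥
    rw [level_eq_bot (by omega)]
    exact Subgroup.bot_subgroupOf U

end Cfsg.Agent.Lib.Helper17.Strict
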