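import Mathlib
import Cfsg.Prelude.Def_ChevStructure
import Cfsg.Prelude.Def_LieTypes
import Cfsg.Prelude.Def_ChevB2
import Cfsg.Agent.Lib.Helper17.Strict

set_option autoImplicit false

namespace Cfsg.Agent.Lib.Helper17.ChevU

open Cfsg.Lie Cfsg.Agent.Lib.Helper17.Strict

/-- Level function on the coordinate index set: negative roots (by index), then the Cartan part,
then positive roots. -/
def lvl (D : ChevalleyDatum) : D.Idx → ℕ
  | Sum.inl _ => D.nroots / 2
  | Sum.inr s => if s.val < D.nroots / 2 then s.val else s.val + 1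

theorem lvl_lt (D : ChevalleyDatum) (i : D.Idx) : lvl D i < D.nroots + 1 := by
  rcases i with i | s
  · simp only [lvl]; omega
  · simp only [lvl]
    have := s.2
    split_ifs <;> omega

theorem lvl_inr_lt (D : ChevalleyDatum) (s u : Fin D.nroots) (h : s.val < u.val) :
    lvl D (Sum.inr s) < lvl D (Sum.inr u) := by
  simp only [lvl]
  split_ifs <;> omega

/-- The table property making `x_r(t)` unitriangular for the level function. -/
def PosOK (D : ChevalleyDatum) (r : ℕ) : Prop :=
  D.nroots / 2 ≤ r ∧ D.negIdx.getD r 0 < D.nroots / 2 ∧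
    ∀ e ∈ (D.chain.getD r #[]).toList, ∀ q ∈ e.2.toList, e.1 < q.1

instance (D : ChevalleyDatum) (r : ℕ) : Decidable (PosOK D r) :=
  inferInstanceAs (Decidable (_ ∧ _ ∧ _))

theorem lt_of_chainCoeff_ne_nil (D : ChevalleyDatum) (r s u : ℕ)
    (h : ∀ e ∈ (D.chain.getD r #[]).toList, ∀ q ∈ e.2.toList, e.1 < q.1)
    (hne : D.chainCoeff r s u ≠ []) : s < u := by
  obtain ⟨km, hkm⟩ := List.exists_mem_of_ne_nil _ hne
  simp only [ChevalleyDatum.chainCoeff, List.mem_flatMap, List.mem_map, List.mem_filter,
    decide_eq_true_eq] at hkm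
  obtain ⟨e, ⟨he, hes⟩, q, ⟨hq, hqu⟩, -⟩ := hkm
  have hq' : q.1 ∈ e.2.toList := List.fst_mem_of_mem_zipIdx hq
  have := h e he q.1 hq'
  omega

theorem xMat_strict {F : Type*} [Field F] (D : ChevalleyDatum) (r : Fin D.nroots)
    (h : PosOK D r.val) (t : F) : StrictBy (lvl D) 1 (D.xMat F r t - 1) := by
  obtain ⟨h1, h2, h3⟩ := h
  intro row col hlt
  rw [Matrix.sub_apply]
  rcases col with i | s
  · rcases row with i' | u
    · simp [ChevalleyDatum.xMat, Matrix.one_apply]
    · have hur : u ≠ r := by
        rintro rfl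
        simp only [lvl] at hlt
        split_ifs at hlt <;> omega
      simp [ChevalleyDatum.xMat, hur]
  · rcases row with i' | u
    · simp only [ChevalleyDatum.xMat, Matrix.of_apply]
      by_cases hsr : s = r
      · simp [hsr]
      · rw [if_neg hsr]
        by_cases hsn : s.val = D.negIdx.getD r.val 0
        · exfalso
          simp only [lvl] at hlt
          split_ifs at hlt <;> omega
        · rw [if_neg hsn]
          simp
    · simp only [ChevalleyDatum.xMat, Matrix.of_apply]
      by_cases hsr : s = r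
      · subst hsr
        simp [Matrix.one_apply]
      · rw [if_neg hsr]
        by_cases hsn : s.val = D.negIdx.getD r.val 0
        · rw [if_pos hsn]
          by_cases hus : u = s
          · subst hus
            simp
          · have hur : u ≠ r := by
              rintro rfl
              simp only [lvl] at hlt
              split_ifs at hlt <;> omega
            simp [hus, hur]
        · rw [if_neg hsn]
          have hnil : D.chainCoeff r.val s.val u.val = [] := by
            by_contra hne
            have := lt_of_chainCoeff_ne_nil D r.val s.val u.val h3 hne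
            have := lvl_inr_lt D s u this
            omega
          rw [hnil]
          simp [Matrix.one_apply]

theorem pos_ok : ∀ D ∈ [Cfsg.Lie.chevG2, Cfsg.Lie.chevB2, Cfsg.Lie.chevD4, Cfsg.Lie.chevF4,
    Cfsg.Lie.chevE6, Cfsg.Lie.chevE7, Cfsg.Lie.chevE8],
    1 ≤ D.rank ∧ ∀ r < D.nroots, D.IsPosRoot r → PosOK D r := by
  decide +kernel

/-- The level-0 unitriangular subgroup for a datum. -/
noncomputable def uni (D : ChevalleyDatum) (F : Type*) [Field F] : Subgroup (GL D.Idx F) :=
  level F (lvl D) (D.nroots + 1) (lvl_lt D) 0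

theorem posUnipotent_le {F : Type*} [Field F] (D : ChevalleyDatum)
    (hD : D ∈ [Cfsg.Lie.chevG2, Cfsg.Lie.chevB2, Cfsg.Lie.chevD4, Cfsg.Lie.chevF4,
      Cfsg.Lie.chevE6, Cfsg.Lie.chevE7, Cfsg.Lie.chevE8]) :
    D.posUnipotent F ≤ uni D F := by
  unfold ChevalleyDatum.posUnipotent
  rw [Subgroup.closure_le]
  rintro g ⟨r, t, hr, hg⟩
  show StrictBy (lvl D) (0 + 1) ((g : Matrix D.Idx D.Idx F) - 1)
  rw [hg]
  have hr' : r < D.nroots := hr.1
  have hx : D.x F r t = D.xMat F ⟨r, hr'⟩ t := by
    simp [ChevalleyDatum.x, hr']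
  rw [hx]
  exact xMat_strict D ⟨r, hr'⟩ ((pos_ok D hD).2 r hr' hr) t

end Cfsg.Agent.Lib.Helper17.ChevU
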