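import Mathlib
import Cfsg.Agent.Lib.Helper32.D8Stmt
import Cfsg.Agent.Lib.Helper49.S9FIB2

/-! S3716 piece FIB2b (helper17). -/

set_option autoImplicit false

namespace Cfsg.Agent.Lib.Helper17.D8FIB2b

open Cfsg
open Cfsg.Agent.Lib.Helper32
open scoped ComplexConjugate

universe u

theorem gen {G : Type u} [Group G] [Fintype G] (F : G → G → ℂ) (u v : G)
    (d1 : DecidablePred (fun z : G => IsConj u z)) (d2 : DecidablePred (fun z : G => IsConj v z)) :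
    ∑ g₁ : G, ∑ g₂ : G, F (g₁ * u * g₁⁻¹) (g₂ * v * g₂⁻¹) =
      D8Stmt.cz u * D8Stmt.cz v *
        ∑ u₁ ∈ @Finset.filter G (fun z : G => IsConj u z) d1 Finset.univ,
          ∑ u₂ ∈ @Finset.filter G (fun z : G => IsConj v z) d2 Finset.univ, F u₁ u₂ := by
  have h1 : ∀ g₁ : G, ∑ g₂ : G, F (g₁ * u * g₁⁻¹) (g₂ * v * g₂⁻¹) =
      (Nat.card (Subgroup.centralizer ({v} : Set G)) : ℂ) *
        ∑ z ∈ @Finset.filter G (fun z : G => IsConj v z) d2 Finset.univ, F (g₁ * u * g₁⁻¹) z :=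
    fun g₁ => @Cfsg.Agent.Lib.Helper49.S9FIB2.single G _ _ (fun w => F (g₁ * u * g₁⁻¹) w) v d2
  simp only [h1]
  rw [← Finset.mul_sum]
  have h2 := @Cfsg.Agent.Lib.Helper49.S9FIB2.single G _ _
    (fun w => ∑ z ∈ @Finset.filter G (fun z : G => IsConj v z) d2 Finset.univ, F w z) u d1
  rw [h2]
  unfold D8Stmt.cz
  ring

theorem main : D8Stmt.FIB2b.{u} := by
  intro G _ _ F u v
  exact gen F u v _ _

end Cfsg.Agent.Lib.Helper17.D8FIB2b
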