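import Mathlib
import Cfsg.Agent.Lib.Helper32.D8Stmt

/-! S3716 piece PAIRSUM2 (helper17). -/

set_option autoImplicit false

namespace Cfsg.Agent.Lib.Helper17.D8PAIRSUM2

open Cfsg
open Cfsg.Agent.Lib.Helper32
open scoped ComplexConjugate

universe u

theorem main : D8Stmt.PAIRSUM2.{u} := by
  intro G _ _ H θ u v
  unfold indFun
  rw [← Finset.mul_sum, Finset.sum_comm]
  congr 1
  rw [← Equiv.sum_comp (Equiv.inv G)]
  refine Finset.sum_congr rfl fun x _ => ?_
  rw [← Equiv.sum_comp (Equiv.mulLeft (x⁻¹))]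
  refine Finset.sum_congr rfl fun h _ => ?_
  congr 1
  simp only [Equiv.inv_apply, Equiv.coe_mulLeft]
  group

end Cfsg.Agent.Lib.Helper17.D8PAIRSUM2
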