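import Mathlib

/-!
Arithmetic lemmas for the recognition of simple groups of order `q (q² - 1)`, `q` a power
of two.
-/

set_option autoImplicit false

namespace Cfsg.Agent.Lib.Helper17.EvenArith

theorem signs_arith (p D d : ℕ) (ε δ a₀ : ℤ) (hp7 : 7 ≤ p) (hε : ε = 1 ∨ ε = -1)
    (hδ : δ = 1 ∨ δ = -1) (ha₀ : (D : ℤ) = δ + p * a₀) (heq : (1 : ℤ) + δ * D = ε * d)
    (hDpos : 0 < D) (hdpos : 0 < d) :
    ε = δ ∧ (d : ℤ) = D + δ ∧ ((D % p = 1 ∧ d = D + 1) ∨ (D % p = p - 1 ∧ D = d + 1)) := by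
  rcases hδ with rfl | rfl <;> rcases hε with rfl | rfl
  · refine ⟨rfl, by omega, Or.inl ⟨?_, by omega⟩⟩
    have h1 : (D : ℤ) % (p : ℤ) = 1 % (p : ℤ) := by
      rw [ha₀]; simp [Int.add_mul_emod_self_left]
    have h2 : (1 : ℤ) % (p : ℤ) = 1 := Int.emod_eq_of_lt (by norm_num) (by omega)
    rw [h2] at h1
    exact_mod_cast h1
  · exfalso; omega
  · exfalso; omega
  · refine ⟨rfl, by omega, Or.inr ⟨?_, by omega⟩⟩
    have h1 : (D : ℤ) % (p : ℤ) = ((p - 1 : ℕ) : ℤ) := by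
      have h3 : (D : ℤ) = ((p - 1 : ℕ) : ℤ) + p * (a₀ - 1) := by
        rw [ha₀]
        push_cast [Nat.cast_sub (by omega : 1 ≤ p)]
        ring
      rw [h3, Int.add_mul_emod_self_left]
      exact Int.emod_eq_of_lt (by positivity) (by omega)
    exact_mod_cast h1

theorem inv_arith (p q d a c : ℕ) (δ u : ℤ) (hp : p.Prime) (hq0 : q ≠ 0) (hd0 : d ≠ 0)
    (hδ2 : δ ^ 2 = 1) (hdq : (d : ℤ) = q + δ) (hpc : ¬ p ∣ c) (hcpos : 0 < c)
    (ha_lt : a < p * 2) (hsq : u ^ 2 + 1 ≤ (c : ℤ))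
    (heq_t : ((a * c ^ 2 * q * d : ℕ) : ℤ) = ((p * q * d : ℕ) : ℤ)
      * ((q : ℤ) * d + δ * u ^ 2 * d - δ * (1 + δ * u) ^ 2 * q)) :
    (a = 0 ∧ u = q) ∨ (a = p ∧ (c : ℤ) = q - u) := by
  push_cast at heq_t
  have h1 : (q : ℤ) * d * ((a : ℤ) * c ^ 2 - p * (q - u) ^ 2) = 0 := by
    linear_combination heq_t + (p : ℤ) * q * d * (q + δ * u ^ 2) * hdq
      + (p : ℤ) * q * d * (u ^ 2 - 2 * u * q - δ * u ^ 2 * q) * hδ2
  have hqd : (q : ℤ) * d ≠ 0 := by exact_mod_cast Nat.mul_ne_zero hq0 hd0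
  have h2 : (a : ℤ) * c ^ 2 = p * (q - u) ^ 2 := by
    rcases mul_eq_zero.mp h1 with h | h
    · exact absurd h hqd
    · linarith
  have hpa : p ∣ a := by
    have h3 : (p : ℤ) ∣ ((a * c ^ 2 : ℕ) : ℤ) := by
      push_cast
      rw [h2]
      exact dvd_mul_right _ _
    have h4 : p ∣ a * c ^ 2 := Int.natCast_dvd_natCast.mp h3
    rcases (Nat.Prime.dvd_mul hp).mp h4 with h | h
    · exact h
    · exact absurd (hp.dvd_of_dvd_pow h) hpc
  have ha_cases : a = 0 ∨ a = p := by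
    obtain ⟨j, rfl⟩ := hpa
    have hj : j < 2 := Nat.lt_of_mul_lt_mul_left ha_lt
    interval_cases j <;> simp
  have hp0' : (p : ℤ) ≠ 0 := by exact_mod_cast hp.ne_zero
  rcases ha_cases with ha0 | hap
  · left
    refine ⟨ha0, ?_⟩
    rw [ha0] at h2
    have h5 : (p : ℤ) * (q - u) ^ 2 = 0 := by
      rw [← h2]
      push_cast
      ring
    have h6 : (q : ℤ) - u = 0 := by
      rcases mul_eq_zero.mp h5 with h | h
      · exact absurd h hp0'
      · exact (pow_eq_zero_iff (by norm_num : (2 : ℕ) ≠ 0)).mp h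
    linarith
  · right
    refine ⟨hap, ?_⟩
    have h5 : ((c : ℤ)) ^ 2 = (q - u) ^ 2 := by
      rw [hap] at h2
      have h6 : (p : ℤ) * ((c : ℤ) ^ 2 - (q - u) ^ 2) = 0 := by linarith
      rcases mul_eq_zero.mp h6 with h | h
      · exact absurd h hp0'
      · linarith
    have h7 : ((c : ℤ) - (q - u)) * ((c : ℤ) + (q - u)) = 0 := by linear_combination h5
    rcases mul_eq_zero.mp h7 with h | h
    · linarith
    · exfalso
      have hc1 : (1 : ℤ) ≤ c := by exact_mod_cast hcpos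
      have hq1 : (0 : ℤ) ≤ q := by positivity
      have hu1 : u = c + q := by linarith
      have hu2 : u ^ 2 ≥ u := by nlinarith
      linarith

theorem u_zero_arith (q j : ℕ) (u : ℤ) (hq4 : 4 ≤ q) (hc : ((q * j : ℕ) : ℤ) = q - u)
    (hsq : u ^ 2 + 1 ≤ ((q * j : ℕ) : ℤ)) : u = 0 := by
  push_cast at hc hsq
  have hj1 : 1 ≤ j := by
    rcases Nat.eq_zero_or_pos j with h0 | h0
    · rw [h0] at hsq
      push_cast at hsq
      nlinarith [sq_nonneg u]
    · exact h0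
  by_contra hne
  have hj2 : (2 : ℤ) ≤ j := by
    by_contra hlt
    have h1 : j = 1 := by omega
    rw [h1] at hc
    apply hne
    push_cast at hc
    linarith
  have hq4' : (4 : ℤ) ≤ q := by exact_mod_cast hq4
  have hu : u = -((q : ℤ) * (j - 1)) := by linarith
  rw [hu] at hsq
  have hW1 : (q : ℤ) ≤ (q : ℤ) * (j - 1) := by nlinarith
  have hW2 : ((q : ℤ) * (j - 1)) ^ 2 ≥ 4 * ((q : ℤ) * (j - 1)) := by nlinarith
  have hW3 : (q : ℤ) * j = (q : ℤ) * (j - 1) + q := by ring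
  nlinarith

end Cfsg.Agent.Lib.Helper17.EvenArith
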