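import Mathlib
import Cfsg.Agent.Lib.Helper17.EvenEq
import Cfsg.Agent.Lib.Helper17.Sylow

/-!
Auxiliary lemmas for the recognition of `PSL(2, 2^k)` by exceptional characters.
-/

set_option autoImplicit false
set_option linter.style.haveILetI false

namespace Cfsg.Agent.Lib.Helper17.EvenAux

open Cfsg Subgroup
open Cfsg.Agent.Lib.CT.Orth Cfsg.Agent.Lib.CT.Wedderburn Cfsg.Agent.Lib.CT.ClassMult
open Cfsg.Agent.Lib.Helper17.ExcOrb Cfsg.Agent.Lib.Helper17.ExcMain
open Cfsg.Agent.Lib.Helper17.ExcCor Cfsg.Agent.Lib.Helper17.Sylow2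
open Cfsg.Agent.Lib.Helper17.ExcInv Cfsg.Agent.Lib.Helper17.ExcSimple
open Cfsg.Agent.Lib.Helper17.EvenInv Cfsg.Agent.Lib.Helper17.Sylow
open scoped ComplexConjugate

universe u

variable {G : Type u} [Group G]

theorem coe_smul_sylow {p : ℕ} (g : G) (S : Sylow p G) :
    ((g • S : Sylow p G) : Subgroup G) = (S : Subgroup G).map (MulAut.conj g).toMonoidHom := by
  ext x
  constructor
  · rintro ⟨y, hy, rfl⟩
    exact ⟨y, hy, rfl⟩
  · rintro ⟨y, hy, rfl⟩
    exact ⟨y, hy, rfl⟩

/-- No element of order `p` commutes with an involution, if `P` is a self-centralizing Sylow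
subgroup of odd prime order `p`. -/
theorem not_dvd_card_centralizer_involution [Finite G] (P : Subgroup G) {p : ℕ} (hp : p.Prime)
    (hP : Nat.card P = p) (hp2 : p ≠ 2) (hC : centralizer (P : Set G) ≤ P) (m : ℕ)
    (hcard : Nat.card G = p * m) (hm : ¬ p ∣ m) (t : G) (ht : orderOf t = 2) :
    ¬ p ∣ Nat.card (centralizer ({t} : Set G)) := by
  haveI : Fact p.Prime := ⟨hp⟩
  intro hdvd
  have htt : t * t = 1 := by
    have := pow_orderOf_eq_one t
    rwa [ht, pow_two] at this
  have ht1 : t ≠ 1 := by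
    intro h
    rw [h, orderOf_one] at ht
    omega
  obtain ⟨x, hxC, hx⟩ := exists_mem_orderOf_eq_prime (centralizer ({t} : Set G)) p hdvd
  have hpgP : IsPGroup p P := IsPGroup.of_card (n := 1) (by rw [hP, pow_one])
  have hpgx : IsPGroup p (zpowers x) :=
    IsPGroup.of_card (n := 1) (by rw [Nat.card_zpowers, hx, pow_one])
  obtain ⟨S₁, hS₁⟩ := hpgP.exists_le_sylow
  obtain ⟨S₂, hS₂⟩ := hpgx.exists_le_sylow
  have hcS : ∀ S : Sylow p G, Nat.card (S : Subgroup G) = p := fun S => by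
    have := card_sylow_subgroup (p := p) (k := 1) (m := m) (by rw [hcard, pow_one]) hm S
    simpa using this
  have e1 : P = (S₁ : Subgroup G) := Subgroup.eq_of_le_of_card_ge hS₁ (by rw [hcS, hP])
  have e2 : zpowers x = (S₂ : Subgroup G) :=
    Subgroup.eq_of_le_of_card_ge hS₂ (by rw [hcS, Nat.card_zpowers, hx])
  obtain ⟨g, hg⟩ := MulAction.exists_smul_eq G S₂ S₁
  have hgx : g * x * g⁻¹ ∈ P := by
    have hxS : x ∈ (S₂ : Subgroup G) := by
      rw [← e2]
      exact mem_zpowers x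
    rw [e1, ← hg, coe_smul_sylow]
    exact ⟨x, hxS, rfl⟩
  have hgx1 : g * x * g⁻¹ ≠ 1 := by
    intro h
    have hx1 : x = 1 := by
      have : x = g⁻¹ * (g * x * g⁻¹) * g := by group
      rw [this, h]
      group
    rw [hx1, orderOf_one] at hx
    exact hp.one_lt.ne hx
  have hxt : x * t = t * x := mem_centralizer_singleton_iff.mp hxC
  have hcomm : g * t * g⁻¹ ∈ centralizer (P : Set G) := by
    rw [mem_centralizer_iff]
    intro h hh
    have hh' : h ∈ zpowers (g * x * g⁻¹) := by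
      rw [zpowers_eq_of_card_prime P hp hP _ hgx hgx1]
      exact hh
    obtain ⟨i, rfl⟩ := mem_zpowers_iff.mp hh'
    have hc : Commute (g * x * g⁻¹) (g * t * g⁻¹) := by
      show (g * x * g⁻¹) * (g * t * g⁻¹) = (g * t * g⁻¹) * (g * x * g⁻¹)
      calc (g * x * g⁻¹) * (g * t * g⁻¹) = g * (x * t) * g⁻¹ := by group
        _ = g * (t * x) * g⁻¹ := by rw [hxt]
        _ = (g * t * g⁻¹) * (g * x * g⁻¹) := by group
    exact (Commute.zpow_left hc i).eq
  have hsq : (g * t * g⁻¹) * (g * t * g⁻¹) = 1 := by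
    have : (g * t * g⁻¹) * (g * t * g⁻¹) = g * (t * t) * g⁻¹ := by group
    rw [this, htt]
    group
  have hne : g * t * g⁻¹ ≠ 1 := by
    intro h
    apply ht1
    have : t = g⁻¹ * (g * t * g⁻¹) * g := by group
    rw [this, h]
    group
  exact not_mem_of_sq_eq_one P hp hP hp2 _ hsq hne (hC hcomm)

/-- The centralizer order of `t` bounds the squares of two character values. -/
theorem sq_add_one_le [Fintype G] [Fintype (IrrCharacter G)] (χ : IrrCharacter G)
    (hχT : χ ≠ trivIrr G) (t : G) (u : ℤ) (hu : (χ : G → ℂ) t = u) :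
    u ^ 2 + 1 ≤ (Nat.card (centralizer ({t} : Set G)) : ℤ) := by
  classical
  have h := second_orthogonality_sum_of_isConj t t (IsConj.refl t)
  have h1 : ∀ ψ : IrrCharacter G, (ψ : G → ℂ) t * conj ((ψ : G → ℂ) t)
      = ((Complex.normSq ((ψ : G → ℂ) t) : ℝ) : ℂ) := fun ψ => Complex.mul_conj _
  rw [Finset.sum_congr rfl (fun ψ _ => h1 ψ), ← Complex.ofReal_sum] at h
  have h2 : ∑ ψ : IrrCharacter G, Complex.normSq ((ψ : G → ℂ) t)
      = (Nat.card (centralizer ({t} : Set G)) : ℝ) := by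
    have : ((Nat.card (centralizer ({t} : Set G)) : ℝ) : ℂ)
        = (Nat.card (centralizer ({t} : Set G)) : ℂ) := by push_cast; rfl
    rw [← this] at h
    exact Complex.ofReal_injective h
  rw [← Finset.add_sum_erase Finset.univ _ (Finset.mem_univ (trivIrr G)),
    ← Finset.add_sum_erase (Finset.univ.erase (trivIrr G)) _
      (Finset.mem_erase.mpr ⟨hχT, Finset.mem_univ _⟩)] at h2
  have h3 : 0 ≤ ∑ ψ ∈ (Finset.univ.erase (trivIrr G)).erase χ,
      Complex.normSq ((ψ : G → ℂ) t) := Finset.sum_nonneg (fun ψ _ => Complex.normSq_nonneg _)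
  rw [trivIrr_apply, hu] at h2
  have h4 : Complex.normSq ((u : ℤ) : ℂ) = (u : ℝ) ^ 2 := by
    rw [← Complex.ofReal_intCast, Complex.normSq_ofReal]
    ring
  rw [h4, Complex.normSq_one] at h2
  have h5 : (u : ℝ) ^ 2 + 1 ≤ (Nat.card (centralizer ({t} : Set G)) : ℝ) := by linarith
  exact_mod_cast h5

end Cfsg.Agent.Lib.Helper17.EvenAux
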