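import Mathlib
import Cfsg.Agent.Lib.Helper17.EvenAux

/-!
Character values in the situation of `exceptional_two'` when all involutions have centralizer of
order `q` and `|G| = p q d`.
-/

set_option autoImplicit false
set_option linter.style.haveILetI false

namespace Cfsg.Agent.Lib.Helper17.EvenVal

open Cfsg Subgroup
open Cfsg.Agent.Lib.CT.Orth Cfsg.Agent.Lib.CT.Wedderburn Cfsg.Agent.Lib.CT.ClassMult
open Cfsg.Agent.Lib.Helper17.ExcOrb Cfsg.Agent.Lib.Helper17.ExcMain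
open Cfsg.Agent.Lib.Helper17.ExcCor Cfsg.Agent.Lib.Helper17.Sylow2
open Cfsg.Agent.Lib.Helper17.ExcInv Cfsg.Agent.Lib.Helper17.ExcSimple
open Cfsg.Agent.Lib.Helper17.EvenInv Cfsg.Agent.Lib.Helper17.EvenAux
open scoped ComplexConjugate

universe u

variable {G : Type u} [Group G]

/-- Values at an involution of the characters outside `{1, χ, θ i}`. -/
theorem other_values [Fintype G] [Fintype (IrrCharacter G)] {n : ℕ} (p q d : ℕ) (δ : ℤ)
    (θ : Fin n → IrrCharacter G) (χ : IrrCharacter G)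
    (hn : n * 2 + 1 = p) (hθinj : Function.Injective θ)
    (hχT : χ ≠ trivIrr G) (hθχ : ∀ i, θ i ≠ χ) (hθT : ∀ i, θ i ≠ trivIrr G)
    (hδ : δ = 1 ∨ δ = -1)
    (hpq : (p : ℤ) + δ = q) (hdq : (d : ℤ) = q + δ)
    (hcard : Nat.card G = p * q * d)
    (hDχ : charDegree (χ : G → ℂ) = q)
    (hdθ : ∀ i, charDegree ((θ i : IrrCharacter G) : G → ℂ) = d)
    (t : G) (ht : orderOf t = 2) (hct : Nat.card (centralizer ({t} : Set G)) = q)
    (hχt : (χ : G → ℂ) t = 0) (hθt : ∀ i, (θ i : G → ℂ) t = (δ : ℂ)) :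
    ∀ ψ : IrrCharacter G, ψ ≠ trivIrr G → ψ ≠ χ → (∀ i, θ i ≠ ψ) →
      (p : ℂ) * (ψ : G → ℂ) t + (δ : ℂ) * (ψ : G → ℂ) 1 = 0 := by
  classical
  have ht1 : t ≠ 1 := by
    intro h
    rw [h, orderOf_one] at ht
    omega
  have hδ2 : δ ^ 2 = 1 := by rcases hδ with h | h <;> rw [h] <;> norm_num
  have hδ2c : (δ : ℂ) ^ 2 = 1 := by exact_mod_cast hδ2
  choose uu huu using fun ψ : IrrCharacter G => int_of_involution ψ t ht
  obtain ⟨m, hm⟩ : ∃ m : IrrCharacter G → ℤ, ∀ ψ, m ψ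
      = (p : ℤ) * uu ψ + δ * (charDegree (ψ : G → ℂ) : ℤ) := ⟨_, fun _ => rfl⟩
  have hmC : ∀ ψ : IrrCharacter G, ((m ψ : ℤ) : ℂ)
      = (p : ℂ) * (ψ : G → ℂ) t + (δ : ℂ) * (ψ : G → ℂ) 1 := by
    intro ψ
    rw [hm ψ, huu ψ, deg_eq ψ]
    push_cast
    ring
  have hnc1 : ¬ IsConj t 1 := fun hc => ht1 (isConj_one_left.mp hc)
  have hnc2 : ¬ IsConj 1 t := fun hc => ht1 (isConj_one_right.mp hc)
  have htot : ∑ ψ, m ψ ^ 2 = (p : ℤ) ^ 2 * q + p * q * d := by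
    have hCc : ((∑ ψ, m ψ ^ 2 : ℤ) : ℂ) = (((p : ℤ) ^ 2 * q + p * q * d : ℤ) : ℂ) := by
      push_cast
      have h1 : ∀ ψ : IrrCharacter G, ((m ψ : ℤ) : ℂ) ^ 2
          = (p : ℂ) ^ 2 * ((ψ : G → ℂ) t * conj ((ψ : G → ℂ) t))
            + (p : ℂ) * δ * ((ψ : G → ℂ) t * conj ((ψ : G → ℂ) 1))
            + (p : ℂ) * δ * ((ψ : G → ℂ) 1 * conj ((ψ : G → ℂ) t))
            + (δ : ℂ) ^ 2 * ((ψ : G → ℂ) 1) ^ 2 := by
        intro ψ
        rw [hmC ψ]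
        have hc1 : conj ((ψ : G → ℂ) t) = (ψ : G → ℂ) t := by
          rw [huu ψ]
          exact map_intCast (starRingEnd ℂ) _
        rw [hc1, irr_conj_apply_one ψ]
        ring
      rw [Finset.sum_congr rfl (fun ψ _ => h1 ψ)]
      rw [Finset.sum_add_distrib, Finset.sum_add_distrib, Finset.sum_add_distrib,
        ← Finset.mul_sum, ← Finset.mul_sum, ← Finset.mul_sum, ← Finset.mul_sum]
      rw [second_orthogonality_sum_of_isConj t t (IsConj.refl t),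
        second_orthogonality_sum_of_not_isConj t 1 hnc1,
        second_orthogonality_sum_of_not_isConj 1 t hnc2, sum_apply_one_sq_sum, hct, hcard, hδ2c]
      push_cast
      ring
    exact_mod_cast hCc
  have hpqc : (p : ℂ) + (δ : ℂ) = (q : ℂ) := by exact_mod_cast hpq
  have hdqc : (d : ℂ) = (q : ℂ) + (δ : ℂ) := by exact_mod_cast hdq
  have hmT : m (trivIrr G) = q := by
    have h1 : ((m (trivIrr G) : ℤ) : ℂ) = ((q : ℤ) : ℂ) := by
      rw [hmC, trivIrr_apply, trivIrr_apply]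
      push_cast
      linear_combination hpqc
    exact_mod_cast h1
  have hmχ : m χ = δ * q := by
    have h1 : ((m χ : ℤ) : ℂ) = ((δ * q : ℤ) : ℂ) := by
      rw [hmC, hχt, deg_eq χ, hDχ]
      push_cast
      ring
    exact_mod_cast h1
  have hmθ : ∀ i, m (θ i) = 2 * q * δ := by
    intro i
    have h1 : ((m (θ i) : ℤ) : ℂ) = ((2 * q * δ : ℤ) : ℂ) := by
      rw [hmC, hθt i, deg_eq (θ i), hdθ i]
      push_cast
      linear_combination (δ : ℂ) * hpqc + (δ : ℂ) * hdqc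
    exact_mod_cast h1
  have hsplit := sum_split3 θ hθinj (trivIrr G) χ hχT hθT hθχ (fun ψ => m ψ ^ 2)
  have h1 := htot.symm.trans hsplit
  rw [hmT, hmχ] at h1
  simp only [hmθ] at h1
  rw [Finset.sum_const, Finset.card_univ, Fintype.card_fin, nsmul_eq_mul] at h1
  have hnp : (p : ℤ) = 2 * n + 1 := by
    have : p = 2 * n + 1 := by omega
    exact_mod_cast this
  have hrest : ∑ ψ : IrrCharacter G,
      (if ψ = trivIrr G ∨ ψ = χ ∨ ∃ i, θ i = ψ then 0 else m ψ ^ 2) = 0 := by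
    linear_combination (-1 : ℤ) * h1 + (p : ℤ) * q * hdq + (-(q : ℤ) ^ 2 - 4 * n * q ^ 2) * hδ2
      + 2 * (q : ℤ) ^ 2 * hnp + (p : ℤ) * q * hpq
  have hzero : ∀ ψ : IrrCharacter G, ψ ≠ trivIrr G → ψ ≠ χ → (∀ i, θ i ≠ ψ) → m ψ = 0 := by
    intro ψ h2 h3 h4
    have hnn : ∀ ψ ∈ (Finset.univ : Finset (IrrCharacter G)),
        0 ≤ (if ψ = trivIrr G ∨ ψ = χ ∨ ∃ i, θ i = ψ then 0 else m ψ ^ 2) := by
      intro ψ _
      split_ifs
      · exact le_rfl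
      · exact sq_nonneg _
    have h5 := (Finset.sum_eq_zero_iff_of_nonneg hnn).mp hrest ψ (Finset.mem_univ ψ)
    rw [if_neg (by
      rintro (h | h | ⟨i, h⟩)
      · exact h2 h
      · exact h3 h
      · exact h4 i h)] at h5
    exact (pow_eq_zero_iff (by norm_num : (2 : ℕ) ≠ 0)).mp h5
  intro ψ h2 h3 h4
  rw [← hmC ψ, hzero ψ h2 h3 h4]
  simp

/-- The exceptional characters vanish on the elements which are neither involutions nor
conjugate into `P`. -/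
theorem theta_zero [Fintype G] [Fintype (IrrCharacter G)] (P : Subgroup G) {n : ℕ} (p q : ℕ)
    (ε δ : ℤ) (θ : Fin n → IrrCharacter G) (χ : IrrCharacter G) (i₀ : Fin n)
    (hn : n * 2 + 1 = p) (hθinj : Function.Injective θ)
    (hχT : χ ≠ trivIrr G) (hθχ : ∀ i, θ i ≠ χ) (hθT : ∀ i, θ i ≠ trivIrr G)
    (hδ : δ = 1 ∨ δ = -1) (hεδ : ε = δ) (hq0 : q ≠ 0) (hp0 : p ≠ 0)
    (hθvan : ∀ i j, ∀ g : G, (∀ u : G, u⁻¹ * g * u ∉ P) → (θ i : G → ℂ) g = (θ j : G → ℂ) g)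
    (hform : ∀ y : G, y ∈ P → y ≠ 1 → ∀ A : IrrCharacter G → ℂ, (∀ i j, A (θ i) = A (θ j)) →
        ∑ ψ, A ψ * conj ((ψ : G → ℂ) y)
          = A (trivIrr G) + (δ : ℂ) * A χ - (ε : ℂ) * A (θ i₀))
    (hpq : (p : ℤ) + δ = q)
    (hDχ : charDegree (χ : G → ℂ) = q)
    (hdθ : ∀ i, (charDegree ((θ i : IrrCharacter G) : G → ℂ) : ℤ) = q + δ)
    (t : G) (hχt : (χ : G → ℂ) t = 0) (hθt : ∀ i, (θ i : G → ℂ) t = (δ : ℂ))
    (hother : ∀ ψ : IrrCharacter G, ψ ≠ trivIrr G → ψ ≠ χ → (∀ i, θ i ≠ ψ) →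
      (p : ℂ) * (ψ : G → ℂ) t + (δ : ℂ) * (ψ : G → ℂ) 1 = 0)
    (y : G) (hyP : y ∈ P) (hy1 : y ≠ 1)
    (g : G) (hg1 : g ≠ 1) (hgt : ¬ IsConj t g) (hgP : ∀ w : G, w⁻¹ * g * w ∉ P) :
    (θ i₀ : G → ℂ) g = 0 := by
  classical
  have hδ2c : (δ : ℂ) * (δ : ℂ) = 1 := by
    rcases hδ with h | h <;> rw [h] <;> norm_num
  have hpqc : (p : ℂ) + (δ : ℂ) = (q : ℂ) := by exact_mod_cast hpq
  have hnc2 : ¬ IsConj 1 g := fun hc => hg1 (isConj_one_right.mp hc)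
  have hsum : ∑ ψ : IrrCharacter G,
      ((p : ℂ) * (ψ : G → ℂ) t + (δ : ℂ) * (ψ : G → ℂ) 1) * conj ((ψ : G → ℂ) g) = 0 := by
    have h1 : ∀ ψ : IrrCharacter G,
        ((p : ℂ) * (ψ : G → ℂ) t + (δ : ℂ) * (ψ : G → ℂ) 1) * conj ((ψ : G → ℂ) g)
        = (p : ℂ) * ((ψ : G → ℂ) t * conj ((ψ : G → ℂ) g))
          + (δ : ℂ) * ((ψ : G → ℂ) 1 * conj ((ψ : G → ℂ) g)) := fun ψ => by ring
    rw [Finset.sum_congr rfl (fun ψ _ => h1 ψ), Finset.sum_add_distrib, ← Finset.mul_sum,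
      ← Finset.mul_sum, second_orthogonality_sum_of_not_isConj t g hgt,
      second_orthogonality_sum_of_not_isConj 1 g hnc2]
    ring
  rw [sum_split3 θ hθinj (trivIrr G) χ hχT hθT hθχ] at hsum
  have hrest : ∑ ψ : IrrCharacter G, (if ψ = trivIrr G ∨ ψ = χ ∨ ∃ i, θ i = ψ then 0
      else ((p : ℂ) * (ψ : G → ℂ) t + (δ : ℂ) * (ψ : G → ℂ) 1) * conj ((ψ : G → ℂ) g)) = 0 := by
    apply Finset.sum_eq_zero
    intro ψ _
    split_ifs with h
    · rfl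
    · push Not at h
      rw [hother ψ h.1 h.2.1 (fun i hi => h.2.2 i hi), zero_mul]
  rw [hrest, add_zero] at hsum
  have hθg : ∀ i, (θ i : G → ℂ) g = (θ i₀ : G → ℂ) g := fun i => hθvan i i₀ g hgP
  have hθsum : ∑ i, ((p : ℂ) * (θ i : G → ℂ) t + (δ : ℂ) * (θ i : G → ℂ) 1)
      * conj ((θ i : G → ℂ) g)
      = (n : ℂ) * ((2 * (q : ℂ) * δ) * conj ((θ i₀ : G → ℂ) g)) := by
    have h2 : ∀ i ∈ (Finset.univ : Finset (Fin n)),
        ((p : ℂ) * (θ i : G → ℂ) t + (δ : ℂ) * (θ i : G → ℂ) 1) * conj ((θ i : G → ℂ) g)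
        = (2 * (q : ℂ) * δ) * conj ((θ i₀ : G → ℂ) g) := by
      intro i _
      have h3 : ((charDegree ((θ i : IrrCharacter G) : G → ℂ) : ℕ) : ℂ) = (q : ℂ) + (δ : ℂ) := by
        exact_mod_cast hdθ i
      rw [hθt i, deg_eq (θ i), hθg i, h3]
      linear_combination (δ : ℂ) * conj ((θ i₀ : G → ℂ) g) * hpqc
    rw [Finset.sum_congr rfl h2, Finset.sum_const, Finset.card_univ, Fintype.card_fin,
      nsmul_eq_mul]
  rw [hθsum, trivIrr_apply, trivIrr_apply, trivIrr_apply, hχt, deg_eq χ, hDχ] at hsum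
  -- column relation
  have hncy : ¬ IsConj g y := by
    intro hc
    obtain ⟨c, hc⟩ := isConj_iff.mp hc
    have h4 := hgP c⁻¹
    rw [inv_inv] at h4
    exact h4 (hc ▸ hyP)
  have hcol := hform y hyP hy1 (fun ψ : IrrCharacter G => (ψ : G → ℂ) g)
    (fun i j => hθvan i j g hgP)
  rw [second_orthogonality_sum_of_not_isConj g y hncy, trivIrr_apply, hεδ] at hcol
  -- χ g = θ g - δ
  have hχg : (χ : G → ℂ) g = (θ i₀ : G → ℂ) g - (δ : ℂ) := by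
    linear_combination (-(δ : ℂ)) * hcol + (-(χ : G → ℂ) g + (θ i₀ : G → ℂ) g) * hδ2c
  have hconjδ : conj (δ : ℂ) = (δ : ℂ) := map_intCast (starRingEnd ℂ) _
  rw [hχg, map_sub, hconjδ, map_one] at hsum
  have hnp : (p : ℂ) = 2 * (n : ℂ) + 1 := by
    have : p = 2 * n + 1 := by omega
    exact_mod_cast this
  have hfin : (q : ℂ) * (δ : ℂ) * (p : ℂ) * conj ((θ i₀ : G → ℂ) g) = 0 := by
    linear_combination hsum + (q : ℂ) * hδ2c
      + (q : ℂ) * (δ : ℂ) * conj ((θ i₀ : G → ℂ) g) * hnp - hpqc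
  have hq0c : (q : ℂ) ≠ 0 := Nat.cast_ne_zero.mpr hq0
  have hp0c : (p : ℂ) ≠ 0 := Nat.cast_ne_zero.mpr hp0
  have hδ0 : (δ : ℂ) ≠ 0 := by
    intro h
    rw [h] at hδ2c
    norm_num at hδ2c
  have h5 : conj ((θ i₀ : G → ℂ) g) = 0 := by
    rcases mul_eq_zero.mp hfin with h | h
    · rcases mul_eq_zero.mp h with h | h
      · rcases mul_eq_zero.mp h with h | h
        · exact absurd h hq0c
        · exact absurd h hδ0
      · exact absurd h hp0c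
    · exact h
  exact (map_eq_zero _).mp h5

/-- If `θ g = 0` and `χ t = 0` then `|C(g)| |C(t)|` divides `|G|`. -/
theorem card_centralizer_mul_dvd [Fintype G] [Fintype (IrrCharacter G)] (P : Subgroup G)
    {n : ℕ} (ε δ : ℤ) (θ : Fin n → IrrCharacter G) (χ : IrrCharacter G) (i₀ : Fin n)
    (hθvan : ∀ i j, ∀ g : G, (∀ u : G, u⁻¹ * g * u ∉ P) → (θ i : G → ℂ) g = (θ j : G → ℂ) g)
    (hθone : ∀ i j, (θ i : G → ℂ) 1 = (θ j : G → ℂ) 1)
    (hform : ∀ y : G, y ∈ P → y ≠ 1 → ∀ A : IrrCharacter G → ℂ, (∀ i j, A (θ i) = A (θ j)) →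
        ∑ ψ, A ψ * conj ((ψ : G → ℂ) y)
          = A (trivIrr G) + (δ : ℂ) * A χ - (ε : ℂ) * A (θ i₀))
    (t g y : G) (hyP : y ∈ P) (hy1 : y ≠ 1) (hχt : (χ : G → ℂ) t = 0)
    (hθt : ∀ i j, (θ i : G → ℂ) t = (θ j : G → ℂ) t)
    (hθg : (θ i₀ : G → ℂ) g = 0) (hgP : ∀ w : G, w⁻¹ * g * w ∉ P) :
    Nat.card (centralizer ({g} : Set G)) * Nat.card (centralizer ({t} : Set G))
      ∣ Nat.card G := by
  classical
  have hpc := conj_pair_count g t y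
  have hsum : ∑ ψ : IrrCharacter G,
      (ψ : G → ℂ) g * (ψ : G → ℂ) t * conj ((ψ : G → ℂ) y) / (ψ : G → ℂ) 1
      = ∑ ψ : IrrCharacter G,
        (ψ : G → ℂ) g * (ψ : G → ℂ) t / (ψ : G → ℂ) 1 * conj ((ψ : G → ℂ) y) :=
    Finset.sum_congr rfl (fun ψ _ => by ring)
  have hA : ∀ i j, (fun ψ : IrrCharacter G => (ψ : G → ℂ) g * (ψ : G → ℂ) t / (ψ : G → ℂ) 1)
      (θ i) = (fun ψ : IrrCharacter G => (ψ : G → ℂ) g * (ψ : G → ℂ) t / (ψ : G → ℂ) 1) (θ j) := by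
    intro i j
    show (θ i : G → ℂ) g * (θ i : G → ℂ) t / (θ i : G → ℂ) 1
      = (θ j : G → ℂ) g * (θ j : G → ℂ) t / (θ j : G → ℂ) 1
    rw [hθvan i j g hgP, hθt i j, hθone i j]
  have e2 := hform y hyP hy1
    (fun ψ : IrrCharacter G => (ψ : G → ℂ) g * (ψ : G → ℂ) t / (ψ : G → ℂ) 1) hA
  rw [hsum, e2] at hpc
  simp only [trivIrr_apply] at hpc
  rw [hχt, hθg] at hpc
  have hpc' : ((Finset.univ.filter fun p : G × G =>
      p.1 * g * p.1⁻¹ * (p.2 * t * p.2⁻¹) = y).card : ℂ) = (Nat.card G : ℂ) := by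
    rw [hpc]
    ring
  have hnat : (Finset.univ.filter fun p : G × G =>
      p.1 * g * p.1⁻¹ * (p.2 * t * p.2⁻¹) = y).card = Nat.card G := by exact_mod_cast hpc'
  rw [card_pairs2 g t y] at hnat
  exact Dvd.intro_left _ hnat

end Cfsg.Agent.Lib.Helper17.EvenVal
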