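import Mathlib
import Cfsg.Agent.Lib.Helper17.EvenVal
import Cfsg.Agent.Lib.Helper17.EvenArith
import Cfsg.Agent.Lib.Helper17.Classes

/-!
Simple groups of order `q (q² - 1)`, `q` a power of two, with a self-centralizing Sylow subgroup
of prime order `p = q ± 1` whose normalizer has order `2p`: the centralizer of every involution
is elementary abelian of order `q`.
-/

set_option autoImplicit false
set_option linter.style.haveILetI false

namespace Cfsg.Agent.Lib.Helper17.EvenMain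

open Cfsg Subgroup
open Cfsg.Agent.Lib.CT.Orth Cfsg.Agent.Lib.CT.Wedderburn Cfsg.Agent.Lib.CT.ClassMult
open Cfsg.Agent.Lib.Helper17.ExcOrb Cfsg.Agent.Lib.Helper17.ExcMain
open Cfsg.Agent.Lib.Helper17.ExcCor Cfsg.Agent.Lib.Helper17.Sylow2
open Cfsg.Agent.Lib.Helper17.ExcInv Cfsg.Agent.Lib.Helper17.ExcSimple
open Cfsg.Agent.Lib.Helper17.EvenInv Cfsg.Agent.Lib.Helper17.EvenAux
open Cfsg.Agent.Lib.Helper17.EvenEq Cfsg.Agent.Lib.Helper17.EvenVal
open Cfsg.Agent.Lib.Helper17.ExcTwo Cfsg.Agent.Lib.Helper17.Sylow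
open Cfsg.Agent.Lib.Helper17.Classes Cfsg.Agent.Lib.Helper17.EvenArith
open scoped ComplexConjugate

universe u

variable {G : Type u} [Group G]

/-- The character-theoretic data attached to the self-centralizing subgroup `P`. -/
def Data [Fintype G] [Fintype (IrrCharacter G)] (P : Subgroup G) (p q d : ℕ) (δ : ℤ) {n : ℕ}
    (θ : Fin n → IrrCharacter G) (χ : IrrCharacter G) (i₀ : Fin n) : Prop :=
  n * 2 + 1 = p ∧ Function.Injective θ ∧ (δ = 1 ∨ δ = -1) ∧ χ ≠ trivIrr G ∧ (∀ i, θ i ≠ χ) ∧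
    (∀ i, θ i ≠ trivIrr G) ∧
    (∀ i j, ∀ g : G, (∀ u : G, u⁻¹ * g * u ∉ P) → (θ i : G → ℂ) g = (θ j : G → ℂ) g) ∧
    (∀ i j, (θ i : G → ℂ) 1 = (θ j : G → ℂ) 1) ∧
    (∀ y : G, y ∈ P → y ≠ 1 → ∀ A : IrrCharacter G → ℂ, (∀ i j, A (θ i) = A (θ j)) →
      ∑ ψ, A ψ * conj ((ψ : G → ℂ) y)
        = A (trivIrr G) + (δ : ℂ) * A χ - (δ : ℂ) * A (θ i₀)) ∧
    (p : ℤ) + δ = q ∧ (d : ℤ) = q + δ ∧ Nat.card G = p * q * d ∧
    charDegree (χ : G → ℂ) = q ∧ (∀ i, charDegree ((θ i : IrrCharacter G) : G → ℂ) = d)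

theorem even_setup [Fintype G] [Fintype (IrrCharacter G)] [IsSimpleGroup G]
    (hG : ¬ IsMulCommutative G) (P : Subgroup G) {p : ℕ} (hp : p.Prime) (hP : Nat.card P = p)
    (hC' : centralizer (P : Set G) ≤ P)
    (hN : Nat.card (normalizer (P : Set G)) = p * 2) (hp7 : 7 ≤ p) (q : ℕ)
    (hdeg : ∀ D d : ℕ, D ∣ Nat.card G → d ∣ Nat.card G → D ≠ 1 →
      ((D % p = 1 ∧ d = D + 1) ∨ (D % p = p - 1 ∧ D = d + 1)) →
      D = q ∧ p * D * d = Nat.card G ∧ p + d = 2 * q) :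
    ∃ (n d : ℕ) (δ : ℤ) (θ : Fin n → IrrCharacter G) (χ : IrrCharacter G) (i₀ : Fin n),
      Data P p q d δ θ χ i₀ := by
  classical
  obtain ⟨n, ε, δ, θ, χ, i₀, hn, hθinj, -, hε, hδ, hχT, hθχ, hθT, ⟨a₀, ha₀⟩, heq, hθvan, hθone,
    hform⟩ := exceptional_two' P hp hP hC' hN hp7
  have hD1 := charDegree_ne_one hG χ hχT
  have hDdvd := Cfsg.Agent.Lib.Helper80.Integrality.charDegree_dvd_card χ
  have hddvd := Cfsg.Agent.Lib.Helper80.Integrality.charDegree_dvd_card (θ i₀)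
  have hDpos : 0 < charDegree (χ : G → ℂ) := irr_charDegree_pos χ.2
  have hdpos : 0 < charDegree ((θ i₀ : IrrCharacter G) : G → ℂ) := irr_charDegree_pos (θ i₀).2
  obtain ⟨hεδ, hdD, hcase⟩ := signs_arith p _ _ ε δ a₀ hp7 hε hδ ha₀ heq hDpos hdpos
  obtain ⟨hDq, hcardG, hpd⟩ := hdeg _ _ hDdvd hddvd hD1 hcase
  refine ⟨n, charDegree ((θ i₀ : IrrCharacter G) : G → ℂ), δ, θ, χ, i₀, hn, hθinj, hδ, hχT, hθχ,
    hθT, hθvan, hθone, ?_, ?_, ?_, ?_, hDq, ?_⟩
  · rw [hεδ] at hform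
    exact hform
  · have h1 : ((p + charDegree ((θ i₀ : IrrCharacter G) : G → ℂ) : ℕ) : ℤ)
        = ((2 * q : ℕ) : ℤ) := by rw [hpd]
    push_cast at h1
    rw [hdD, hDq] at h1
    linarith
  · rw [hdD, hDq]
  · rw [← hcardG, hDq]
  · intro i
    have h1 := hθone i i₀
    rw [deg_eq (θ i), deg_eq (θ i₀)] at h1
    exact_mod_cast h1

theorem even_inv [Fintype G] [Fintype (IrrCharacter G)] [IsSimpleGroup G]
    (hG : ¬ IsMulCommutative G) (P : Subgroup G) {p : ℕ} (hp : p.Prime) (hP : Nat.card P = p)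
    (hC' : centralizer (P : Set G) ≤ P)
    (hN : Nat.card (normalizer (P : Set G)) = p * 2) (hp7 : 7 ≤ p) (q k : ℕ) (hq : q = 2 ^ k)
    (hq4 : 4 ≤ q) {n d : ℕ} (δ : ℤ) (θ : Fin n → IrrCharacter G) (χ : IrrCharacter G)
    (i₀ : Fin n) (hdata : Data P p q d δ θ χ i₀) (t : G) (ht : orderOf t = 2) :
    ∃ u : ℤ, (χ : G → ℂ) t = u ∧
      (θ i₀ : G → ℂ) t = (δ : ℂ) * (1 + δ * u) ∧
      (Nat.card (centralizer ({t} : Set G)) : ℤ) = q - u ∧
      u ^ 2 + 1 ≤ (Nat.card (centralizer ({t} : Set G)) : ℤ) ∧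
      ∃ k : G, k * t * k⁻¹ ∈ normalizer (P : Set G) := by
  classical
  obtain ⟨hn, hθinj, hδ, hχT, hθχ, hθT, hθvan, hθone, hform, hpq, hdq, hcard', hDχ, hdθ⟩ := hdata
  have hp2 : p ≠ 2 := by omega
  obtain ⟨z, hzP, hz1⟩ := exists_mem_ne_one P hp hP
  have hδ2 : δ ^ 2 = 1 := by rcases hδ with h | h <;> rw [h] <;> norm_num
  have hq0 : q ≠ 0 := by omega
  have hd0 : d ≠ 0 := by
    rintro rfl
    rcases hδ with h | h <;> rw [h] at hdq <;> push_cast at hdq <;> omega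
  have hpqd : ¬ p ∣ q * d := by
    intro h
    rcases (Nat.Prime.dvd_mul hp).mp h with h1 | h1
    · rw [hq] at h1
      have := (Nat.prime_dvd_prime_iff_eq hp Nat.prime_two).mp (hp.dvd_of_dvd_pow h1)
      omega
    · have h2 : (p : ℤ) ∣ (d : ℤ) := Int.natCast_dvd_natCast.mpr h1
      rw [hdq, ← hpq] at h2
      have h3 : (p : ℤ) ∣ 2 * δ := by
        have h4 : (p : ℤ) + δ + δ = p + 2 * δ := by ring
        rw [h4] at h2
        exact (Int.dvd_add_right (dvd_refl _)).mp h2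
      rcases hδ with h | h
      · rw [h] at h3
        have := Int.le_of_dvd (by norm_num) h3
        omega
      · rw [h] at h3
        have h5 : (p : ℤ) ∣ 2 := by
          have := (Int.dvd_neg).mpr h3
          simpa using this
        have := Int.le_of_dvd (by norm_num) h5
        omega
  obtain ⟨u, a, hu, hv, ha_lt, ha_conj, heq_t⟩ :=
    involution_equation' P hp hP hp2 δ δ θ χ i₀ hδ hθvan hθone hform t ht z hzP hz1
  have hsq := sq_add_one_le χ hχT t u hu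
  have hpc : ¬ p ∣ Nat.card (centralizer ({t} : Set G)) :=
    not_dvd_card_centralizer_involution P hp hP hp2 hC' (q * d)
      (by rw [hcard', mul_assoc]) hpqd t ht
  rw [hN] at ha_lt
  rw [hDχ, hdθ i₀, hcard'] at heq_t
  rcases inv_arith p q d a _ δ u hp hq0 hd0 hδ2 hdq hpc Nat.card_pos ha_lt hsq heq_t with
    ⟨ha0, hu0⟩ | ⟨hap, hc⟩
  · exfalso
    have h7 : (χ : G → ℂ) t = (χ : G → ℂ) 1 := by
      rw [hu, deg_eq χ, hDχ, hu0]
      push_cast
      rfl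
    have h9 := faithful_of_simple hG χ hχT t h7
    rw [h9, orderOf_one] at ht
    omega
  · exact ⟨u, hu, hv, hc, hsq, ha_conj (by rw [hap]; exact hp.ne_zero)⟩

theorem even_conj [Fintype G] [Fintype (IrrCharacter G)] [IsSimpleGroup G]
    (hG : ¬ IsMulCommutative G) (P : Subgroup G) {p : ℕ} (hp : p.Prime) (hP : Nat.card P = p)
    (hC' : centralizer (P : Set G) ≤ P)
    (hN : Nat.card (normalizer (P : Set G)) = p * 2) (hp7 : 7 ≤ p) (q k : ℕ) (hq : q = 2 ^ k)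
    (hq4 : 4 ≤ q) {n d : ℕ} (δ : ℤ) (θ : Fin n → IrrCharacter G) (χ : IrrCharacter G)
    (i₀ : Fin n) (hdata : Data P p q d δ θ χ i₀) (t₁ t₂ : G) (h1 : orderOf t₁ = 2)
    (h2 : orderOf t₂ = 2) : ∃ g : G, g * t₁ * g⁻¹ = t₂ := by
  have hp2 : p ≠ 2 := by omega
  obtain ⟨_, -, -, -, -, k₁, hk₁⟩ := even_inv hG P hp hP hC' hN hp7 q k hq hq4 δ θ χ i₀ hdata t₁ h1
  obtain ⟨_, -, -, -, -, k₂, hk₂⟩ := even_inv hG P hp hP hC' hN hp7 q k hq hq4 δ θ χ i₀ hdata t₂ h2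
  obtain ⟨v, hv⟩ := conj_of_involutions P hp hP hp2 hC' (k₂ * t₂ * k₂⁻¹) (k₁ * t₁ * k₁⁻¹)
    (by rw [orderOf_conj_eq]; exact h2) (by rw [orderOf_conj_eq]; exact h1) hk₂ hk₁
  refine ⟨k₂⁻¹ * v * k₁, ?_⟩
  have h3 : k₂⁻¹ * v * k₁ * t₁ * (k₂⁻¹ * v * k₁)⁻¹
      = k₂⁻¹ * (v * (k₁ * t₁ * k₁⁻¹) * v⁻¹) * k₂ := by group
  rw [h3, hv]
  group

/-- An involution centralized by a Sylow `2`-subgroup. -/
theorem exists_central_involution [Finite G] (q k : ℕ) (hq : q = 2 ^ k) (hk : k ≠ 0) (m : ℕ)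
    (hcard : Nat.card G = q * m) (hm : ¬ 2 ∣ m) :
    ∃ z : G, orderOf z = 2 ∧ q ∣ Nat.card (centralizer ({z} : Set G)) := by
  haveI : Fact (Nat.Prime 2) := ⟨Nat.prime_two⟩
  obtain ⟨T⟩ : Nonempty (Sylow 2 G) := inferInstance
  have hTq : Nat.card (T : Subgroup G) = q := by
    have h1 := card_sylow_subgroup (p := 2) (k := k) (m := m) (by rw [hcard, hq]) hm T
    rw [h1, hq]
  have hq2 : 2 ≤ q := by
    rw [hq]
    calc 2 = 2 ^ 1 := by norm_num
      _ ≤ 2 ^ k := Nat.pow_le_pow_right (by norm_num) (by omega)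
  haveI : Nontrivial (T : Subgroup G) :=
    (Finite.one_lt_card_iff_nontrivial).mp (by rw [hTq]; omega)
  haveI := IsPGroup.center_nontrivial T.isPGroup'
  have h2c : 2 ∣ Nat.card (Subgroup.center (T : Subgroup G)) := by
    obtain ⟨j, hj⟩ :=
      (T.isPGroup'.to_subgroup (Subgroup.center (T : Subgroup G))).exists_card_eq
    have h1 : 1 < Nat.card (Subgroup.center (T : Subgroup G)) := Finite.one_lt_card
    rw [hj] at h1 ⊢
    rcases Nat.eq_zero_or_pos j with h0 | h0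
    · rw [h0] at h1
      norm_num at h1
    · exact dvd_pow_self 2 h0.ne'
  obtain ⟨z₀, hz₀⟩ :=
    exists_prime_orderOf_dvd_card' (G := Subgroup.center (T : Subgroup G)) 2 h2c
  refine ⟨((z₀ : (T : Subgroup G)) : G), ?_, ?_⟩
  · rw [Subgroup.orderOf_coe, Subgroup.orderOf_coe]
    exact hz₀
  · have hTle : (T : Subgroup G) ≤ centralizer ({((z₀ : (T : Subgroup G)) : G)} : Set G) := by
      intro x hx
      rw [mem_centralizer_singleton_iff]
      have h1 := (Subgroup.mem_center_iff.mp z₀.2) ⟨x, hx⟩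
      exact congrArg Subtype.val h1
    rw [← hTq]
    exact Subgroup.card_dvd_of_le hTle

theorem even_all [Fintype G] [Fintype (IrrCharacter G)] [IsSimpleGroup G]
    (hG : ¬ IsMulCommutative G) (P : Subgroup G) {p : ℕ} (hp : p.Prime) (hP : Nat.card P = p)
    (hC' : centralizer (P : Set G) ≤ P)
    (hN : Nat.card (normalizer (P : Set G)) = p * 2) (hp7 : 7 ≤ p) (q k : ℕ) (hq : q = 2 ^ k)
    (hq4 : 4 ≤ q) {n d : ℕ} (δ : ℤ) (θ : Fin n → IrrCharacter G) (χ : IrrCharacter G)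
    (i₀ : Fin n) (hdata : Data P p q d δ θ χ i₀) (t : G) (ht : orderOf t = 2) :
    (χ : G → ℂ) t = 0 ∧ Nat.card (centralizer ({t} : Set G)) = q ∧
      (θ i₀ : G → ℂ) t = (δ : ℂ) := by
  classical
  have hdata' := hdata
  obtain ⟨hn, hθinj, hδ, hχT, hθχ, hθT, hθvan, hθone, hform, hpq, hdq, hcard', hDχ, hdθ⟩ := hdata
  have hk : k ≠ 0 := by
    rintro rfl
    rw [hq] at hq4
    norm_num at hq4
  have hpodd : p % 2 = 1 := by
    rcases hp.eq_two_or_odd with h | h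
    · omega
    · exact h
  have hqeven : q % 2 = 0 := by
    obtain ⟨j, rfl⟩ := Nat.exists_eq_succ_of_ne_zero hk
    rw [hq, pow_succ]
    omega
  have hdodd : d % 2 = 1 := by
    rcases hδ with h | h <;> rw [h] at hdq <;> push_cast at hdq <;> omega
  obtain ⟨z₀, hz₀, hqc⟩ := exists_central_involution (G := G) q k hq hk (p * d)
    (by rw [hcard']; ring) (by
      intro h
      rcases (Nat.Prime.dvd_mul Nat.prime_two).mp h with h | h <;> omega)
  obtain ⟨u₀, hu₀, hv₀, hc₀, hsq₀, -⟩ :=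
    even_inv hG P hp hP hC' hN hp7 q k hq hq4 δ θ χ i₀ hdata' z₀ hz₀
  have hu0 : u₀ = 0 := by
    obtain ⟨j, hj⟩ := hqc
    rw [hj] at hc₀ hsq₀
    exact u_zero_arith q j u₀ hq4 hc₀ hsq₀
  obtain ⟨g, hg⟩ := even_conj hG P hp hP hC' hN hp7 q k hq hq4 δ θ χ i₀ hdata' z₀ t hz₀ ht
  have hχt : (χ : G → ℂ) t = 0 := by
    rw [← hg, (irr_isClassFunction χ) _ g, hu₀, hu0]
    simp
  obtain ⟨u, hu, hv, hc, -, -⟩ :=
    even_inv hG P hp hP hC' hN hp7 q k hq hq4 δ θ χ i₀ hdata' t ht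
  have hu' : u = 0 := by
    have h1 : ((u : ℤ) : ℂ) = 0 := by rw [← hu, hχt]
    exact_mod_cast h1
  rw [hu'] at hc hv
  refine ⟨hχt, ?_, ?_⟩
  · have h1 : ((Nat.card (centralizer ({t} : Set G)) : ℕ) : ℤ) = (q : ℤ) := by linarith
    exact_mod_cast h1
  · rw [hv]
    push_cast
    ring

theorem even_final [Fintype G] [Fintype (IrrCharacter G)] [IsSimpleGroup G]
    (hG : ¬ IsMulCommutative G) (P : Subgroup G) {p : ℕ} (hp : p.Prime) (hP : Nat.card P = p)
    (hC' : centralizer (P : Set G) ≤ P)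
    (hN : Nat.card (normalizer (P : Set G)) = p * 2) (hp7 : 7 ≤ p) (q k : ℕ) (hq : q = 2 ^ k)
    (hq4 : 4 ≤ q) {n d : ℕ} (δ : ℤ) (θ : Fin n → IrrCharacter G) (χ : IrrCharacter G)
    (i₀ : Fin n) (hdata : Data P p q d δ θ χ i₀) (t : G) (ht : orderOf t = 2) :
    Nat.card (centralizer ({t} : Set G)) = q ∧ ∀ c ∈ centralizer ({t} : Set G), c ^ 2 = 1 := by
  classical
  obtain ⟨hχt, hct, hθt0⟩ := even_all hG P hp hP hC' hN hp7 q k hq hq4 δ θ χ i₀ hdata t ht
  obtain ⟨hn, hθinj, hδ, hχT, hθχ, hθT, hθvan, hθone, hform, hpq, hdq, hcard', hDχ, hdθ⟩ := hdata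
  have hq0 : q ≠ 0 := by omega
  have hpodd : p % 2 = 1 := by
    rcases hp.eq_two_or_odd with h | h
    · omega
    · exact h
  have hk : k ≠ 0 := by
    rintro rfl
    rw [hq] at hq4
    norm_num at hq4
  have hqeven : q % 2 = 0 := by
    obtain ⟨j, rfl⟩ := Nat.exists_eq_succ_of_ne_zero hk
    rw [hq, pow_succ]
    omega
  have hdodd : d % 2 = 1 := by
    rcases hδ with h | h <;> rw [h] at hdq <;> push_cast at hdq <;> omega
  obtain ⟨z, hzP, hz1⟩ := exists_mem_ne_one P hp hP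
  refine ⟨hct, ?_⟩
  intro c hc
  by_contra hc2
  have hord : orderOf c ∣ 2 ^ k := by
    have h1 := orderOf_dvd_card_of_mem hc
    rwa [hct, hq] at h1
  obtain ⟨j, hjk, hj⟩ := (Nat.dvd_prime_pow Nat.prime_two).mp hord
  have hj2 : 2 ≤ j := by
    by_contra hlt
    apply hc2
    have h1 : orderOf c ∣ 2 := by
      rw [hj]
      interval_cases j <;> norm_num
    exact orderOf_dvd_iff_pow_eq_one.mp h1
  have hc1 : c ≠ 1 := by
    rintro rfl
    exact hc2 (one_pow 2)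
  have hpow4 : 2 ^ 2 ≤ 2 ^ j := Nat.pow_le_pow_right (by norm_num) hj2
  have hct' : ¬ IsConj t c := by
    intro hcj
    have h1 := orderOf_eq_of_isConj hcj
    rw [ht, hj] at h1
    omega
  have hcP : ∀ w : G, w⁻¹ * c * w ∉ P := by
    intro w hw
    have h1 := orderOf_dvd_card_of_mem hw
    rw [hP] at h1
    have h2 : orderOf (w⁻¹ * c * w) = orderOf c := by
      have h3 := orderOf_conj_eq w⁻¹ c
      rwa [inv_inv] at h3
    rw [h2, hj] at h1
    have h4 : 2 ∣ p := dvd_trans (dvd_pow_self 2 (by omega)) h1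
    omega
  have htP : ∀ w : G, w⁻¹ * t * w ∉ P := by
    intro w hw
    have h1 := orderOf_dvd_card_of_mem hw
    rw [hP] at h1
    have h2 : orderOf (w⁻¹ * t * w) = 2 := by
      have h3 := orderOf_conj_eq w⁻¹ t
      rw [inv_inv] at h3
      rw [h3, ht]
    rw [h2] at h1
    omega
  have hθtall : ∀ i, (θ i : G → ℂ) t = (δ : ℂ) := by
    intro i
    rw [hθvan i i₀ t htP, hθt0]
  have hother := other_values p q d δ θ χ hn hθinj hχT hθχ hθT hδ hpq hdq hcard' hDχ hdθ t ht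
    hct hχt hθtall
  have hθc := theta_zero P p q δ δ θ χ i₀ hn hθinj hχT hθχ hθT hδ rfl hq0 hp.ne_zero hθvan hform
    hpq hDχ (fun i => by rw [hdθ i]; exact hdq) t hχt hθtall hother z hzP hz1 c hc1 hct' hcP
  have hdvd := card_centralizer_mul_dvd P δ δ θ χ i₀ hθvan hθone hform t c z hzP hz1 hχt
    (fun i j => by rw [hθtall i, hθtall j]) hθc hcP
  rw [hct, hcard'] at hdvd
  have h3 : Nat.card (centralizer ({c} : Set G)) ∣ p * d := by
    have h4 : Nat.card (centralizer ({c} : Set G)) * q ∣ (p * d) * q := by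
      have e : p * q * d = p * d * q := by ring
      rwa [e] at hdvd
    exact Nat.dvd_of_mul_dvd_mul_right (by omega) h4
  have h4 : orderOf c ∣ p * d :=
    dvd_trans (orderOf_dvd_card_of_mem (mem_centralizer_self c)) h3
  rw [hj] at h4
  have h5 : 2 ∣ p * d := dvd_trans (dvd_pow_self 2 (by omega)) h4
  rcases (Nat.Prime.dvd_mul Nat.prime_two).mp h5 with h | h <;> omega

/-- Simple groups of order `q (q² - 1)`, `q` a power of two, with a self-centralizing Sylow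
subgroup of prime order `p = q ± 1` whose normalizer has order `2p`: the centralizer of every
involution is elementary abelian of order `q`. -/
theorem even_main [Finite G] [IsSimpleGroup G]
    (hG : ¬ IsMulCommutative G) (P : Subgroup G) {p : ℕ} (hp : p.Prime) (hP : Nat.card P = p)
    (hC : Nat.card (centralizer (P : Set G)) = p)
    (hN : Nat.card (normalizer (P : Set G)) = p * 2) (hp7 : 7 ≤ p)
    (q k : ℕ) (hq : q = 2 ^ k) (hq4 : 4 ≤ q)
    (hdeg : ∀ D d : ℕ, D ∣ Nat.card G → d ∣ Nat.card G → D ≠ 1 →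
      ((D % p = 1 ∧ d = D + 1) ∨ (D % p = p - 1 ∧ D = d + 1)) →
      D = q ∧ p * D * d = Nat.card G ∧ p + d = 2 * q) :
    ∀ t : G, orderOf t = 2 →
      Nat.card (centralizer ({t} : Set G)) = q ∧ ∀ c ∈ centralizer ({t} : Set G), c ^ 2 = 1 := by
  classical
  haveI : Fintype G := Fintype.ofFinite G
  have : Finite (IrrCharacter G) := finite_irrCharacter G
  haveI : Fintype (IrrCharacter G) := Fintype.ofFinite _
  have hC' := centralizer_le_of_card P hp hP hC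
  obtain ⟨n, d, δ, θ, χ, i₀, hdata⟩ := even_setup hG P hp hP hC' hN hp7 q hdeg
  intro t ht
  exact even_final hG P hp hP hC' hN hp7 q k hq hq4 δ θ χ i₀ hdata t ht

end Cfsg.Agent.Lib.Helper17.EvenMain
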