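import Mathlib
import Cfsg.Agent.S1230
import Cfsg.Agent.Lib.Helper17.EvenMain
import Cfsg.Agent.Lib.Helper99.PSLCongr

/-!
Recognition of `PSL(2, q)`, `q ≥ 4` a power of two, among the simple groups of order
`q (q² - 1)` (through the landed statement S1230).
-/

set_option autoImplicit false
set_option linter.style.haveILetI false

namespace Cfsg.Agent.Lib.Helper17.EvenPSL

open Cfsg Subgroup
open Cfsg.Agent.Lib.Helper17.Sylow Cfsg.Agent.Lib.Helper17.EvenMain
open Cfsg.Agent.Lib.Helper99.PSLCongr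

universe u v

variable {G : Type u} [Group G]

/-- A finite simple group of order `q m`, `q = 2 ^ k ≥ 4`, `m ≠ 1` odd, in which the centralizer
of every involution has exponent two, is `PSL(2, q)`. -/
theorem psl_of_involutions [Finite G] [IsSimpleGroup G] (q k : ℕ) (hq : q = 2 ^ k)
    (hq4 : 4 ≤ q) (m : ℕ) (hcard : Nat.card G = q * m) (hm : ¬ 2 ∣ m) (hm1 : m ≠ 1)
    (hinv : ∀ t : G, orderOf t = 2 → ∀ c ∈ centralizer ({t} : Set G), c ^ 2 = 1)
    {F : Type v} [Field F] [Fintype F] (hF : Fintype.card F = q) :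
    Nonempty (G ≃* Matrix.ProjectiveSpecialLinearGroup (Fin 2) F) := by
  haveI : Fact (Nat.Prime 2) := ⟨Nat.prime_two⟩
  obtain ⟨T⟩ : Nonempty (Sylow 2 G) := inferInstance
  have hTq : Nat.card (T : Subgroup G) = q := by
    have h1 := card_sylow_subgroup (p := 2) (k := k) (m := m) (by rw [hcard, hq]) hm T
    rw [h1, hq]
  have hk2 : 2 ≤ k := by
    by_contra hlt
    have h1 : k = 0 ∨ k = 1 := by omega
    rcases h1 with rfl | rfl <;> rw [hq] at hq4 <;> norm_num at hq4
  have hnn : ¬ (T : Subgroup G).Normal := by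
    intro hn
    rcases hn.eq_bot_or_eq_top with h | h
    · rw [h, Subgroup.card_bot] at hTq
      omega
    · rw [h, Subgroup.card_top, hcard] at hTq
      have h2 : q * m = q * 1 := by rw [hTq, mul_one]
      have h3 := Nat.eq_of_mul_eq_mul_left (by omega) h2
      exact hm1 h3
  have hnc : ¬ IsCyclic (T : Subgroup G) := by
    intro hcyc
    obtain ⟨g, hg⟩ := IsCyclic.exists_ofOrder_eq_natCard (α := (T : Subgroup G))
    rw [hTq] at hg
    have hg' : orderOf (g : G) = 2 ^ k := by rw [Subgroup.orderOf_coe, hg, hq]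
    obtain ⟨j, rfl⟩ : ∃ j, k = j + 1 := ⟨k - 1, by omega⟩
    have ht : orderOf ((g : G) ^ 2 ^ j) = 2 := by
      rw [orderOf_pow' _ (by positivity), hg', Nat.gcd_eq_right (pow_dvd_pow 2 (by omega)),
        pow_succ, Nat.mul_div_cancel_left _ (by positivity)]
    have hmem : (g : G) ∈ centralizer ({(g : G) ^ 2 ^ j} : Set G) := by
      rw [mem_centralizer_singleton_iff]
      exact (Commute.pow_right (Commute.refl (g : G)) _).eq
    have h2 := hinv _ ht _ hmem
    have h3 := orderOf_dvd_of_pow_eq_one h2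
    rw [hg'] at h3
    have h4 := Nat.le_of_dvd (by norm_num) h3
    have h5 : 2 ^ 2 ≤ 2 ^ (j + 1) := Nat.pow_le_pow_right (by norm_num) hk2
    omega
  have hC : ∀ t : G, orderOf t = 2 → IsMulCommutative (Subgroup.centralizer ({t} : Set G)) ∧
      ∀ c ∈ Subgroup.centralizer ({t} : Set G), c ^ 2 = 1 := by
    intro t ht
    refine ⟨⟨⟨fun a b => ?_⟩⟩, hinv t ht⟩
    apply Subtype.ext
    show (a : G) * (b : G) = (b : G) * (a : G)
    have ha := hinv t ht a a.2
    have hb := hinv t ht b b.2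
    have hab := hinv t ht (a * b : G) (mul_mem a.2 b.2)
    rw [pow_two] at ha hb hab
    have ha' : (a : G)⁻¹ = a := inv_eq_of_mul_eq_one_left ha
    have hb' : (b : G)⁻¹ = b := inv_eq_of_mul_eq_one_left hb
    have hab' : ((a : G) * b)⁻¹ = a * b := inv_eq_of_mul_eq_one_left hab
    rw [mul_inv_rev, ha', hb'] at hab'
    exact hab'.symm
  obtain ⟨K, hKf, hKfin, hKcard, ⟨e⟩⟩ := Cfsg.Agent.S1230.result T hnc hnn hC
  have hcard' : Fintype.card K = Fintype.card F := by
    rw [hKcard, hF]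
    exact hTq
  obtain ⟨e2⟩ := nonempty_pslCongr_of_card_eq (n := Fin 2) hcard'
  exact ⟨e.trans e2⟩

/-- Recognition of `PSL(2, q)`, `q = 2 ^ k ≥ 4`, by a self-centralizing Sylow subgroup of prime
order `p ≥ 7` with normalizer of order `2 p` and the arithmetic condition `hdeg`. -/
theorem psl_of_sylow [Finite G] [IsSimpleGroup G]
    (hG : ¬ IsMulCommutative G) (P : Subgroup G) {p : ℕ} (hp : p.Prime) (hP : Nat.card P = p)
    (hC : Nat.card (centralizer (P : Set G)) = p)
    (hN : Nat.card (normalizer (P : Set G)) = p * 2) (hp7 : 7 ≤ p)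
    (q k : ℕ) (hq : q = 2 ^ k) (hq4 : 4 ≤ q)
    (hdeg : ∀ D d : ℕ, D ∣ Nat.card G → d ∣ Nat.card G → D ≠ 1 →
      ((D % p = 1 ∧ d = D + 1) ∨ (D % p = p - 1 ∧ D = d + 1)) →
      D = q ∧ p * D * d = Nat.card G ∧ p + d = 2 * q)
    (m : ℕ) (hcard : Nat.card G = q * m) (hm : ¬ 2 ∣ m) (hm1 : m ≠ 1)
    {F : Type v} [Field F] [Fintype F] (hF : Fintype.card F = q) :
    Nonempty (G ≃* Matrix.ProjectiveSpecialLinearGroup (Fin 2) F) :=
  psl_of_involutions q k hq hq4 m hcard hm hm1
    (fun t ht => (even_main hG P hp hP hC hN hp7 q k hq hq4 hdeg t ht).2) hF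

end Cfsg.Agent.Lib.Helper17.EvenPSL
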