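import Mathlib
import Cfsg.Agent.Lib.Helper68.FixStmt

set_option autoImplicit false

namespace Cfsg.Agent.Lib.Helper17.FixNOQ

universe u v

theorem main : Cfsg.Agent.Lib.Helper68.FixStmt.NOQ.{u, v} := by
  intro k _ S _ _ M _ _ ρ V lam w y hVn hab hw heig hne hfpf hfix
  -- `lam` is multiplicative on `V`
  have hmul : ∀ a ∈ V, ∀ b ∈ V, lam (a * b) = lam a * lam b := by
    intro a ha b hb
    have h1 : ρ (a * b) w = lam (a * b) • w := heig (a * b) (V.mul_mem ha hb)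
    have h2 : ρ (a * b) w = (lam a * lam b) • w := by
      rw [map_mul, Module.End.mul_apply, heig b hb, map_smul, heig a ha, smul_smul, mul_comm]
    have h3 : (lam (a * b) - lam a * lam b) • w = 0 := by
      rw [sub_smul, ← h1, ← h2, sub_self]
    rcases smul_eq_zero.1 h3 with h | h
    · exact sub_eq_zero.1 h
    · exact absurd h hw
  have hone : lam 1 = 1 := by
    have h1 : ρ 1 w = lam 1 • w := heig 1 V.one_mem
    have h3 : (lam 1 - 1) • w = 0 := by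
      rw [sub_smul, ← h1, map_one, Module.End.one_apply, one_smul, sub_self]
    rcases smul_eq_zero.1 h3 with h | h
    · exact sub_eq_zero.1 h
    · exact absurd h hw
  have hconj : ∀ a ∈ V, y⁻¹ * a * y ∈ V := by
    intro a ha
    have := hVn.conj_mem a ha y⁻¹
    rwa [inv_inv] at this
  -- the map u ↦ u⁻¹ * (y⁻¹ * u * y)
  let f : V → V := fun a => ⟨a.1⁻¹ * (y⁻¹ * a.1 * y), V.mul_mem (V.inv_mem a.2) (hconj a.1 a.2)⟩
  have hinj : Function.Injective f := by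
    intro a b hfab
    have h1 : a.1⁻¹ * (y⁻¹ * a.1 * y) = b.1⁻¹ * (y⁻¹ * b.1 * y) := congrArg Subtype.val hfab
    -- d = a * b⁻¹ is fixed by y
    have hd : a.1 * b.1⁻¹ ∈ V := V.mul_mem a.2 (V.inv_mem b.2)
    have h2 : y⁻¹ * (a.1 * b.1⁻¹) * y = a.1 * b.1⁻¹ := by
      have e1 : y⁻¹ * (a.1 * b.1⁻¹) * y = (y⁻¹ * a.1 * y) * (y⁻¹ * b.1 * y)⁻¹ := by group
      have e2 : y⁻¹ * a.1 * y = a.1 * (b.1⁻¹ * (y⁻¹ * b.1 * y)) := by
        rw [← h1]
        group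
      rw [e1, e2]
      have hc := hab (b.1⁻¹) (V.inv_mem b.2) (y⁻¹ * b.1 * y) (hconj b.1 b.2)
      calc a.1 * (b.1⁻¹ * (y⁻¹ * b.1 * y)) * (y⁻¹ * b.1 * y)⁻¹
          = a.1 * b.1⁻¹ * ((y⁻¹ * b.1 * y) * (y⁻¹ * b.1 * y)⁻¹) := by group
        _ = a.1 * b.1⁻¹ := by rw [mul_inv_cancel, mul_one]
    have h3 : y * (a.1 * b.1⁻¹) * y⁻¹ = a.1 * b.1⁻¹ := by
      conv_lhs => rw [← h2]
      group
    have h4 := hfpf _ hd h3
    apply Subtype.ext
    exact mul_inv_eq_one.1 h4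
  have hsurj : Function.Surjective f := Finite.injective_iff_surjective.1 hinj
  obtain ⟨v, hv, hv1⟩ := hne
  obtain ⟨a, ha⟩ := hsurj ⟨v, hv⟩
  have h5 : a.1⁻¹ * (y⁻¹ * a.1 * y) = v := congrArg Subtype.val ha
  apply hv1
  rw [← h5, hmul _ (V.inv_mem a.2) _ (hconj a.1 a.2), hfix a.1 a.2,
    ← hmul _ (V.inv_mem a.2) _ a.2, inv_mul_cancel, hone]

end Cfsg.Agent.Lib.Helper17.FixNOQ
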