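import Mathlib
import Cfsg.Agent.Lib.Helper17.FixedPoints
import Cfsg.Agent.Lib.Helper17.Sylow2
import Cfsg.Agent.Lib.Helper17.Sylow

set_option autoImplicit false

namespace Cfsg.Agent.Lib.Helper17.InvCount

open Subgroup MulAction
open Cfsg.Agent.Lib.Helper17.FixedPoints Cfsg.Agent.Lib.Helper17.Sylow2
open Cfsg.Agent.Lib.Helper17.Sylow

variable {G : Type*} [Group G] [Finite G] {p : ℕ} [Fact p.Prime]

/-- Sylow `p`-subgroups of order `p`, self-centralizing, with normalizer of order `2p`. -/
structure DihedralSylow (G : Type*) [Group G] [Finite G] (p : ℕ) [Fact p.Prime] : Prop where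
  cardP : ∀ P : Sylow p G, Nat.card (P : Subgroup G) = p
  cardN : ∀ P : Sylow p G, Nat.card (normalizer ((P : Subgroup G) : Set G)) = 2 * p
  cardC : ∀ P : Sylow p G, Nat.card (centralizer ((P : Subgroup G) : Set G)) = p

/-- Elements of `N(P)` outside `P` are involutions. -/
theorem orderOf_eq_two (h : DihedralSylow G p) (P : Sylow p G) (g : G)
    (hgN : g ∈ normalizer ((P : Subgroup G) : Set G)) (hgP : g ∉ (P : Subgroup G)) :
    orderOf g = 2 := by
  have hp : p.Prime := Fact.out
  have hdvd : orderOf g ∣ 2 * p := by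
    rw [← h.cardN P]; exact orderOf_dvd_card_of_mem hgN
  obtain ⟨d1, d2, h1, h2, hd⟩ := (Nat.dvd_mul).mp hdvd
  have h1' : d1 = 1 ∨ d1 = 2 := (Nat.dvd_prime Nat.prime_two).mp h1
  have h2' : d2 = 1 ∨ d2 = p := (Nat.dvd_prime hp).mp h2
  rcases h1' with e1 | e1 <;> rcases h2' with e2 | e2 <;> rw [e1, e2] at hd
  · exfalso
    apply hgP
    have h3 : orderOf g = 1 := by rw [← hd]
    rw [orderOf_eq_one_iff.mp h3]
    exact one_mem _
  · exfalso
    apply hgP
    apply mem_sylow_of_mem_normalizer P g hgN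
    exact IsPGroup.of_card (n := 1) (by rw [Nat.card_zpowers, ← hd]; simp)
  · rw [← hd]
  · exfalso
    have ho : orderOf g = 2 * p := hd.symm
    have ho2 : orderOf (g ^ 2) = p := by
      rw [orderOf_pow' g (by norm_num), ho]
      have : Nat.gcd (2 * p) 2 = 2 := by simp
      rw [this]
      exact Nat.mul_div_cancel_left p (by norm_num)
    have hg2N : g ^ 2 ∈ normalizer ((P : Subgroup G) : Set G) := pow_mem hgN 2
    have hg2P : g ^ 2 ∈ (P : Subgroup G) :=
      mem_sylow_of_mem_normalizer P _ hg2N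
        (IsPGroup.of_card (n := 1) (by rw [Nat.card_zpowers, ho2, pow_one]))
    have hg21 : g ^ 2 ≠ 1 := by
      intro h1
      rw [h1, orderOf_one] at ho2
      exact hp.one_lt.ne ho2
    have hz := (zpowers_eq_of_mem P (h.cardP P) (g ^ 2) hg2P hg21).2
    have hgC : g ∈ centralizer ((P : Subgroup G) : Set G) := by
      rw [mem_centralizer_iff]
      intro y hy
      rw [SetLike.mem_coe, ← hz] at hy
      obtain ⟨k, rfl⟩ := mem_zpowers_iff.mp hy
      exact (((Commute.refl g).pow_left 2).zpow_left k).eq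
    have h3 := orderOf_dvd_card_of_mem hgC
    rw [h.cardC P, ho] at h3
    have h4 := Nat.le_of_dvd hp.pos h3
    have h5 := hp.pos
    omega

/-- Distinct Sylow subgroups: an element of one normalizing the other is trivial. -/
theorem eq_one_of_mem_of_mem_normalizer (h : DihedralSylow G p) (P Q : Sylow p G) (hPQ : P ≠ Q)
    (g : G) (hgP : g ∈ (P : Subgroup G)) (hgN : g ∈ normalizer ((Q : Subgroup G) : Set G)) :
    g = 1 := by
  by_contra hg1
  have hpg : IsPGroup p (zpowers g) := by
    have := (zpowers_eq_of_mem P (h.cardP P) g hgP hg1).1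
    exact IsPGroup.of_card (n := 1) (by rw [Nat.card_zpowers, this, pow_one])
  have hgQ := mem_sylow_of_mem_normalizer Q g hgN hpg
  exact hPQ (sylow_eq_of_common P Q (h.cardP P) g hgP hgQ hg1)

theorem inv_mul_mem (h : DihedralSylow G p) (P : Sylow p G) (u u' : G)
    (hu : u ∈ normalizer ((P : Subgroup G) : Set G)) (hu' : u' ∈ normalizer ((P : Subgroup G) : Set G))
    (huP : u ∉ (P : Subgroup G)) (hu'P : u' ∉ (P : Subgroup G)) : u⁻¹ * u' ∈ (P : Subgroup G) := by
  have hp : p.Prime := Fact.out
  have hidx : ((P : Subgroup G).subgroupOf (normalizer ((P : Subgroup G) : Set G))).index = 2 := by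
    have h1 := card_mul_relIndex (le_normalizer (H := (P : Subgroup G)))
    rw [h.cardP P, h.cardN P] at h1
    have h2 : (P : Subgroup G).relIndex (normalizer ((P : Subgroup G) : Set G)) = 2 := by
      have : p * (P : Subgroup G).relIndex (normalizer ((P : Subgroup G) : Set G)) = p * 2 := by
        rw [h1]; ring
      exact Nat.eq_of_mul_eq_mul_left hp.pos this
    exact h2
  have key := Subgroup.mul_mem_iff_of_index_two hidx
    (a := (⟨u⁻¹, inv_mem hu⟩ : normalizer ((P : Subgroup G) : Set G)))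
    (b := (⟨u', hu'⟩ : normalizer ((P : Subgroup G) : Set G)))
  rw [mem_subgroupOf, mem_subgroupOf, mem_subgroupOf] at key
  have h3 : u⁻¹ ∉ (P : Subgroup G) := fun h4 => huP ((inv_mem_iff).mp h4)
  exact key.mpr ⟨fun h4 => absurd h4 h3, fun h4 => absurd h4 hu'P⟩

/-- Two nonidentity elements fixing two distinct points coincide. -/
theorem eq_of_mem_inf (h : DihedralSylow G p) (P Q : Sylow p G) (hPQ : P ≠ Q) (u u' : G)
    (huP : u ∈ normalizer ((P : Subgroup G) : Set G)) (huQ : u ∈ normalizer ((Q : Subgroup G) : Set G))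
    (hu'P : u' ∈ normalizer ((P : Subgroup G) : Set G))
    (hu'Q : u' ∈ normalizer ((Q : Subgroup G) : Set G)) (hu1 : u ≠ 1) (hu'1 : u' ≠ 1) : u = u' := by
  have h1 : u ∉ (P : Subgroup G) := fun h2 => hu1 (eq_one_of_mem_of_mem_normalizer h P Q hPQ u h2 huQ)
  have h1' : u' ∉ (P : Subgroup G) :=
    fun h2 => hu'1 (eq_one_of_mem_of_mem_normalizer h P Q hPQ u' h2 hu'Q)
  have h3 := inv_mul_mem h P u u' huP hu'P h1 h1'
  have h4 := eq_one_of_mem_of_mem_normalizer h P Q hPQ (u⁻¹ * u') h3 (mul_mem (inv_mem huQ) hu'Q)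
  exact inv_mul_eq_one.mp h4

/-- At most two involutions map `A` to `B`. -/
theorem swap_unique (h : DihedralSylow G p) (A B : Sylow p G) (hAB : A ≠ B) (s1 s2 s3 : G)
    (ho1 : orderOf s1 = 2) (ho2 : orderOf s2 = 2) (ho3 : orderOf s3 = 2)
    (hs1 : s1 • A = B) (hs2 : s2 • A = B) (hs3 : s3 • A = B) : s1 = s2 ∨ s1 = s3 ∨ s2 = s3 := by
  by_contra hcon
  push Not at hcon
  obtain ⟨h12, h13, h23⟩ := hcon
  have hsq : ∀ s : G, orderOf s = 2 → s • A = B → s • B = A := by
    intro s ho hs
    rw [← hs, ← mul_smul, ← pow_two, ← ho, pow_orderOf_eq_one, one_smul]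
  have hmem : ∀ s : G, orderOf s = 2 → s • A = B →
      s1⁻¹ * s ∈ normalizer ((A : Subgroup G) : Set G) ∧
      s1⁻¹ * s ∈ normalizer ((B : Subgroup G) : Set G) := by
    intro s ho hs
    constructor
    · apply (Sylow.smul_eq_iff_mem_normalizer (g := s1⁻¹ * s) (P := A)).mp
      rw [mul_smul, hs, inv_smul_eq_iff, hs1]
    · apply (Sylow.smul_eq_iff_mem_normalizer (g := s1⁻¹ * s) (P := B)).mp
      rw [mul_smul, hsq s ho hs, inv_smul_eq_iff, hsq s1 ho1 hs1]
  have e := eq_of_mem_inf h A B hAB (s1⁻¹ * s2) (s1⁻¹ * s3) (hmem s2 ho2 hs2).1 (hmem s2 ho2 hs2).2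
    (hmem s3 ho3 hs3).1 (hmem s3 ho3 hs3).2
    (fun h1 => h12 (inv_mul_eq_one.mp h1)) (fun h1 => h13 (inv_mul_eq_one.mp h1))
  exact h23 (mul_left_cancel e)

theorem sq_trick (f k : ℕ) : (2 * k - 1) * f ≤ f * (f - 1) + k ^ 2 := by
  rcases f with _ | m
  · simp
  rcases k with _ | j
  · simp
  have h : ((2 * j + 1) * (m + 1) : ℤ) ≤ (m + 1) * m + (j + 1) ^ 2 := by
    nlinarith [sq_nonneg ((m : ℤ) - j)]
  have h2 : (2 * j + 1) * (m + 1) ≤ (m + 1) * m + (j + 1) ^ 2 := by exact_mod_cast h
  have e1 : 2 * (j + 1) - 1 = 2 * j + 1 := by omega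
  have e2 : m + 1 - 1 = m := by omega
  rw [e1, e2]
  exact h2

/-- The counting inequalities for the involutions of the normalizers:
`c` is their number, `a` the number of incidences (involution, fixed Sylow subgroup),
`d` the number of (involution, ordered pair of distinct fixed Sylow subgroups). -/
theorem counts (h : DihedralSylow G p) :
    ∃ c a d : ℕ, Nat.card (Sylow p G) * p ≤ a ∧
      d ≤ Nat.card (Sylow p G) * (Nat.card (Sylow p G) - 1) ∧
      Nat.card (Sylow p G) * c ≤ 2 * (Nat.card (Sylow p G) * (Nat.card (Sylow p G) - 1)) + a ∧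
      ∀ k : ℕ, (2 * k - 1) * a ≤ d + k ^ 2 * c := by
  classical
  have hp : p.Prime := Fact.out
  have : Fintype G := Fintype.ofFinite G
  have : Fintype (Sylow p G) := Fintype.ofFinite _
  set n := Nat.card (Sylow p G) with hn
  have hnc : Fintype.card (Sylow p G) = n := by rw [hn, Nat.card_eq_fintype_card]
  let N : Sylow p G → Subgroup G := fun Q => normalizer ((Q : Subgroup G) : Set G)
  let T : Finset G := Finset.univ.filter (fun s => orderOf s = 2 ∧ ∃ Q : Sylow p G, s ∈ N Q)
  let F : G → Finset (Sylow p G) := fun s => Finset.univ.filter (fun Q => s ∈ N Q)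
  have hT : ∀ s ∈ T, orderOf s = 2 := by
    intro s hs
    exact (Finset.mem_filter.mp hs).2.1
  have hT1 : ∀ s ∈ T, s ≠ 1 := by
    intro s hs h1
    have := hT s hs
    rw [h1, orderOf_one] at this
    omega
  have hoff : (Finset.univ : Finset (Sylow p G)).offDiag.card = n * (n - 1) := by
    rw [Finset.offDiag_card, Finset.card_univ, hnc, Nat.mul_sub_one]
  refine ⟨T.card, ∑ s ∈ T, (F s).card, ∑ s ∈ T, (F s).card * ((F s).card - 1), ?_, ?_, ?_, ?_⟩
  · have h1 : ∑ s ∈ T, (F s).card
        = ∑ Q : Sylow p G, (T.filter (fun s => s ∈ N Q)).card :=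
      Finset.sum_card_bipartiteAbove_eq_sum_card_bipartiteBelow (fun (s : G) (Q : Sylow p G) => s ∈ N Q)
    rw [h1]
    have h2 : ∀ Q : Sylow p G, p ≤ (T.filter (fun s => s ∈ N Q)).card := by
      intro Q
      have hsub : (Finset.univ.filter (fun g : G => g ∈ N Q)) \
          (Finset.univ.filter (fun g : G => g ∈ (Q : Subgroup G))) ⊆
          T.filter (fun s => s ∈ N Q) := by
        intro g hg
        simp only [Finset.mem_sdiff, Finset.mem_filter, Finset.mem_univ, true_and] at hg
        simp only [T, Finset.mem_filter, Finset.mem_univ, true_and]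
        exact ⟨⟨orderOf_eq_two h Q g hg.1 hg.2, Q, hg.1⟩, hg.1⟩
      have hcard : ((Finset.univ.filter (fun g : G => g ∈ N Q)) \
          (Finset.univ.filter (fun g : G => g ∈ (Q : Subgroup G)))).card = p := by
        rw [Finset.card_sdiff_of_subset (by
          intro g hg
          simp only [Finset.mem_filter, Finset.mem_univ, true_and] at hg ⊢
          exact le_normalizer hg)]
        have e1 : (Finset.univ.filter (fun g : G => g ∈ N Q)).card = 2 * p := by
          have h5 := h.cardN Q
          rw [Nat.card_eq_fintype_card, Fintype.card_subtype] at h5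
          exact h5
        have e2 : (Finset.univ.filter (fun g : G => g ∈ (Q : Subgroup G))).card = p := by
          have h5 := h.cardP Q
          rw [Nat.card_eq_fintype_card, Fintype.card_subtype] at h5
          exact h5
        rw [e1, e2]
        omega
      rw [← hcard]
      exact Finset.card_le_card hsub
    calc n * p = ∑ _Q : Sylow p G, p := by
          rw [Finset.sum_const, Finset.card_univ, hnc, smul_eq_mul]
      _ ≤ _ := Finset.sum_le_sum (fun Q _ => h2 Q)
  · have h1 : ∑ s ∈ T, (F s).card * ((F s).card - 1)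
        = (T.sigma (fun s => (F s).offDiag)).card := by
      rw [Finset.card_sigma]
      apply Finset.sum_congr rfl
      intro s _
      rw [Finset.offDiag_card, Nat.mul_sub_one]
    rw [h1, ← hoff]
    apply Finset.card_le_card_of_injOn (fun x => x.2)
    · intro x hx
      rw [Finset.mem_coe, Finset.mem_sigma, Finset.mem_offDiag] at hx
      rw [Finset.mem_coe, Finset.mem_offDiag]
      exact ⟨Finset.mem_univ _, Finset.mem_univ _, hx.2.2.2⟩
    · rintro ⟨s, Q, Q'⟩ hx ⟨s', R, R'⟩ hx' heq
      rw [Finset.mem_coe, Finset.mem_sigma, Finset.mem_offDiag] at hx hx'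
      simp only [F, Finset.mem_filter, Finset.mem_univ, true_and] at hx hx'
      simp only [Prod.mk.injEq] at heq
      obtain ⟨rfl, rfl⟩ := heq
      have e := eq_of_mem_inf h Q Q' hx.2.2.2 s s' hx.2.1 hx.2.2.1 hx'.2.1 hx'.2.2.1
        (hT1 s hx.1) (hT1 s' hx'.1)
      subst e
      rfl
  · have hF : ∀ s, (F s).card ≤ n := fun s => hnc ▸ Finset.card_le_univ _
    let Mv : G → Finset (Sylow p G) := fun s => Finset.univ.filter (fun A => ¬ s ∈ N A)
    have hMv : ∀ s, (F s).card + (Mv s).card = n := by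
      intro s
      rw [← hnc, ← Finset.card_univ]
      exact Finset.card_filter_add_card_filter_not (fun Q : Sylow p G => s ∈ N Q)
    have h1 : (T.sigma Mv).card ≤ 2 * (n * (n - 1)) := by
      have h2 := Finset.card_le_mul_card_image (T.sigma Mv) 2
        (f := fun x : (Σ _ : G, Sylow p G) => (x.2, x.1 • x.2)) (by
          intro y _
          by_contra hcon
          push Not at hcon
          obtain ⟨a, ha, b, hb, c, hc, hab, hac, hbc⟩ := Finset.two_lt_card.mp hcon
          obtain ⟨s1, A1⟩ := a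
          obtain ⟨s2, A2⟩ := b
          obtain ⟨s3, A3⟩ := c
          simp only [Finset.mem_filter, Finset.mem_sigma, Mv, Finset.mem_univ, true_and] at ha hb hc
          obtain ⟨⟨hs1, hm1⟩, rfl⟩ := ha
          obtain ⟨⟨hs2, hm2⟩, e2⟩ := hb
          obtain ⟨⟨hs3, hm3⟩, e3⟩ := hc
          simp only [Prod.mk.injEq] at e2 e3
          obtain ⟨rfl, e2⟩ := e2
          obtain ⟨rfl, e3⟩ := e3
          have hAB : A3 ≠ s1 • A3 := by
            intro h4
            exact hm1 (Sylow.smul_eq_iff_mem_normalizer.mp h4.symm)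
          rcases swap_unique h A3 (s1 • A3) hAB s1 s2 s3 (hT s1 hs1) (hT s2 hs2) (hT s3 hs3)
            rfl e2 e3 with h5 | h5 | h5
          · exact hab (by rw [h5])
          · exact hac (by rw [h5])
          · exact hbc (by rw [h5]))
      have h3 : ((T.sigma Mv).image (fun x : (Σ _ : G, Sylow p G) => (x.2, x.1 • x.2))).card
          ≤ n * (n - 1) := by
        rw [← hoff]
        apply Finset.card_le_card
        intro y hy
        obtain ⟨x, hx, rfl⟩ := Finset.mem_image.mp hy
        rw [Finset.mem_sigma] at hx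
        simp only [Mv, Finset.mem_filter, Finset.mem_univ, true_and] at hx
        rw [Finset.mem_offDiag]
        refine ⟨Finset.mem_univ _, Finset.mem_univ _, ?_⟩
        intro h4
        exact hx.2 (Sylow.smul_eq_iff_mem_normalizer.mp h4.symm)
      exact h2.trans (Nat.mul_le_mul_left 2 h3)
    have h4 : n * T.card = ∑ s ∈ T, (F s).card + (T.sigma Mv).card := by
      rw [Finset.card_sigma, ← Finset.sum_add_distrib, Finset.sum_congr rfl (fun s _ => hMv s),
        Finset.sum_const, smul_eq_mul, mul_comm]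
    omega
  · intro k
    calc (2 * k - 1) * ∑ s ∈ T, (F s).card = ∑ s ∈ T, (2 * k - 1) * (F s).card :=
          Finset.mul_sum _ _ _
      _ ≤ ∑ s ∈ T, ((F s).card * ((F s).card - 1) + k ^ 2) :=
          Finset.sum_le_sum (fun s _ => sq_trick _ _)
      _ = ∑ s ∈ T, (F s).card * ((F s).card - 1) + k ^ 2 * T.card := by
          rw [Finset.sum_add_distrib, Finset.sum_const, smul_eq_mul, mul_comm]

end Cfsg.Agent.Lib.Helper17.InvCount
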