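import Mathlib
import Cfsg.Agent.Lib.Helper17.KleinOrder

/-!
Simple groups with a Klein four Sylow `2`-subgroup `P` such that all involutions of `C(J)` lie
in `P` (for an involution `J ∈ P`): Brauer's order formula bounds the number of involutions by
`17`, so there are at most five Sylow `2`-subgroups and `|C(J)| = 4`.
-/

set_option autoImplicit false
set_option linter.style.haveILetI false

namespace Cfsg.Agent.Lib.Helper17.KleinA5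

open Cfsg Subgroup Cfsg.Agent.Lib.CT.Wedderburn Cfsg.Agent.Lib.CT.ThirdMain
open Cfsg.Agent.Lib.Helper75.KleinFour Cfsg.Agent.Lib.Helper75.KleinFour3
open Cfsg.Agent.Lib.Helper17.KleinLocal Cfsg.Agent.Lib.Helper17.KleinCount
open Cfsg.Agent.Lib.Helper17.KleinCount2
open Cfsg.Agent.Lib.Helper17.KleinChar Cfsg.Agent.Lib.Helper17.KleinOrder

universe u
variable {G : Type u} [Group G]

/-- Brauer's order formula in product form, over the integers. -/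
theorem order_formula_prod [Finite G] (M : Ideal AlgInt) (hM : IsPModular 2 M) (P : Sylow 2 G)
    (hP : Nat.card (P : Subgroup G) = 4) (hexp : ∀ x ∈ (P : Subgroup G), x * x = 1)
    (hone : ∀ s t : G, orderOf s = 2 → orderOf t = 2 → IsConj s t) (J : G)
    (hJ : J ∈ (P : Subgroup G)) (hJ2 : orderOf J = 2) (χ₁ χ₂ χ₃ : IrrCharacter G)
    (ε₁ ε₂ ε₃ : ℤ)
    (hB : principalBlock M G = {χ : IrrCharacter G | (χ : G → ℂ) = (fun _ => 1) ∨ χ = χ₁ ∨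
      χ = χ₂ ∨ χ = χ₃})
    (hdist : (χ₁ : G → ℂ) ≠ (fun _ => 1) ∧ (χ₂ : G → ℂ) ≠ (fun _ => 1) ∧
      (χ₃ : G → ℂ) ≠ (fun _ => 1) ∧ χ₁ ≠ χ₂ ∧ χ₁ ≠ χ₃ ∧ χ₂ ≠ χ₃)
    (hε : (ε₁ = 1 ∨ ε₁ = -1) ∧ (ε₂ = 1 ∨ ε₂ = -1) ∧ (ε₃ = 1 ∨ ε₃ = -1))
    (hval : (χ₁ : G → ℂ) J = ε₁ ∧ (χ₂ : G → ℂ) J = ε₂ ∧ (χ₃ : G → ℂ) J = ε₃) :
    (Nat.card G : ℤ) * (((charDegree (χ₁ : G → ℂ) : ℤ) + ε₁) * ((charDegree (χ₂ : G → ℂ) : ℤ) + ε₂)
        * ((charDegree (χ₃ : G → ℂ) : ℤ) + ε₃))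
        * (Nat.card (centralizer ((P : Subgroup G) : Set G)) : ℤ) ^ 2
      = 8 * (Nat.card (centralizer ({J} : Set G)) : ℤ) ^ 3
        * ((charDegree (χ₁ : G → ℂ) : ℤ) * charDegree (χ₂ : G → ℂ) * charDegree (χ₃ : G → ℂ)) := by
  classical
  have hF := order_formula M hM P hP hexp hone J hJ hJ2 χ₁ χ₂ χ₃ ε₁ ε₂ ε₃ hB hdist hε hval
  have hD := degree_equation M hM J hJ2 χ₁ χ₂ χ₃ ε₁ ε₂ ε₃ hB hdist hval
  have hx1 := char_natCast_charDegree (isCharacter_of_irr χ₁.2)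
  have hx2 := char_natCast_charDegree (isCharacter_of_irr χ₂.2)
  have hx3 := char_natCast_charDegree (isCharacter_of_irr χ₃.2)
  have hp1 := irr_charDegree_pos χ₁.2
  have hp2 := irr_charDegree_pos χ₂.2
  have hp3 := irr_charDegree_pos χ₃.2
  rw [← hx1, ← hx2, ← hx3] at hF hD
  obtain ⟨x₁, hx₁⟩ : ∃ n : ℕ, n = charDegree (χ₁ : G → ℂ) := ⟨_, rfl⟩
  obtain ⟨x₂, hx₂⟩ : ∃ n : ℕ, n = charDegree (χ₂ : G → ℂ) := ⟨_, rfl⟩
  obtain ⟨x₃, hx₃⟩ : ∃ n : ℕ, n = charDegree (χ₃ : G → ℂ) := ⟨_, rfl⟩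
  obtain ⟨cJ, hcJ⟩ : ∃ n : ℕ, n = Nat.card (centralizer ({J} : Set G)) := ⟨_, rfl⟩
  obtain ⟨cP, hcP⟩ : ∃ n : ℕ, n = Nat.card (centralizer ((P : Subgroup G) : Set G)) := ⟨_, rfl⟩
  rw [← hx₁, ← hx₂, ← hx₃, ← hcJ, ← hcP] at hF ⊢
  rw [← hx₁, ← hx₂, ← hx₃] at hD
  rw [← hx₁] at hp1
  rw [← hx₂] at hp2
  rw [← hx₃] at hp3
  have hε2 : ∀ ε : ℤ, (ε = 1 ∨ ε = -1) → (ε : ℂ) * ε = 1 := by
    rintro ε (rfl | rfl) <;> norm_num
  have e1 := hε2 ε₁ hε.1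
  have e2 := hε2 ε₂ hε.2.1
  have e3 := hε2 ε₃ hε.2.2
  have h1 : (x₁ : ℂ) ≠ 0 := by exact_mod_cast hp1.ne'
  have h2 : (x₂ : ℂ) ≠ 0 := by exact_mod_cast hp2.ne'
  have h3 : (x₃ : ℂ) ≠ 0 := by exact_mod_cast hp3.ne'
  have key : (Nat.card G : ℂ) * (((x₁ : ℂ) + ε₁) * ((x₂ : ℂ) + ε₂) * ((x₃ : ℂ) + ε₃))
      * (cP : ℂ) ^ 2 = 8 * (cJ : ℂ) ^ 3 * ((x₁ : ℂ) * x₂ * x₃) := by
    have this : (ε₁ : ℂ) * ε₂ * x₃ + ε₁ * ε₃ * x₂ + ε₂ * ε₃ * x₁ + ε₁ * ε₂ * ε₃ = 0 := by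
      linear_combination ((ε₁ : ℂ) * ε₂ * ε₃) * hD - (ε₁ : ℂ) * ε₂ * x₃ * e3
        - (ε₁ : ℂ) * ε₃ * x₂ * e2 - (ε₂ : ℂ) * ε₃ * x₁ * e1
    have hX' : (x₁ : ℂ) * x₂ * x₃ * (1 + ε₁ / (x₁ : ℂ) + ε₂ / (x₂ : ℂ) + ε₃ / (x₃ : ℂ))
        = (x₁ : ℂ) * x₂ * x₃ + ε₁ * x₂ * x₃ + ε₂ * x₁ * x₃ + ε₃ * x₁ * x₂ := by
      field_simp
    have hX : ((x₁ : ℂ) + ε₁) * ((x₂ : ℂ) + ε₂) * ((x₃ : ℂ) + ε₃)
        = (x₁ : ℂ) * x₂ * x₃ * (1 + ε₁ / (x₁ : ℂ) + ε₂ / (x₂ : ℂ) + ε₃ / (x₃ : ℂ)) := by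
      rw [hX']
      linear_combination this
    rw [hX]
    linear_combination ((x₁ : ℂ) * x₂ * x₃) * hF
  exact_mod_cast key

/-- If all involutions of `C(J)` lie in `P`, then `C(J) = C(P)` has index less than `18`. -/
theorem index_bound [Finite G] (M : Ideal AlgInt) (hM : IsPModular 2 M) (P : Sylow 2 G)
    (hP : Nat.card (P : Subgroup G) = 4) (hexp : ∀ x ∈ (P : Subgroup G), x * x = 1)
    (hone : ∀ s t : G, orderOf s = 2 → orderOf t = 2 → IsConj s t) (J : G)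
    (hJ : J ∈ (P : Subgroup G)) (hJ2 : orderOf J = 2)
    (hZ : ∀ z ∈ centralizer ({J} : Set G), orderOf z = 2 → z ∈ (P : Subgroup G)) :
    Nat.card (centralizer ((P : Subgroup G) : Set G)) = Nat.card (centralizer ({J} : Set G)) ∧
      Nat.card G < 18 * Nat.card (centralizer ({J} : Set G)) := by
  classical
  obtain ⟨ζ₂, ζ₃, ζ₄, ε, hε, h2, h3, h23, h24, h34, hB, hvals, d2, d3, d4, -⟩ :=
    principal_structure M hM P hP hexp hone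
  obtain ⟨v2, v3, v4⟩ := hvals J hJ2
  have h4 : (ζ₄ : G → ℂ) ≠ (fun _ => 1) := by
    intro h
    have h5 := congrFun h J
    rw [v4] at h5
    norm_num at h5
  have hdist : (ζ₂ : G → ℂ) ≠ (fun _ => 1) ∧ (ζ₃ : G → ℂ) ≠ (fun _ => 1) ∧
      (ζ₄ : G → ℂ) ≠ (fun _ => 1) ∧ ζ₂ ≠ ζ₃ ∧ ζ₂ ≠ ζ₄ ∧ ζ₃ ≠ ζ₄ := ⟨h2, h3, h4, h23, h24, h34⟩
  have hε' : ((1 : ℤ) = 1 ∨ (1 : ℤ) = -1) ∧ (ε = 1 ∨ ε = -1) ∧ ((-1 : ℤ) = 1 ∨ (-1 : ℤ) = -1) :=
    ⟨Or.inl rfl, hε, Or.inr rfl⟩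
  have hval : (ζ₂ : G → ℂ) J = ((1 : ℤ) : ℂ) ∧ (ζ₃ : G → ℂ) J = ((ε : ℤ) : ℂ) ∧
      (ζ₄ : G → ℂ) J = (((-1 : ℤ) : ℤ) : ℂ) :=
    ⟨by rw [v2]; norm_num, v3, by rw [v4]; norm_num⟩
  have key := order_formula_prod M hM P hP hexp hone J hJ hJ2 ζ₂ ζ₃ ζ₄ 1 ε (-1) hB hdist hε' hval
  -- `c(P) = c(J)`
  have hc : Nat.card (centralizer ((P : Subgroup G) : Set G))
      = Nat.card (centralizer ({J} : Set G)) := by
    have h1 := card_Z P hP hexp J hJ hJ2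
    obtain ⟨a, haP, ha1, haJ, hall⟩ := sylow_elems P hP J hJ hJ2
    have hle : Nat.card {z : G // orderOf z = 2 ∧ z ≠ J ∧ z ∈ centralizer ({J} : Set G)}
        ≤ 2 := by
      have hf : Function.Injective
          (fun z : {z : G // orderOf z = 2 ∧ z ≠ J ∧ z ∈ centralizer ({J} : Set G)} =>
            (if (z : G) = a then (0 : Fin 2) else 1)) := by
        intro z w hzw
        have hz := hall z.1 (hZ z.1 z.2.2.2 z.2.1)
        have hw := hall w.1 (hZ w.1 w.2.2.2 w.2.1)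
        have hz1 : (z : G) ≠ 1 := ne_one_of_orderOf_two z.2.1
        have hw1 : (w : G) ≠ 1 := ne_one_of_orderOf_two w.2.1
        apply Subtype.ext
        by_cases hza : (z : G) = a
        · by_cases hwa : (w : G) = a
          · rw [hza, hwa]
          · simp [hza, hwa] at hzw
        · by_cases hwa : (w : G) = a
          · simp [hza, hwa] at hzw
          · have hz' : (z : G) = J * a := by
              rcases hz with h | h | h | h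
              · exact absurd h hz1
              · exact absurd h z.2.2.1
              · exact absurd h hza
              · exact h
            have hw' : (w : G) = J * a := by
              rcases hw with h | h | h | h
              · exact absurd h hw1
              · exact absurd h w.2.2.1
              · exact absurd h hwa
              · exact h
            rw [hz', hw']
      have h5 := Nat.card_le_card_of_injective _ hf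
      simpa using h5
    have h6 : Nat.card (centralizer ((P : Subgroup G) : Set G))
        ≤ Nat.card (centralizer ({J} : Set G)) :=
      Nat.le_of_dvd Nat.card_pos
        (Subgroup.card_dvd_of_le (Subgroup.centralizer_le (Set.singleton_subset_iff.mpr hJ)))
    have h7 : 2 * Nat.card (centralizer ({J} : Set G))
        ≤ 2 * Nat.card (centralizer ((P : Subgroup G) : Set G)) := by
      rw [← h1]
      exact Nat.mul_le_mul_right _ hle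
    omega
  refine ⟨hc, ?_⟩
  rw [hc] at key
  have hp2 := irr_charDegree_pos ζ₂.2
  have hp3 := irr_charDegree_pos ζ₃.2
  have hp4 := irr_charDegree_pos ζ₄.2
  obtain ⟨x₂, hx₂⟩ : ∃ n : ℕ, n = charDegree (ζ₂ : G → ℂ) := ⟨_, rfl⟩
  obtain ⟨x₃, hx₃⟩ : ∃ n : ℕ, n = charDegree (ζ₃ : G → ℂ) := ⟨_, rfl⟩
  obtain ⟨x₄, hx₄⟩ : ∃ n : ℕ, n = charDegree (ζ₄ : G → ℂ) := ⟨_, rfl⟩
  obtain ⟨c, hcdef⟩ : ∃ n : ℕ, n = Nat.card (centralizer ({J} : Set G)) := ⟨_, rfl⟩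
  obtain ⟨N, hNdef⟩ : ∃ n : ℕ, n = Nat.card G := ⟨_, rfl⟩
  rw [← hx₂, ← hx₃, ← hx₄, ← hcdef, ← hNdef] at key
  rw [← hx₂] at hp2
  rw [← hx₃] at hp3 d3
  rw [← hx₄] at hp4 d4
  rw [← hcdef, ← hNdef]
  have hc0 : 0 < c := by rw [hcdef]; exact Nat.card_pos
  -- `x₄ ≥ 3`
  obtain ⟨u, hu⟩ : ∃ u : ℕ, x₄ = u + 3 := by
    obtain ⟨j, hj⟩ := d4
    exact ⟨x₄ - 3, by omega⟩
  subst hu
  by_contra hcon
  push Not at hcon
  rcases hε with rfl | rfl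
  · -- signs `(1, 1, -1)`
    have keyN : N * ((x₂ + 1) * (x₃ + 1) * (u + 2)) * c ^ 2 = 8 * c ^ 3 * (x₂ * x₃ * (u + 3)) := by
      have : (N : ℤ) * (((x₂ : ℤ) + 1) * ((x₃ : ℤ) + 1) * ((u : ℤ) + 2)) * (c : ℤ) ^ 2
          = 8 * (c : ℤ) ^ 3 * ((x₂ : ℤ) * x₃ * ((u : ℤ) + 3)) := by
        push_cast at key
        linear_combination key
      exact_mod_cast this
    have h1 : c ^ 3 * (18 * ((x₂ + 1) * (x₃ + 1) * (u + 2)))
        ≤ c ^ 3 * (8 * (x₂ * x₃ * (u + 3))) := by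
      calc c ^ 3 * (18 * ((x₂ + 1) * (x₃ + 1) * (u + 2)))
          = 18 * c * (((x₂ + 1) * (x₃ + 1) * (u + 2)) * c ^ 2) := by ring
        _ ≤ N * (((x₂ + 1) * (x₃ + 1) * (u + 2)) * c ^ 2) := Nat.mul_le_mul_right _ hcon
        _ = c ^ 3 * (8 * (x₂ * x₃ * (u + 3))) := by rw [← mul_assoc, keyN]; ring
    have h2 := Nat.le_of_mul_le_mul_left h1 (pow_pos hc0 3)
    nlinarith [Nat.zero_le (x₂ * x₃ * u), Nat.zero_le (x₂ * x₃), Nat.zero_le (x₂ * u),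
      Nat.zero_le (x₃ * u)]
  · -- signs `(1, -1, -1)`
    obtain ⟨v, hv⟩ : ∃ v : ℕ, x₃ = v + 3 := by
      obtain ⟨j, hj⟩ := d3
      exact ⟨x₃ - 3, by omega⟩
    subst hv
    have keyN : N * ((x₂ + 1) * (v + 2) * (u + 2)) * c ^ 2
        = 8 * c ^ 3 * (x₂ * (v + 3) * (u + 3)) := by
      have : (N : ℤ) * (((x₂ : ℤ) + 1) * ((v : ℤ) + 2) * ((u : ℤ) + 2)) * (c : ℤ) ^ 2
          = 8 * (c : ℤ) ^ 3 * ((x₂ : ℤ) * ((v : ℤ) + 3) * ((u : ℤ) + 3)) := by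
        push_cast at key
        linear_combination key
      exact_mod_cast this
    have h1 : c ^ 3 * (18 * ((x₂ + 1) * (v + 2) * (u + 2)))
        ≤ c ^ 3 * (8 * (x₂ * (v + 3) * (u + 3))) := by
      calc c ^ 3 * (18 * ((x₂ + 1) * (v + 2) * (u + 2)))
          = 18 * c * (((x₂ + 1) * (v + 2) * (u + 2)) * c ^ 2) := by ring
        _ ≤ N * (((x₂ + 1) * (v + 2) * (u + 2)) * c ^ 2) := Nat.mul_le_mul_right _ hcon
        _ = c ^ 3 * (8 * (x₂ * (v + 3) * (u + 3))) := by rw [← mul_assoc, keyN]; ring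
    have h2 := Nat.le_of_mul_le_mul_left h1 (pow_pos hc0 3)
    nlinarith [Nat.zero_le (x₂ * v * u), Nat.zero_le (x₂ * v), Nat.zero_le (x₂ * u),
      Nat.zero_le (v * u)]

end Cfsg.Agent.Lib.Helper17.KleinA5
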