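import Mathlib

/-!
Simple groups with an abelian Sylow `2`-subgroup `P` of order `4` whose centralizer has index
less than `18`: the centralizer of `P` has order `4`.  Also: normal Sylow subgroups of a
subgroup contain all its `p`-elements.
-/

set_option autoImplicit false
set_option linter.style.haveILetI false

namespace Cfsg.Agent.Lib.Helper17.KleinA5b

open Subgroup

universe u
variable {G : Type u} [Group G]

/-- A simple group does not have order `4`. -/
theorem card_ne_four [Finite G] [IsSimpleGroup G] : Nat.card G ≠ 4 := by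
  intro h4
  haveI : Fact (Nat.Prime 2) := ⟨Nat.prime_two⟩
  obtain ⟨g, hg⟩ := exists_prime_orderOf_dvd_card' (G := G) 2 (by rw [h4]; norm_num)
  have hcard : Nat.card (zpowers g) = 2 := by rw [Nat.card_zpowers, hg]
  have hidx : (zpowers g).index = 2 := by
    have h1 := Subgroup.card_mul_index (zpowers g)
    rw [hcard, h4] at h1
    omega
  have hnorm : (zpowers g).Normal := Subgroup.normal_of_index_eq_two hidx
  rcases hnorm.eq_bot_or_eq_top with h | h
  · rw [h] at hcard
    simp at hcard
  · rw [h] at hidx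
    simp at hidx

/-- Elements of `2`-power order of `H` lie in a normal subgroup of `H` of odd index. -/
theorem mem_of_two_pow {H S₀ : Subgroup G} (hn : (S₀.subgroupOf H).Normal)
    (hodd : ¬ 2 ∣ S₀.relIndex H) (u : G) (hu : u ∈ H) (j : ℕ) (huj : u ^ (2 ^ j) = 1) :
    u ∈ S₀ := by
  haveI := hn
  have h1 : ((⟨u, hu⟩ : H) : H ⧸ S₀.subgroupOf H) ^ (2 ^ j) = 1 := by
    rw [← QuotientGroup.mk_pow]
    have h0 : (⟨u, hu⟩ : H) ^ (2 ^ j) = 1 := Subtype.ext (by simpa using huj)
    rw [h0]
    rfl
  have h2 : orderOf ((⟨u, hu⟩ : H) : H ⧸ S₀.subgroupOf H) ∣ 2 ^ j :=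
    orderOf_dvd_of_pow_eq_one h1
  have h3 : orderOf ((⟨u, hu⟩ : H) : H ⧸ S₀.subgroupOf H) ∣ S₀.relIndex H := by
    have h0 := orderOf_dvd_natCard ((⟨u, hu⟩ : H) : H ⧸ S₀.subgroupOf H)
    rwa [← Subgroup.index_eq_card] at h0
  have hcop : Nat.Coprime (2 ^ j) (S₀.relIndex H) :=
    Nat.Coprime.pow_left j ((Nat.Prime.coprime_iff_not_dvd Nat.prime_two).2 hodd)
  have h4 : orderOf ((⟨u, hu⟩ : H) : H ⧸ S₀.subgroupOf H) = 1 := by
    have h0 := Nat.dvd_gcd h2 h3
    rw [hcop.gcd_eq_one] at h0
    exact Nat.dvd_one.mp h0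
  rw [orderOf_eq_one_iff, QuotientGroup.eq_one_iff] at h4
  exact Subgroup.mem_subgroupOf.mp h4

/-- A simple group with an abelian Sylow `2`-subgroup `P` of order `4` whose centralizer has
index less than `18`: the centralizer has order `4`. -/
theorem card_centralizer_eq_four [Finite G] [IsSimpleGroup G] (P : Sylow 2 G)
    (hP : Nat.card (P : Subgroup G) = 4)
    (hcomm : ∀ x ∈ (P : Subgroup G), ∀ y ∈ (P : Subgroup G), x * y = y * x)
    (hb : Nat.card G < 18 * Nat.card (centralizer ((P : Subgroup G) : Set G))) :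
    Nat.card (centralizer ((P : Subgroup G) : Set G)) = 4 := by
  classical
  haveI : Fact (Nat.Prime 2) := ⟨Nat.prime_two⟩
  have hCN : centralizer ((P : Subgroup G) : Set G) ≤ normalizer ((P : Subgroup G) : Set G) :=
    Subgroup.centralizer_le_normalizer _
  have hPC : (P : Subgroup G) ≤ centralizer ((P : Subgroup G) : Set G) := by
    intro x hx
    rw [mem_centralizer_iff]
    intro y hy
    exact hcomm y hy x hx
  -- Burnside
  have hNC : ¬ normalizer ((P : Subgroup G) : Set G) ≤ centralizer ((P : Subgroup G) : Set G) := by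
    intro hle
    have hcomp := MonoidHom.ker_transferSylow_isComplement' P hle
    have hmul := hcomp.card_mul_card
    rw [hP] at hmul
    rcases (MonoidHom.normal_ker (MonoidHom.transferSylow P hle)).eq_bot_or_eq_top with h | h
    · rw [h, Subgroup.card_bot] at hmul
      exact card_ne_four (G := G) (by omega)
    · rw [h, Subgroup.card_top] at hmul
      have : 0 < Nat.card G := Nat.card_pos
      omega
  -- arithmetic
  obtain ⟨r, hr⟩ := Subgroup.card_dvd_of_le hCN
  obtain ⟨k, hk⟩ := Subgroup.card_dvd_of_le hPC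
  rw [hP] at hk
  have hn : Nat.card (Sylow 2 G) = (normalizer ((P : Subgroup G) : Set G)).index :=
    Sylow.card_eq_index_normalizer P
  have hNG := Subgroup.card_mul_index (normalizer ((P : Subgroup G) : Set G))
  rw [← hn] at hNG
  have hmod := card_sylow_modEq_one 2 G
  have hfac : (Nat.card G).factorization 2 = 2 := by
    have h1 := Sylow.card_eq_multiplicity P
    rw [hP] at h1
    have h2 : (2 : ℕ) ^ 2 = 2 ^ (Nat.card G).factorization 2 := by rw [← h1]; norm_num
    exact (Nat.pow_right_injective (le_refl 2) h2).symm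
  have h8 : ¬ 8 ∣ Nat.card G := by
    intro h
    have h1 : (2 : ℕ) ^ 3 ∣ Nat.card G := by norm_num; exact h
    have h2 := (Nat.Prime.pow_dvd_iff_le_factorization Nat.prime_two Nat.card_pos.ne').1 h1
    omega
  obtain ⟨n, hndef⟩ : ∃ n : ℕ, n = Nat.card (Sylow 2 G) := ⟨_, rfl⟩
  obtain ⟨c, hcdef⟩ : ∃ c : ℕ, c = Nat.card (centralizer ((P : Subgroup G) : Set G)) := ⟨_, rfl⟩
  rw [← hndef] at hNG hmod
  rw [← hcdef] at hr hk hb ⊢
  rw [hr] at hNG
  have hc0 : 0 < c := by rw [hcdef]; exact Nat.card_pos
  have hk0 : 0 < k := by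
    rcases Nat.eq_zero_or_pos k with h | h
    · rw [h] at hk; omega
    · exact h
  have hr1 : r ≠ 1 := by
    intro h1
    apply hNC
    have : normalizer ((P : Subgroup G) : Set G) = centralizer ((P : Subgroup G) : Set G) :=
      (Subgroup.eq_of_le_of_card_ge hCN (by rw [hr, h1, ← hcdef]; omega)).symm
    rw [this]
  have hr0 : 0 < r := by
    rcases Nat.eq_zero_or_pos r with h | h
    · rw [h] at hNG
      have : 0 < Nat.card G := Nat.card_pos
      simp at hNG
      omega
    · exact h
  -- `|G| = 4 (n r k)`, so `n r k` is odd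
  have hG4 : Nat.card G = 4 * (r * k * n) := by rw [← hNG, hk]; ring
  have hodd : ¬ 2 ∣ r * k * n := by
    intro h
    apply h8
    rw [hG4]
    obtain ⟨m, hm⟩ := h
    exact ⟨m, by rw [hm]; ring⟩
  have hrodd : ¬ 2 ∣ r := fun h => hodd (Dvd.dvd.mul_right (Dvd.dvd.mul_right h k) n)
  have hkodd : ¬ 2 ∣ k := fun h => hodd (Dvd.dvd.mul_right (Dvd.dvd.mul_left h r) n)
  have hr3 : 3 ≤ r := by omega
  -- `n r < 18`
  have hnr : r * n < 18 := by
    have h1 : c * (r * n) < c * 18 := by
      calc c * (r * n) = Nat.card G := by rw [← hNG]; ring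
        _ < 18 * c := hb
        _ = c * 18 := by ring
    exact Nat.lt_of_mul_lt_mul_left h1
  have hn5 : n ≤ 5 := by nlinarith
  have hn1 : n ≠ 1 := by
    intro h1
    -- then `P` is normal
    have hidx : (normalizer ((P : Subgroup G) : Set G)).index = 1 := by rw [← hn, ← hndef, h1]
    have htop : normalizer ((P : Subgroup G) : Set G) = ⊤ := Subgroup.index_eq_one.mp hidx
    have hnorm : (P : Subgroup G).Normal := Subgroup.normalizer_eq_top_iff.mp htop
    rcases hnorm.eq_bot_or_eq_top with h | h
    · rw [h, Subgroup.card_bot] at hP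
      omega
    · rw [h, Subgroup.card_top] at hP
      exact card_ne_four (G := G) hP
  have hn35 : n = 3 ∨ n = 5 := by
    have h2 : n % 2 = 1 := by
      have := hmod
      unfold Nat.ModEq at this
      omega
    omega
  -- the action on the Sylow subgroups is faithful
  have hinj : Function.Injective (MulAction.toPermHom G (Sylow 2 G)) := by
    rw [← MonoidHom.ker_eq_bot_iff]
    rcases (MonoidHom.normal_ker (MulAction.toPermHom G (Sylow 2 G))).eq_bot_or_eq_top with h | h
    · exact h
    · exfalso
      apply hn1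
      have hall : ∀ g : G, g ∈ normalizer ((P : Subgroup G) : Set G) := by
        intro g
        have hg : g ∈ (MulAction.toPermHom G (Sylow 2 G)).ker := by rw [h]; trivial
        rw [MonoidHom.mem_ker] at hg
        have h1 : g • P = P := by
          have := congrArg (fun σ : Equiv.Perm (Sylow 2 G) => σ P) hg
          simpa using this
        exact Sylow.smul_eq_iff_mem_normalizer.mp h1
      have htop : normalizer ((P : Subgroup G) : Set G) = ⊤ :=
        eq_top_iff.mpr (fun g _ => hall g)
      have hidx : (normalizer ((P : Subgroup G) : Set G)).index = 1 :=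
        Subgroup.index_eq_one.mpr htop
      rw [hndef, hn, hidx]
  have hdvd : Nat.card G ∣ n.factorial := by
    have h1 := Subgroup.card_dvd_of_injective _ hinj
    rw [Nat.card_perm, ← hndef] at h1
    exact h1
  rcases hn35 with h3 | h5
  · exfalso
    subst h3
    rw [hG4] at hdvd
    have : (4 : ℕ) ∣ Nat.factorial 3 := Dvd.dvd.trans (Dvd.intro _ rfl) hdvd
    norm_num [Nat.factorial] at this
  · subst h5
    rw [hG4] at hdvd
    have h120 : Nat.factorial 5 = 120 := by norm_num [Nat.factorial]
    rw [h120] at hdvd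
    have h1 : r * k ∣ 6 := by
      have h2 : 20 * (r * k) ∣ 20 * 6 := by
        have : 4 * (r * k * 5) = 20 * (r * k) := by ring
        rw [this] at hdvd
        exact hdvd
      exact Nat.dvd_of_mul_dvd_mul_left (by norm_num) h2
    have h2 : r * k ≤ 6 := Nat.le_of_dvd (by norm_num) h1
    have hk1 : k = 1 := by
      by_contra hne
      have hk3 : 3 ≤ k := by omega
      nlinarith
    rw [hk, hk1]

end Cfsg.Agent.Lib.Helper17.KleinA5b
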