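import Mathlib
import Cfsg.Agent.Lib.Helper17.ExcInv
import Cfsg.Agent.Lib.Helper17.ExcSimple

/-!
Order 4032, the case of 288 Sylow 7-subgroups (`N(P)` of order 14): exceptional characters
and the class equation of an involution.
-/

set_option autoImplicit false
set_option linter.style.haveILetI false

namespace Cfsg.Agent.Lib.Helper17.O4032a

open Cfsg Subgroup
open Cfsg.Agent.Lib.CT.Orth Cfsg.Agent.Lib.CT.Wedderburn
open Cfsg.Agent.Lib.Helper17.ExcOrb Cfsg.Agent.Lib.Helper17.ExcMain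
open Cfsg.Agent.Lib.Helper17.ExcCor Cfsg.Agent.Lib.Helper17.ExcSimple
open Cfsg.Agent.Lib.Helper17.ExcInv Cfsg.Agent.Lib.Helper17.Sylow2

/-- `a c² = 56 w²` has no solution with `1 ≤ a < 14`, `c > 0`. -/
theorem sq_lemma (a c : ℕ) (w : ℤ) (ha1 : 1 ≤ a) (ha : a < 14) (hc : 0 < c)
    (h : ((a * c ^ 2 : ℕ) : ℤ) = 56 * w ^ 2) : False := by
  have hw : w ^ 2 = ((w.natAbs ^ 2 : ℕ) : ℤ) := by
    push_cast
    exact (sq_abs w).symm
  rw [hw] at h
  have h' : a * c ^ 2 = 56 * w.natAbs ^ 2 := by exact_mod_cast h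
  obtain ⟨m, hm⟩ : ∃ m : ℕ, m = w.natAbs := ⟨_, rfl⟩
  rw [← hm] at h'
  have hm0 : m ≠ 0 := by
    rintro rfl
    have : 0 < a * c ^ 2 := by positivity
    omega
  haveI : Fact (Nat.Prime 7) := ⟨by norm_num⟩
  haveI : Fact (Nat.Prime 2) := ⟨by norm_num⟩
  have ha0 : a ≠ 0 := by omega
  have hc0 : c ≠ 0 := by omega
  have e7 := congrArg (padicValNat 7) h'
  rw [padicValNat.mul ha0 (pow_ne_zero 2 hc0), padicValNat.pow c 2,
    padicValNat.mul (by norm_num) (pow_ne_zero 2 hm0), padicValNat.pow m 2] at e7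
  have h56 : padicValNat 7 56 = 1 := by
    have : (56 : ℕ) = 7 * 8 := by norm_num
    rw [this, padicValNat.mul (by norm_num) (by norm_num), padicValNat_self,
      padicValNat.eq_zero_of_not_dvd (by norm_num)]
  rw [h56] at e7
  have ha7 : 7 ∣ a := by
    apply dvd_of_one_le_padicValNat
    omega
  have ha7' : a = 7 := by omega
  subst ha7'
  have h'' : c ^ 2 = 8 * m ^ 2 := by omega
  have e2 := congrArg (padicValNat 2) h''
  rw [padicValNat.pow c 2, padicValNat.mul (by norm_num) (pow_ne_zero 2 hm0),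
    padicValNat.pow m 2] at e2
  have h8 : padicValNat 2 8 = 3 := by
    have : (8 : ℕ) = 2 ^ 3 := by norm_num
    rw [this, padicValNat.prime_pow]
  rw [h8] at e2
  omega

theorem key : ∀ D ∈ Nat.divisors 4032, D ≠ 1 →
    (D % 7 = 1 → D + 1 ∣ 4032 → D = 8) ∧ (D % 7 = 6 → ¬ (D - 1 ∣ 4032)) := by
  decide +kernel

/-- No simple group of order 4032 has a self-centralizing Sylow 7-subgroup with normalizer of
order 14. -/
theorem case288 {G : Type*} [Group G] [Finite G] [IsSimpleGroup G]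
    (hG : ¬ IsMulCommutative G) (h : Nat.card G = 4032) (P : Sylow 7 G)
    (hP : Nat.card (P : Subgroup G) = 7)
    (hC : Nat.card (centralizer ((P : Subgroup G) : Set G)) = 7)
    (hN : Nat.card (normalizer ((P : Subgroup G) : Set G)) = 7 * 2) : False := by
  classical
  haveI : Fintype G := Fintype.ofFinite G
  haveI : Finite (IrrCharacter G) := finite_irrCharacter G
  haveI : Fintype (IrrCharacter G) := Fintype.ofFinite _
  have hp7 : Nat.Prime 7 := by norm_num
  have hCle := centralizer_le_of_card (P : Subgroup G) hp7 hP hC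
  obtain ⟨n, ε, δ, θ, χ, i₀, hε, hδ, hχT, hθχ, hθT, ⟨a, ha⟩, heq, hθvan, hθone, hform⟩ :=
    exceptional_two (P : Subgroup G) hp7 hP hCle hN (by norm_num)
  have hD1 := charDegree_ne_one hG χ hχT
  have hDdvd := Cfsg.Agent.Lib.Helper80.Integrality.charDegree_dvd_card χ
  have hddvd := Cfsg.Agent.Lib.Helper80.Integrality.charDegree_dvd_card (θ i₀)
  rw [h] at hDdvd hddvd
  have hDpos := irr_charDegree_pos χ.2
  have hdpos := irr_charDegree_pos (θ i₀).2
  have : Fact (Nat.Prime 2) := ⟨Nat.prime_two⟩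
  obtain ⟨t, htN, ht⟩ := exists_mem_orderOf_eq_prime
    (normalizer ((P : Subgroup G) : Set G)) 2 (by rw [hN]; norm_num)
  obtain ⟨u, a', ha1, ha2, hmain⟩ := involution_equation (P : Subgroup G) hp7 hP (by norm_num)
    hCle ε δ θ χ i₀ hε hθvan hθone hform t ht htN
  obtain ⟨D, hDdef⟩ : ∃ D, D = charDegree (χ : G → ℂ) := ⟨_, rfl⟩
  obtain ⟨d, hddef⟩ : ∃ d, d = charDegree ((θ i₀ : IrrCharacter G) : G → ℂ) := ⟨_, rfl⟩
  obtain ⟨c, hcdef⟩ : ∃ c, c = Nat.card (centralizer ({t} : Set G)) := ⟨_, rfl⟩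
  have hcpos : 0 < c := hcdef ▸ Nat.card_pos
  rw [← hDdef] at hD1 hDdvd hDpos ha heq hmain
  rw [← hddef] at hddvd hdpos heq hmain
  rw [← hcdef, h] at hmain
  rw [hN] at ha2
  have hk := key D (Nat.mem_divisors.mpr ⟨hDdvd, by norm_num⟩) hD1
  have hvals : δ = 1 ∧ ε = 1 ∧ D = 8 ∧ d = 9 := by
    rcases hδ with rfl | rfl <;> rcases hε with rfl | rfl
    · have h1 : D % 7 = 1 := by omega
      have h2 : d = D + 1 := by omega
      have h3 := hk.1 h1 (h2 ▸ hddvd)
      refine ⟨rfl, rfl, h3, by omega⟩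
    · exfalso; omega
    · exfalso; omega
    · exfalso
      have h1 : D % 7 = 6 := by omega
      have h2 : D - 1 = d := by omega
      exact hk.2 h1 (h2 ▸ hddvd)
  obtain ⟨rfl, rfl, rfl, rfl⟩ := hvals
  apply sq_lemma a' c (u - 8) ha1 (by omega) hcpos
  push_cast at hmain ⊢
  linarith

end Cfsg.Agent.Lib.Helper17.O4032a
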