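import Mathlib
import Cfsg.Agent.Lib.Helper17.FixCount
import Cfsg.Agent.Lib.Helper17.ExcCor

/-!
Order 4032, the case of 64 Sylow 7-subgroups (`|N(P)| = 63`, `|C(P)| = 21`).
-/

set_option autoImplicit false
set_option linter.style.haveILetI false

namespace Cfsg.Agent.Lib.Helper17.O4032b

open Subgroup MulAction
open Cfsg.Agent.Lib.Helper17.Sylow Cfsg.Agent.Lib.Helper17.Sylow2
open Cfsg.Agent.Lib.Helper17.CentFix Cfsg.Agent.Lib.Helper17.Commuting
open Cfsg.Agent.Lib.Helper17.FixCount Cfsg.Agent.Lib.Helper17.FixedPoints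
open Cfsg.Agent.Lib.Helper17.Classes

variable {G : Type*} [Group G] [Finite G]

theorem keym : ∀ m ∈ Nat.divisors 64, m % 7 = 1 → m = 1 ∨ m = 8 ∨ m = 64 := by decide
theorem keyd : ∀ d ∈ Nat.divisors 63, 9 ∣ d → d = 9 ∨ d = 63 := by decide
theorem keyT : ∀ d ∈ Nat.divisors 21, 3 ∣ d → ¬ 7 ∣ d → d = 3 := by decide

/-- `C(P) ≤ C(y)`. -/
theorem cent_le (P : Sylow 7 G) (hP : Nat.card (P : Subgroup G) = 7)
    (hC : Nat.card (centralizer ((P : Subgroup G) : Set G)) = 21) (y : G)
    (hy : y ∈ centralizer ((P : Subgroup G) : Set G)) (hy3 : orderOf y = 3) :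
    centralizer ((P : Subgroup G) : Set G) ≤ centralizer ({y} : Set G) := by
  haveI : Fact (Nat.Prime 7) := ⟨by norm_num⟩
  have hPC : (P : Subgroup G) ≤ centralizer ((P : Subgroup G) : Set G) :=
    le_centralizer_of_card_prime (P : Subgroup G) hP
  obtain ⟨K, hK⟩ : ∃ K : Subgroup G,
      K = centralizer ({y} : Set G) ⊓ centralizer ((P : Subgroup G) : Set G) := ⟨_, rfl⟩
  have hPK : (P : Subgroup G) ≤ K := by
    intro x hx
    rw [hK]
    refine Subgroup.mem_inf.mpr ⟨?_, hPC hx⟩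
    rw [mem_centralizer_singleton_iff]
    exact mem_centralizer_iff.mp hy x hx
  have hyK : y ∈ K := by
    rw [hK]
    exact Subgroup.mem_inf.mpr ⟨mem_centralizer_self y, hy⟩
  have hKle : K ≤ centralizer ((P : Subgroup G) : Set G) := by
    rw [hK]; exact inf_le_right
  have h7 : 7 ∣ Nat.card K := hP ▸ Subgroup.card_dvd_of_le hPK
  have h3 : 3 ∣ Nat.card K := hy3 ▸ orderOf_dvd_card_of_mem hyK
  have hle : Nat.card K ∣ 21 := hC ▸ Subgroup.card_dvd_of_le hKle
  have hK21 : Nat.card K = 21 := by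
    have h21 : 7 * 3 ∣ Nat.card K :=
      Nat.Coprime.mul_dvd_of_dvd_of_dvd (by norm_num) h7 h3
    exact Nat.dvd_antisymm hle h21
  have hKC : K = centralizer ((P : Subgroup G) : Set G) :=
    Subgroup.eq_of_le_of_card_ge hKle (by rw [hK21, hC])
  intro c hc
  rw [← hKC, hK] at hc
  exact (Subgroup.mem_inf.mp hc).1

/-- `C(P)` is abelian. -/
theorem cent_comm (P : Sylow 7 G) (hP : Nat.card (P : Subgroup G) = 7)
    (hC : Nat.card (centralizer ((P : Subgroup G) : Set G)) = 21) (y : G)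
    (hy : y ∈ centralizer ((P : Subgroup G) : Set G)) (hy3 : orderOf y = 3) :
    ∀ a ∈ centralizer ((P : Subgroup G) : Set G), ∀ b ∈ centralizer ((P : Subgroup G) : Set G),
      a * b = b * a := by
  haveI : Fact (Nat.Prime 7) := ⟨by norm_num⟩
  have hPC : (P : Subgroup G) ≤ centralizer ((P : Subgroup G) : Set G) :=
    le_centralizer_of_card_prime (P : Subgroup G) hP
  have hB := cent_le P hP hC y hy hy3
  obtain ⟨K, hK⟩ : ∃ K : Subgroup G,
      K = centralizer ((centralizer ((P : Subgroup G) : Set G) : Subgroup G) : Set G)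
        ⊓ centralizer ((P : Subgroup G) : Set G) := ⟨_, rfl⟩
  have hPK : (P : Subgroup G) ≤ K := by
    intro x hx
    rw [hK]
    refine Subgroup.mem_inf.mpr ⟨?_, hPC hx⟩
    rw [mem_centralizer_iff]
    intro c hc
    exact (mem_centralizer_iff.mp hc x hx).symm
  have hyK : y ∈ K := by
    rw [hK]
    refine Subgroup.mem_inf.mpr ⟨?_, hy⟩
    rw [mem_centralizer_iff]
    intro c hc
    exact mem_centralizer_singleton_iff.mp (hB hc)
  have hKle : K ≤ centralizer ((P : Subgroup G) : Set G) := by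
    rw [hK]; exact inf_le_right
  have h7 : 7 ∣ Nat.card K := hP ▸ Subgroup.card_dvd_of_le hPK
  have h3 : 3 ∣ Nat.card K := hy3 ▸ orderOf_dvd_card_of_mem hyK
  have hle : Nat.card K ∣ 21 := hC ▸ Subgroup.card_dvd_of_le hKle
  have hK21 : Nat.card K = 21 := by
    have h21 : 7 * 3 ∣ Nat.card K :=
      Nat.Coprime.mul_dvd_of_dvd_of_dvd (by norm_num) h7 h3
    exact Nat.dvd_antisymm hle h21
  have hKC : K = centralizer ((P : Subgroup G) : Set G) :=
    Subgroup.eq_of_le_of_card_ge hKle (by rw [hK21, hC])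
  intro a ha b hb
  rw [← hKC, hK] at ha
  exact (mem_centralizer_iff.mp (Subgroup.mem_inf.mp ha).1 b hb).symm

/-- The elements of `C(P)` of order dividing three are the powers of `y`. -/
theorem mem_zpowers_of_pow_three (P : Sylow 7 G) (hP : Nat.card (P : Subgroup G) = 7)
    (hC : Nat.card (centralizer ((P : Subgroup G) : Set G)) = 21) (y : G)
    (hy : y ∈ centralizer ((P : Subgroup G) : Set G)) (hy3 : orderOf y = 3) (c : G)
    (hc : c ∈ centralizer ((P : Subgroup G) : Set G)) (hc3 : c ^ 3 = 1) : c ∈ zpowers y := by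
  haveI : Fact (Nat.Prime 7) := ⟨by norm_num⟩
  have hcomm := cent_comm P hP hC y hy hy3
  let T : Subgroup G :=
    { carrier := {c | c ∈ centralizer ((P : Subgroup G) : Set G) ∧ c ^ 3 = 1}
      mul_mem' := by
        rintro a b ⟨ha, ha3⟩ ⟨hb, hb3⟩
        refine ⟨mul_mem ha hb, ?_⟩
        rw [(show Commute a b from hcomm a ha b hb).mul_pow, ha3, hb3, one_mul]
      one_mem' := ⟨one_mem _, one_pow 3⟩
      inv_mem' := by
        rintro a ⟨ha, ha3⟩
        exact ⟨inv_mem ha, by rw [inv_pow, ha3, inv_one]⟩ }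
  have hTle : T ≤ centralizer ((P : Subgroup G) : Set G) := fun a ha => ha.1
  have hyT : y ∈ T := ⟨hy, by rw [← hy3]; exact pow_orderOf_eq_one y⟩
  have hzT : zpowers y ≤ T := by rw [zpowers_le]; exact hyT
  have hd : Nat.card T ∣ 21 := hC ▸ Subgroup.card_dvd_of_le hTle
  have h3 : 3 ∣ Nat.card T := hy3 ▸ orderOf_dvd_card_of_mem hyT
  have h7 : ¬ 7 ∣ Nat.card T := by
    intro h7
    obtain ⟨g, hgT, hg⟩ := exists_mem_orderOf_eq_prime T 7 h7
    have : orderOf g ∣ 3 := orderOf_dvd_of_pow_eq_one hgT.2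
    rw [hg] at this
    omega
  have hT3 : Nat.card T = 3 := keyT _ (Nat.mem_divisors.mpr ⟨hd, by norm_num⟩) h3 h7
  have hEq : zpowers y = T :=
    Subgroup.eq_of_le_of_card_ge hzT (by rw [hT3, Nat.card_zpowers, hy3])
  rw [hEq]
  exact ⟨hc, hc3⟩

theorem eq_of_mem_zpowers (y : G) (hy3 : orderOf y = 3) (c : G) (h : c ∈ zpowers y) :
    c = 1 ∨ c = y ∨ c = y⁻¹ := by
  obtain ⟨k, rfl⟩ := mem_zpowers_iff.mp h
  have hy3' : y ^ 3 = 1 := by rw [← hy3]; exact pow_orderOf_eq_one y
  have e : y ^ k = y ^ (k % 3) := by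
    have := zpow_mod_orderOf y k
    rw [hy3] at this
    exact_mod_cast this.symm
  rw [e]
  have hk : k % 3 = 0 ∨ k % 3 = 1 ∨ k % 3 = 2 := by omega
  rcases hk with hk | hk | hk <;> rw [hk]
  · left; simp
  · right; left; simp
  · right; right
    have h1 : y ^ (2 : ℤ) * y = 1 := by
      have h2 : y ^ (2 : ℤ) * y = y ^ 3 := by group
      rw [h2, hy3']
    exact eq_inv_of_mul_eq_one_left h1

/-- `y` is central in `N(P)`. -/
theorem center_N (P : Sylow 7 G) (hP : Nat.card (P : Subgroup G) = 7)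
    (hC : Nat.card (centralizer ((P : Subgroup G) : Set G)) = 21)
    (hN : Nat.card (normalizer ((P : Subgroup G) : Set G)) = 63) (y : G)
    (hy : y ∈ centralizer ((P : Subgroup G) : Set G)) (hy3 : orderOf y = 3) :
    ∀ n ∈ normalizer ((P : Subgroup G) : Set G), n * y = y * n := by
  intro n hn
  have hy1 : y ≠ 1 := by
    intro h0
    rw [h0, orderOf_one] at hy3
    omega
  have hy3' : y ^ 3 = 1 := by rw [← hy3]; exact pow_orderOf_eq_one y
  have hc : n * y * n⁻¹ ∈ centralizer ((P : Subgroup G) : Set G) :=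
    conj_mem_centralizer (P : Subgroup G) n y hn hy
  have hc3 : (n * y * n⁻¹) ^ 3 = 1 := by
    rw [conj_pow, hy3']
    group
  have hz := mem_zpowers_of_pow_three P hP hC y hy hy3 _ hc hc3
  rcases eq_of_mem_zpowers y hy3 _ hz with h1 | h1 | h1
  · exfalso
    apply hy1
    have h2 : y = n⁻¹ * (n * y * n⁻¹) * n := by group
    rw [h2, h1]
    group
  · calc n * y = (n * y * n⁻¹) * n := by group
      _ = y * n := by rw [h1]
  · exfalso
    have h2 : n * y⁻¹ * n⁻¹ = y := by
      have h3 : n * y⁻¹ * n⁻¹ = (n * y * n⁻¹)⁻¹ := by group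
      rw [h3, h1, inv_inv]
    have hnn : (n * n) * y = y * (n * n) := by
      have e1 : n * n * y = n * (n * y * n⁻¹) * n := by group
      rw [e1, h1]
      have e2 : n * y⁻¹ * n = (n * y⁻¹ * n⁻¹) * (n * n) := by group
      rw [e2, h2]
    have hn63 : n ^ 63 = 1 := by
      have h3 := orderOf_dvd_card_of_mem hn
      rw [hN] at h3
      exact orderOf_dvd_iff_pow_eq_one.mp h3
    have hn64 : n = (n * n) ^ 32 := by
      have h3 : (n * n) ^ 32 = n ^ 63 * n := by
        calc (n * n) ^ 32 = n ^ (2 * 32) := by rw [← pow_two, ← pow_mul]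
          _ = n ^ (63 + 1) := by norm_num
          _ = n ^ 63 * n := pow_succ n 63
      rw [h3, hn63, one_mul]
    have hcomm : Commute (n * n) y := hnn
    have hcomm' : Commute n y := by
      rw [hn64]
      exact hcomm.pow_left 32
    have h4 : n * y * n⁻¹ = y := by
      rw [hcomm'.eq]
      group
    rw [h4] at h1
    have hyy : y * y = 1 := by
      nth_rewrite 2 [h1]
      exact mul_inv_cancel y
    have ho : orderOf y ∣ 2 := orderOf_dvd_of_pow_eq_one (by rw [pow_two]; exact hyy)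
    rw [hy3] at ho
    omega

/-- The possible numbers of fixed points of `y` on the cosets of `N(P)`. -/
theorem fix_cases [IsSimpleGroup G] (h : Nat.card G = 4032) (P : Sylow 7 G)
    (hP : Nat.card (P : Subgroup G) = 7)
    (hN : Nat.card (normalizer ((P : Subgroup G) : Set G)) = 63) (y : G)
    (hy : y ∈ centralizer ((P : Subgroup G) : Set G)) (hy3 : orderOf y = 3) :
    Nat.card (fixedBy (G ⧸ normalizer ((P : Subgroup G) : Set G)) y) = 1 ∨
    Nat.card (fixedBy (G ⧸ normalizer ((P : Subgroup G) : Set G)) y) = 22 ∨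
    Nat.card (fixedBy (G ⧸ normalizer ((P : Subgroup G) : Set G)) y) = 43 := by
  haveI : Fact (Nat.Prime 7) := ⟨by norm_num⟩
  haveI : Fact (Nat.Prime 3) := ⟨by norm_num⟩
  have h1 := card_fixedBy_mod_of_mem_centralizer P hP y hy
  have hidx : (normalizer ((P : Subgroup G) : Set G)).index = 64 := by
    have h2 := (normalizer ((P : Subgroup G) : Set G)).card_mul_index
    rw [hN, h] at h2
    omega
  have hy1 : y ≠ 1 := by
    intro h0
    rw [h0, orderOf_one] at hy3
    omega
  have hNtop : normalizer ((P : Subgroup G) : Set G) ≠ ⊤ := by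
    intro h0
    rw [h0, index_top] at hidx
    omega
  have h2 := card_fixedBy_lt_index (normalizer ((P : Subgroup G) : Set G)) hNtop y hy1
  have h3 := card_modEq_card_fixedBy (X := G ⧸ normalizer ((P : Subgroup G) : Set G))
    (p := 3) (n := 1) y (by rw [pow_one, ← hy3]; exact pow_orderOf_eq_one y)
  have hX : Nat.card (G ⧸ normalizer ((P : Subgroup G) : Set G)) = 64 := hidx
  rw [hX] at h3
  rw [hidx] at h2
  unfold Nat.ModEq at h3
  omega

/-- `C(y) = N(P)` and the number of fixed points is the number of conjugates of `y`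
in `N(P)`. -/
theorem cent_y_eq [IsSimpleGroup G] (h : Nat.card G = 4032) (P : Sylow 7 G)
    (hP : Nat.card (P : Subgroup G) = 7)
    (hC : Nat.card (centralizer ((P : Subgroup G) : Set G)) = 21)
    (hN : Nat.card (normalizer ((P : Subgroup G) : Set G)) = 63) (y : G)
    (hy : y ∈ centralizer ((P : Subgroup G) : Set G)) (hy3 : orderOf y = 3) :
    centralizer ({y} : Set G) = normalizer ((P : Subgroup G) : Set G) ∧
    Nat.card (fixedBy (G ⧸ normalizer ((P : Subgroup G) : Set G)) y)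
      = {s : G | s ∈ normalizer ((P : Subgroup G) : Set G) ∧ ∃ g : G, g * y * g⁻¹ = s}.ncard := by
  haveI : Fact (Nat.Prime 7) := ⟨by norm_num⟩
  have hE := center_N P hP hC hN y hy hy3
  have hNM : normalizer ((P : Subgroup G) : Set G) ≤ centralizer ({y} : Set G) :=
    fun n hn => mem_centralizer_singleton_iff.mpr (hE n hn)
  obtain ⟨m, hm, hm7⟩ := card_eq_mul_of_normalizer_le P (centralizer ({y} : Set G)) hNM
  rw [hN] at hm
  have hdvd : Nat.card (centralizer ({y} : Set G)) ∣ 4032 :=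
    h ▸ Subgroup.card_subgroup_dvd_card _
  have hfc := card_mul_card_fixedBy (normalizer ((P : Subgroup G) : Set G)) y
  rw [hN, hm] at hfc
  have hm64 : m ∣ 64 := by
    rw [hm] at hdvd
    have h2 : 63 * m ∣ 63 * 64 := by norm_num; exact hdvd
    exact (Nat.mul_dvd_mul_iff_left (by norm_num : 0 < 63)).mp h2
  have hm' := keym m (Nat.mem_divisors.mpr ⟨hm64, by norm_num⟩) hm7
  have hcases := fix_cases h P hP hN y hy hy3
  have hm1 : m = 1 := by
    rcases hm' with rfl | rfl | rfl
    · rfl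
    · exfalso
      rcases hcases with hf | hf | hf <;> rw [hf] at hfc <;> omega
    · exfalso
      rcases hcases with hf | hf | hf <;> rw [hf] at hfc <;> omega
  subst hm1
  refine ⟨(Subgroup.eq_of_le_of_card_ge hNM (by rw [hm, hN])).symm, ?_⟩
  omega

/-- `y` is not conjugate to its inverse. -/
theorem not_conj_inv (P : Sylow 7 G) (hP : Nat.card (P : Subgroup G) = 7) (y : G)
    (hy : y ∈ centralizer ((P : Subgroup G) : Set G)) (hy3 : orderOf y = 3)
    (hM : centralizer ({y} : Set G) = normalizer ((P : Subgroup G) : Set G)) :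
    ∀ g : G, g * y * g⁻¹ ≠ y⁻¹ := by
  intro g hg
  haveI : Fact (Nat.Prime 7) := ⟨by norm_num⟩
  have hp7 : Nat.Prime 7 := by norm_num
  obtain ⟨x, hxP, hx1⟩ :=
    Cfsg.Agent.Lib.Helper17.ExcCor.exists_mem_ne_one (P : Subgroup G) hp7 hP
  have hg' : g⁻¹ * y * g = y⁻¹ := by
    calc g⁻¹ * y * g = (g⁻¹ * y⁻¹ * g)⁻¹ := by group
      _ = (g⁻¹ * (g * y * g⁻¹) * g)⁻¹ := by rw [hg]
      _ = y⁻¹ := by group
  have hxy : x * y = y * x := mem_centralizer_iff.mp hy x hxP
  have hz : (g⁻¹ * x * g) * y = y * (g⁻¹ * x * g) := by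
    have h1 : (g⁻¹ * x * g) * (g⁻¹ * y * g) = (g⁻¹ * y * g) * (g⁻¹ * x * g) := by
      have e1 : (g⁻¹ * x * g) * (g⁻¹ * y * g) = g⁻¹ * (x * y) * g := by group
      have e2 : (g⁻¹ * y * g) * (g⁻¹ * x * g) = g⁻¹ * (y * x) * g := by group
      rw [e1, e2, hxy]
    rw [hg'] at h1
    have h2 : Commute (g⁻¹ * x * g) y⁻¹ := h1
    have h3 := h2.inv_right
    rw [inv_inv] at h3
    exact h3.eq
  have hzN : g⁻¹ * x * g ∈ normalizer ((P : Subgroup G) : Set G) := by
    rw [← hM]
    exact mem_centralizer_singleton_iff.mpr hz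
  have hzP : g⁻¹ * x * g ∈ (P : Subgroup G) := by
    apply mem_sylow_of_mem_normalizer P _ hzN
    apply IsPGroup.of_card (n := 1)
    rw [Nat.card_zpowers, pow_one]
    have h1 := orderOf_conj_eq g⁻¹ x
    rw [inv_inv] at h1
    rw [h1]
    exact (zpowers_eq_of_mem P hP x hxP hx1).1
  have hgN : g ∈ normalizer ((P : Subgroup G) : Set G) :=
    Cfsg.Agent.Lib.Helper17.ExcOrb.mem_normalizer_of_conj_mem (P : Subgroup G) hp7 hP g x hxP hx1
      hzP
  rw [← hM] at hgN
  have hgy := mem_centralizer_singleton_iff.mp hgN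
  have h4 : g * y * g⁻¹ = y := by
    rw [hgy]
    group
  rw [h4] at hg
  have hyy : y * y = 1 := by
    nth_rewrite 2 [hg]
    exact mul_inv_cancel y
  have ho : orderOf y ∣ 2 := orderOf_dvd_of_pow_eq_one (by rw [pow_two]; exact hyy)
  rw [hy3] at ho
  omega

/-- At most 31 conjugates of `y` lie in `N(P)`. -/
theorem two_mul_ncard_le (P : Sylow 7 G)
    (hN : Nat.card (normalizer ((P : Subgroup G) : Set G)) = 63) (y : G)
    (hinv : ∀ g : G, g * y * g⁻¹ ≠ y⁻¹) :
    2 * {s : G | s ∈ normalizer ((P : Subgroup G) : Set G) ∧ ∃ g : G, g * y * g⁻¹ = s}.ncard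
      ≤ 63 := by
  obtain ⟨Y, hY⟩ : ∃ Y : Set G,
      Y = {s : G | s ∈ normalizer ((P : Subgroup G) : Set G) ∧ ∃ g : G, g * y * g⁻¹ = s} :=
    ⟨_, rfl⟩
  rw [← hY]
  have hdisj : Disjoint Y (Inv.inv '' Y) := by
    rw [Set.disjoint_left]
    intro s hs hs'
    rw [hY] at hs hs'
    obtain ⟨_, g, hg⟩ := hs
    obtain ⟨r, ⟨_, g', hg'⟩, hr⟩ := hs'
    apply hinv (g'⁻¹ * g)
    have e1 : (g'⁻¹ * g) * y * (g'⁻¹ * g)⁻¹ = g'⁻¹ * (g * y * g⁻¹) * g' := by group
    rw [e1, hg, ← hr, ← hg']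
    group
  have hsub : Y ∪ Inv.inv '' Y ⊆ ((normalizer ((P : Subgroup G) : Set G) : Subgroup G) : Set G) := by
    intro s hs
    rcases hs with hs | hs
    · rw [hY] at hs
      exact hs.1
    · rw [hY] at hs
      obtain ⟨r, ⟨hr, _⟩, rfl⟩ := hs
      exact inv_mem hr
  have hcard : (Y ∪ Inv.inv '' Y).ncard = Y.ncard + (Inv.inv '' Y).ncard :=
    Set.ncard_union_eq hdisj (Set.toFinite _) (Set.toFinite _)
  have himg : (Inv.inv '' Y).ncard = Y.ncard := Set.ncard_image_of_injective _ inv_injective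
  have hle := Set.ncard_le_ncard hsub (Set.toFinite _)
  have hNc : ((normalizer ((P : Subgroup G) : Set G) : Subgroup G) : Set G).ncard = 63 := by
    rw [← Nat.card_coe_set_eq]
    exact hN
  omega

/-- A Sylow 3-subgroup containing `y`. -/
theorem exists_sylow_three (h : Nat.card G = 4032) (P : Sylow 7 G) (y : G)
    (hy3 : orderOf y = 3)
    (hM : centralizer ({y} : Set G) = normalizer ((P : Subgroup G) : Set G)) :
    ∃ R : Sylow 3 G, y ∈ (R : Subgroup G) ∧ Nat.card (R : Subgroup G) = 9 ∧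
      (R : Subgroup G) ≤ normalizer ((P : Subgroup G) : Set G) ∧
      ∀ a ∈ (R : Subgroup G), ∀ b ∈ (R : Subgroup G), a * b = b * a := by
  haveI : Fact (Nat.Prime 3) := ⟨by norm_num⟩
  have hpg : IsPGroup 3 (zpowers y) := by
    apply IsPGroup.of_card (n := 1)
    rw [Nat.card_zpowers, hy3, pow_one]
  obtain ⟨R, hR⟩ := hpg.exists_le_sylow
  have hR9 : Nat.card (R : Subgroup G) = 9 := by
    simpa using card_sylow_subgroup (k := 2) (m := 448) (h.trans (by norm_num)) (by norm_num) R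
  have hcomm : ∀ a ∈ (R : Subgroup G), ∀ b ∈ (R : Subgroup G), a * b = b * a := by
    intro a ha b hb
    have h1 := (IsPGroup.isMulCommutative_of_card_eq_prime_sq (p := 3)
      (G := (R : Subgroup G)) (by rw [hR9]; norm_num)).is_comm.comm
      (⟨a, ha⟩ : (R : Subgroup G)) ⟨b, hb⟩
    exact congrArg Subtype.val h1
  have hyR : y ∈ (R : Subgroup G) := hR (mem_zpowers y)
  refine ⟨R, hyR, hR9, ?_, hcomm⟩
  intro r hr
  rw [← hM]
  exact mem_centralizer_singleton_iff.mpr (hcomm r hr y hyR)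

/-- The case of a single conjugate of `y` in `N(P)`: Burnside's transfer theorem. -/
theorem case_one [IsSimpleGroup G] (hG : ¬ IsMulCommutative G) (h : Nat.card G = 4032)
    (P : Sylow 7 G) (hP : Nat.card (P : Subgroup G) = 7)
    (hC : Nat.card (centralizer ((P : Subgroup G) : Set G)) = 21)
    (hN : Nat.card (normalizer ((P : Subgroup G) : Set G)) = 63) (y : G)
    (hy3 : orderOf y = 3)
    (hM : centralizer ({y} : Set G) = normalizer ((P : Subgroup G) : Set G))
    (hY : ∀ s ∈ normalizer ((P : Subgroup G) : Set G), (∃ g : G, g * y * g⁻¹ = s) → s = y) :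
    False := by
  haveI : Fact (Nat.Prime 3) := ⟨by norm_num⟩
  obtain ⟨R, hyR, hR9, hRN, hcomm⟩ := exists_sylow_three h P y hy3 hM
  apply not_normalizer_le_centralizer hG (p := 3) (by rw [h]; norm_num) R
  have hNR : normalizer ((R : Subgroup G) : Set G) ≤ normalizer ((P : Subgroup G) : Set G) := by
    intro n hn
    have h1 : n * y * n⁻¹ ∈ (R : Subgroup G) := (mem_normalizer_iff.mp hn y).mp hyR
    have h2 := hY _ (hRN h1) ⟨n, rfl⟩
    rw [← hM, mem_centralizer_singleton_iff]
    calc n * y = (n * y * n⁻¹) * n := by group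
      _ = y * n := by rw [h2]
  have hRle : (R : Subgroup G) ≤ normalizer ((R : Subgroup G) : Set G) := le_normalizer
  have hd1 : 9 ∣ Nat.card (normalizer ((R : Subgroup G) : Set G)) :=
    hR9 ▸ Subgroup.card_dvd_of_le hRle
  have hd2 : Nat.card (normalizer ((R : Subgroup G) : Set G)) ∣ 63 :=
    hN ▸ Subgroup.card_dvd_of_le hNR
  rcases keyd _ (Nat.mem_divisors.mpr ⟨hd2, by norm_num⟩) hd1 with h9 | h63
  · have hEq : (R : Subgroup G) = normalizer ((R : Subgroup G) : Set G) :=
      Subgroup.eq_of_le_of_card_ge hRle (by rw [h9, hR9])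
    intro n hn
    rw [mem_centralizer_iff]
    intro r hr
    rw [← hEq] at hn
    exact hcomm r hr n hn
  · exfalso
    have hEq : normalizer ((R : Subgroup G) : Set G) = normalizer ((P : Subgroup G) : Set G) :=
      Subgroup.eq_of_le_of_card_ge hNR (by rw [h63, hN])
    have hPR : ∀ x ∈ (P : Subgroup G), ∀ r ∈ (R : Subgroup G), x * r = r * x := by
      intro x hx r hr
      have hxNR : x ∈ normalizer ((R : Subgroup G) : Set G) := by
        rw [hEq]
        exact le_normalizer hx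
      have hw1 : x * r * x⁻¹ * r⁻¹ ∈ (R : Subgroup G) :=
        mul_mem ((mem_normalizer_iff.mp hxNR r).mp hr) (inv_mem hr)
      have hw2 : x * r * x⁻¹ * r⁻¹ ∈ (P : Subgroup G) := by
        have e1 : x * r * x⁻¹ * r⁻¹ = x * (r * x⁻¹ * r⁻¹) := by group
        rw [e1]
        exact mul_mem hx ((mem_normalizer_iff.mp (hRN hr) x⁻¹).mp (inv_mem hx))
      have ho1 : orderOf (x * r * x⁻¹ * r⁻¹) ∣ 7 := hP ▸ orderOf_dvd_card_of_mem hw2
      have ho2 : orderOf (x * r * x⁻¹ * r⁻¹) ∣ 9 := hR9 ▸ orderOf_dvd_card_of_mem hw1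
      have hw : x * r * x⁻¹ * r⁻¹ = 1 := by
        have h3 : orderOf (x * r * x⁻¹ * r⁻¹) ∣ Nat.gcd 7 9 := Nat.dvd_gcd ho1 ho2
        have h4 : Nat.gcd 7 9 = 1 := by norm_num
        rw [h4, Nat.dvd_one] at h3
        exact orderOf_eq_one_iff.mp h3
      calc x * r = (x * r * x⁻¹ * r⁻¹) * (r * x) := by group
        _ = r * x := by rw [hw, one_mul]
    have hRC : (R : Subgroup G) ≤ centralizer ((P : Subgroup G) : Set G) := by
      intro r hr
      rw [mem_centralizer_iff]
      intro x hx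
      exact hPR x hx r hr
    have h3 := Subgroup.card_dvd_of_le hRC
    rw [hR9, hC] at h3
    omega

/-- Fixed points of the identity. -/
theorem card_fixedBy_one {H : Type*} [Group H] (X : Type*) [MulAction H X] :
    Nat.card (fixedBy X (1 : H)) = Nat.card X :=
  Nat.card_congr
    { toFun := fun x => x.1
      invFun := fun x => ⟨x, by simp⟩
      left_inv := fun _ => rfl
      right_inv := fun _ => rfl }

/-- The case of 22 conjugates of `y` in `N(P)`: orbit counting for a Sylow 3-subgroup. -/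
theorem case_22 (h : Nat.card G = 4032)
    (P : Sylow 7 G) (hP : Nat.card (P : Subgroup G) = 7)
    (hC : Nat.card (centralizer ((P : Subgroup G) : Set G)) = 21)
    (hN : Nat.card (normalizer ((P : Subgroup G) : Set G)) = 63) (y : G)
    (hy : y ∈ centralizer ((P : Subgroup G) : Set G)) (hy3 : orderOf y = 3)
    (hM : centralizer ({y} : Set G) = normalizer ((P : Subgroup G) : Set G))
    (hinv : ∀ g : G, g * y * g⁻¹ ≠ y⁻¹)
    (hf : Nat.card (fixedBy (G ⧸ normalizer ((P : Subgroup G) : Set G)) y) = 22)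
    (hk : {s : G | s ∈ normalizer ((P : Subgroup G) : Set G)
      ∧ ∃ g : G, g * y * g⁻¹ = s}.ncard = 22) : False := by
  classical
  have hy1 : y ≠ 1 := by
    intro h0
    rw [h0, orderOf_one] at hy3
    omega
  have hy3' : y ^ 3 = 1 := by rw [← hy3]; exact pow_orderOf_eq_one y
  have hCN : centralizer ((P : Subgroup G) : Set G) ≤ normalizer ((P : Subgroup G) : Set G) :=
    Subgroup.centralizer_le_normalizer _
  have hYC : ∀ s : G, (∃ g : G, g * y * g⁻¹ = s) →
      s ∈ centralizer ((P : Subgroup G) : Set G) → s = y := by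
    rintro s ⟨g, rfl⟩ hsC
    have hs3 : (g * y * g⁻¹) ^ 3 = 1 := by
      rw [conj_pow, hy3']
      group
    rcases eq_of_mem_zpowers y hy3 _
      (mem_zpowers_of_pow_three P hP hC y hy hy3 _ hsC hs3) with h1 | h1 | h1
    · exfalso
      apply hy1
      have h2 : y = g⁻¹ * (g * y * g⁻¹) * g := by group
      rw [h2, h1]
      group
    · exact h1
    · exact absurd h1 (hinv g)
  obtain ⟨Y, hYdef⟩ : ∃ Y : Set G,
      Y = {s : G | s ∈ normalizer ((P : Subgroup G) : Set G) ∧ ∃ g : G, g * y * g⁻¹ = s} :=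
    ⟨_, rfl⟩
  rw [← hYdef] at hk
  obtain ⟨A, hAdef⟩ : ∃ A : Set G,
      A = ((normalizer ((P : Subgroup G) : Set G) : Subgroup G) : Set G)
        \ ((centralizer ((P : Subgroup G) : Set G) : Subgroup G) : Set G) := ⟨_, rfl⟩
  have hyY : y ∈ Y := by
    rw [hYdef]
    exact ⟨hCN hy, 1, by group⟩
  have hY'card : (Y \ {y}).ncard = 21 := by
    rw [Set.ncard_diff_singleton_of_mem hyY, hk]
  have hY'sub : Y \ {y} ⊆ A := by
    intro s hs
    rw [hAdef]
    have hsY := hs.1
    rw [hYdef] at hsY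
    exact ⟨hsY.1, fun hsC => hs.2 (hYC s hsY.2 hsC)⟩
  have hinvsub : Inv.inv '' (Y \ {y}) ⊆ A := by
    rintro _ ⟨r, hr, rfl⟩
    have h1 := hY'sub hr
    rw [hAdef] at h1 ⊢
    refine ⟨inv_mem h1.1, fun hc => h1.2 ?_⟩
    have h2 := inv_mem hc
    rwa [inv_inv] at h2
  have hdisj : Disjoint (Y \ {y}) (Inv.inv '' (Y \ {y})) := by
    rw [Set.disjoint_left]
    intro s hs hs'
    have hsY := hs.1
    rw [hYdef] at hsY
    obtain ⟨_, g, hg⟩ := hsY
    obtain ⟨r, hr, hrs⟩ := hs'
    have hrY := hr.1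
    rw [hYdef] at hrY
    obtain ⟨_, g', hg'⟩ := hrY
    apply hinv (g'⁻¹ * g)
    have e1 : (g'⁻¹ * g) * y * (g'⁻¹ * g)⁻¹ = g'⁻¹ * (g * y * g⁻¹) * g' := by group
    rw [e1, hg, ← hrs, ← hg']
    group
  have hNc : ((normalizer ((P : Subgroup G) : Set G) : Subgroup G) : Set G).ncard = 63 := by
    rw [← Nat.card_coe_set_eq]
    exact hN
  have hCc : ((centralizer ((P : Subgroup G) : Set G) : Subgroup G) : Set G).ncard = 21 := by
    rw [← Nat.card_coe_set_eq]
    exact hC
  have hAcard : A.ncard = 42 := by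
    rw [hAdef, Set.ncard_diff (fun x hx => hCN hx) (Set.toFinite _), hNc, hCc]
  have hUnion : (Y \ {y}) ∪ Inv.inv '' (Y \ {y}) = A := by
    apply Set.eq_of_subset_of_ncard_le (Set.union_subset hY'sub hinvsub) _ (Set.toFinite _)
    rw [Set.ncard_union_eq hdisj (Set.toFinite _) (Set.toFinite _),
      Set.ncard_image_of_injective _ inv_injective, hY'card, hAcard]
  have hfix : ∀ s ∈ normalizer ((P : Subgroup G) : Set G),
      s ∉ centralizer ((P : Subgroup G) : Set G) →
      Nat.card (fixedBy (G ⧸ normalizer ((P : Subgroup G) : Set G)) s) = 22 := by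
    intro s hsN hsC
    have hsA : s ∈ A := by
      rw [hAdef]
      exact ⟨hsN, hsC⟩
    rw [← hUnion] at hsA
    rcases hsA with hs | hs
    · have hsY := hs.1
      rw [hYdef] at hsY
      obtain ⟨g, rfl⟩ := hsY.2
      have h1 := card_fixedBy_conj (X := G ⧸ normalizer ((P : Subgroup G) : Set G)) g⁻¹ y
      rw [inv_inv] at h1
      rw [h1, hf]
    · obtain ⟨r, hr, rfl⟩ := hs
      have hrY := hr.1
      rw [hYdef] at hrY
      obtain ⟨g, rfl⟩ := hrY.2
      rw [fixedBy_inv]
      have h1 := card_fixedBy_conj (X := G ⧸ normalizer ((P : Subgroup G) : Set G)) g⁻¹ y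
      rw [inv_inv] at h1
      rw [h1, hf]
  obtain ⟨R, hyR, hR9, hRN, hcomm⟩ := exists_sylow_three h P y hy3 hM
  have hfixR : ∀ r ∈ (R : Subgroup G), r ≠ 1 →
      Nat.card (fixedBy (G ⧸ normalizer ((P : Subgroup G) : Set G)) r) = 22 := by
    intro r hr hr1
    by_cases hrC : r ∈ centralizer ((P : Subgroup G) : Set G)
    · have ho1 : orderOf r ∣ 9 := hR9 ▸ orderOf_dvd_card_of_mem hr
      have ho2 : orderOf r ∣ 21 := hC ▸ orderOf_dvd_card_of_mem hrC
      have ho3 : orderOf r ∣ 3 := by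
        have h3 := Nat.dvd_gcd ho1 ho2
        have h4 : Nat.gcd 9 21 = 3 := by norm_num
        rwa [h4] at h3
      have hr3 : r ^ 3 = 1 := orderOf_dvd_iff_pow_eq_one.mp ho3
      rcases eq_of_mem_zpowers y hy3 r
        (mem_zpowers_of_pow_three P hP hC y hy hy3 r hrC hr3) with h1 | h1 | h1
      · exact absurd h1 hr1
      · rw [h1, hf]
      · rw [h1, fixedBy_inv, hf]
    · exact hfix r (hRN hr) hrC
  have hX : Nat.card (G ⧸ normalizer ((P : Subgroup G) : Set G)) = 64 := by
    have h2 := (normalizer ((P : Subgroup G) : Set G)).card_mul_index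
    rw [hN, h] at h2
    have h3 : (normalizer ((P : Subgroup G) : Set G)).index = 64 := by omega
    exact h3
  haveI : Fintype (R : Subgroup G) := Fintype.ofFinite _
  haveI : ∀ r : (R : Subgroup G),
      Fintype (fixedBy (G ⧸ normalizer ((P : Subgroup G) : Set G)) r) :=
    fun r => Fintype.ofFinite _
  haveI : Fintype (Quotient (orbitRel (R : Subgroup G)
      (G ⧸ normalizer ((P : Subgroup G) : Set G)))) := Fintype.ofFinite _
  have hB := MulAction.sum_card_fixedBy_eq_card_orbits_mul_card_group (R : Subgroup G)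
    (G ⧸ normalizer ((P : Subgroup G) : Set G))
  have hcR : Fintype.card (R : Subgroup G) = 9 := by rw [← Nat.card_eq_fintype_card, hR9]
  rw [hcR] at hB
  have hval : ∀ r : (R : Subgroup G),
      Fintype.card (fixedBy (G ⧸ normalizer ((P : Subgroup G) : Set G)) r)
        = 22 + if r = 1 then 42 else 0 := by
    intro r
    rw [← Nat.card_eq_fintype_card]
    split_ifs with hr1
    · subst hr1
      rw [card_fixedBy_one, hX]
    · have h1 := hfixR r.1 r.2 (fun h0 => hr1 (Subtype.ext h0))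
      rw [add_zero]
      exact h1
  rw [Finset.sum_congr rfl (fun r _ => hval r), Finset.sum_add_distrib, Finset.sum_const,
    Finset.sum_ite_eq', Finset.card_univ, hcR] at hB
  simp only [Finset.mem_univ, if_true, smul_eq_mul] at hB
  omega

/-- No simple group of order 4032 has exactly 64 Sylow 7-subgroups. -/
theorem case64 [IsSimpleGroup G] (hG : ¬ IsMulCommutative G) (h : Nat.card G = 4032)
    (P : Sylow 7 G) (hP : Nat.card (P : Subgroup G) = 7)
    (hC : Nat.card (centralizer ((P : Subgroup G) : Set G)) = 21)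
    (hN : Nat.card (normalizer ((P : Subgroup G) : Set G)) = 63) : False := by
  haveI : Fact (Nat.Prime 3) := ⟨by norm_num⟩
  obtain ⟨y, hy, hy3⟩ := exists_mem_orderOf_eq_prime
    (centralizer ((P : Subgroup G) : Set G)) 3 (by rw [hC]; norm_num)
  obtain ⟨hM, hfk⟩ := cent_y_eq h P hP hC hN y hy hy3
  have hinv := not_conj_inv P hP y hy hy3 hM
  have h2 := two_mul_ncard_le P hN y hinv
  rcases fix_cases h P hP hN y hy hy3 with hf | hf | hf
  · rw [hf] at hfk
    apply case_one hG h P hP hC hN y hy3 hM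
    intro s hs hconj
    obtain ⟨a, ha⟩ := Set.ncard_eq_one.mp hfk.symm
    have hyY : y ∈ {s : G | s ∈ normalizer ((P : Subgroup G) : Set G)
        ∧ ∃ g : G, g * y * g⁻¹ = s} :=
      ⟨Subgroup.centralizer_le_normalizer _ hy, 1, by group⟩
    have hsY : s ∈ {s : G | s ∈ normalizer ((P : Subgroup G) : Set G)
        ∧ ∃ g : G, g * y * g⁻¹ = s} := ⟨hs, hconj⟩
    rw [ha, Set.mem_singleton_iff] at hyY hsY
    rw [hsY, hyY]
  · exact case_22 h P hP hC hN y hy hy3 hM hinv hf (by rw [← hfk, hf])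
  · rw [hf] at hfk
    omega

end Cfsg.Agent.Lib.Helper17.O4032b
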