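import Mathlib
import Cfsg.Agent.Lib.Helper17.Sylow

set_option autoImplicit false

namespace Cfsg.Agent.Lib.Helper17.SylowSub

open Subgroup

variable {G : Type*} [Group G] [Finite G]

/-- Two distinct Sylow subgroups inside a subgroup `M`. -/
theorem card_sylow_of_two {p : ℕ} [Fact p.Prime] (P R : Sylow p G) (hPR : P ≠ R)
    (M : Subgroup G) (hP : (P : Subgroup G) ≤ M) (hR : (R : Subgroup G) ≤ M) :
    Nat.card (Sylow p M) ≠ 1 ∧ Nat.card (Sylow p M) % p = 1 ∧
      Nat.card (Sylow p M) * Nat.card (P : Subgroup G) ∣ Nat.card M := by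
  refine ⟨?_, Sylow.card_sylow_mod p, ?_⟩
  · intro h
    have hu := (Nat.card_eq_one_iff_unique.mp h).1
    exact hPR (Sylow.subtype_injective (hu.elim (P.subtype hP) (R.subtype hR)))
  · have h1 := (P.subtype hP).card_dvd_index
    have h2 := ((P.subtype hP : Sylow p M) : Subgroup M).card_mul_index
    have h3 : Nat.card ((P.subtype hP : Sylow p M) : Subgroup M) = Nat.card (P : Subgroup G) := by
      rw [Sylow.coe_subtype]
      exact Nat.card_congr (Subgroup.subgroupOfEquivOfLe hP).toEquiv
    rw [h3] at h2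
    rw [← h2, mul_comm]
    exact Nat.mul_dvd_mul_left _ h1

/-- A subgroup of index `p` in a `p`-group is normalized by the group. -/
theorem le_normalizer_of_relIndex_prime {p : ℕ} [Fact p.Prime] {P H : Subgroup G}
    (hP : IsPGroup p P) (hHP : H ≤ P) (hidx : H.relIndex P = p) :
    P ≤ normalizer (H : Set G) := by
  have hp : p.Prime := Fact.out
  rw [← Subgroup.normal_subgroupOf_iff_le_normalizer hHP]
  apply Subgroup.normal_of_index_eq_minFac_card
  obtain ⟨a, ha⟩ := hP.exists_card_eq
  have h1 : (H.subgroupOf P).index ∣ Nat.card P := Subgroup.index_dvd_card _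
  have hidx' : (H.subgroupOf P).index = p := hidx
  rw [hidx', ha]
  rw [hidx', ha] at h1
  have ha0 : a ≠ 0 := by
    rintro rfl
    rw [pow_zero] at h1
    exact hp.one_lt.ne' (Nat.dvd_one.mp h1)
  exact (hp.pow_minFac ha0).symm

end Cfsg.Agent.Lib.Helper17.SylowSub
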